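import Mathlib
import Cfsg.Agent.H93.AOrbDefs

set_option autoImplicit false

namespace Cfsg.Agent.H1.AOrb

open Cfsg.Agent.H93.AOrb

universe u

/-- In a group all of whose non-identity elements have prime order, an element commuting with
an element `g` of prime order `p` has order `1` or `p`. -/
theorem epo_comm_pow {G : Type u} [Group G] (hE : Epo G) (g x : G) (hg : g ≠ 1)
    (hc : Commute g x) : x ^ orderOf g = 1 := by
  by_cases hx : x = 1
  · rw [hx, one_pow]
  have hp := hE g hg
  have hq := hE x hx
  by_cases hpq : orderOf x = orderOf g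
  · rw [← hpq]; exact pow_orderOf_eq_one x
  exfalso
  have hcop : Nat.Coprime (orderOf g) (orderOf x) :=
    (Nat.coprime_primes hp hq).2 (fun h => hpq h.symm)
  have hord : orderOf (g * x) = orderOf g * orderOf x :=
    hc.orderOf_mul_eq_mul_orderOf_of_coprime hcop
  have hgx : g * x ≠ 1 := by
    intro h
    rw [h, orderOf_one] at hord
    have := hp.one_lt
    have := hq.one_lt
    nlinarith
  have hpr := hE (g * x) hgx
  rw [hord] at hpr
  exact Nat.not_prime_mul hp.one_lt.ne' hq.one_lt.ne' hpr

theorem epoCN : StEpoCN.{u} := by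
  intro G _ _ hE g hg
  have hp := hE g hg
  have hfact : Fact (orderOf g).Prime := ⟨hp⟩
  have hP : IsPGroup (orderOf g) ↥(Subgroup.centralizer ({g} : Set G)) := by
    intro x
    refine ⟨1, ?_⟩
    have hc : Commute g x.1 := by
      have := x.2
      rw [Subgroup.mem_centralizer_iff] at this
      exact this g (Set.mem_singleton g)
    have h := epo_comm_pow hE g x.1 hg hc
    apply Subtype.ext
    rw [pow_one]
    simpa using h
  exact hP.isNilpotent

example : Cfsg.Agent.H93.AOrb.StEpoCN.{u} := epoCN

end Cfsg.Agent.H1.AOrb
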