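import Mathlib
import Cfsg.Agent.H93.AOrbDefs

set_option autoImplicit false

namespace Cfsg.Agent.H1.AOrb

open Cfsg.Agent.H93.AOrb

universe u

/-- In a group all of whose non-identity elements have prime order, an element commuting with
an involution squares to one. -/
theorem epo_comm_sq {G : Type u} [Group G] (hE : Epo G) (t x : G) (ht : orderOf t = 2)
    (hc : Commute t x) : x * x = 1 := by
  by_cases hx : x = 1
  · rw [hx, one_mul]
  have hq := hE x hx
  by_cases hpq : orderOf x = 2
  · have := pow_orderOf_eq_one x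
    rw [hpq, pow_two] at this
    exact this
  exfalso
  have hcop : Nat.Coprime (orderOf t) (orderOf x) := by
    rw [ht]
    exact (Nat.coprime_primes Nat.prime_two hq).2 (fun h => hpq h.symm)
  have hord : orderOf (t * x) = orderOf t * orderOf x :=
    hc.orderOf_mul_eq_mul_orderOf_of_coprime hcop
  have hgx : t * x ≠ 1 := by
    intro h
    rw [h, orderOf_one, ht] at hord
    have := hq.one_lt
    omega
  have hpr := hE (t * x) hgx
  rw [hord, ht] at hpr
  exact Nat.not_prime_mul (by norm_num) hq.one_lt.ne' hpr

theorem epoInv : StEpoInv.{u} := by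
  intro G _ _ hE t ht
  have hsq : ∀ x : ↥(Subgroup.centralizer ({t} : Set G)), x * x = 1 := by
    intro x
    have hc : Commute t x.1 := by
      have := x.2
      rw [Subgroup.mem_centralizer_iff] at this
      exact this t (Set.mem_singleton t)
    apply Subtype.ext
    exact epo_comm_sq hE t x.1 ht hc
  refine ⟨⟨fun a b => ?_⟩⟩
  have ha : a⁻¹ = a := inv_eq_of_mul_eq_one_left (hsq a)
  have hb : b⁻¹ = b := inv_eq_of_mul_eq_one_left (hsq b)
  have hab : (a * b)⁻¹ = a * b := inv_eq_of_mul_eq_one_left (hsq (a * b))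
  calc a * b = (a * b)⁻¹ := hab.symm
    _ = b⁻¹ * a⁻¹ := mul_inv_rev a b
    _ = b * a := by rw [ha, hb]

example : Cfsg.Agent.H93.AOrb.StEpoInv.{u} := epoInv

end Cfsg.Agent.H1.AOrb
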