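import Mathlib
import Cfsg.Agent.H93.AOrbDefs

set_option autoImplicit false

namespace Cfsg.Agent.H1.AOrb

open Cfsg.Agent.H93.AOrb

universe u

theorem orbCount : StOrbCount.{u} := by
  intro G _ _ s hs
  classical
  let f : MulAction.orbitRel.Quotient (MulAut G) G → ℕ :=
    Quotient.lift (fun g : G => orderOf g) (by
      intro a b hab
      change a ∈ MulAction.orbit (MulAut G) b at hab
      obtain ⟨φ, rfl⟩ := hab
      show orderOf (φ • b) = orderOf b
      rw [MulAut.smul_def]
      exact φ.orderOf_eq b)
  letI : Fintype (MulAction.orbitRel.Quotient (MulAut G) G) := Fintype.ofFinite _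
  have hsub : s ⊆ Finset.image f Finset.univ := by
    intro k hk
    obtain ⟨g, hg⟩ := hs k hk
    rw [Finset.mem_image]
    exact ⟨Quotient.mk _ g, Finset.mem_univ _, hg⟩
  calc s.card ≤ (Finset.image f Finset.univ).card := Finset.card_le_card hsub
    _ ≤ (Finset.univ : Finset (MulAction.orbitRel.Quotient (MulAut G) G)).card :=
        Finset.card_image_le
    _ = Nat.card (MulAction.orbitRel.Quotient (MulAut G) G) := by
        rw [Finset.card_univ, Nat.card_eq_fintype_card]

example : Cfsg.Agent.H93.AOrb.StOrbCount.{u} := orbCount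

end Cfsg.Agent.H1.AOrb
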