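import Mathlib
import Cfsg.Prelude.Def_Blocks
import Cfsg.Prelude.Def_Characters
import Cfsg.Agent.H21.BRDefs

/-!
# S0997 (Brauer–Tuan), type B: definitions and exact statements of the pieces (helper1)

Type B: `G` simple, `|G| = 2 ^ b * p * (p - e)`, `C(P) = P`, `|N(P)| = p * e`, `e` even,
`2 * e ≤ p - 1`, principal block data `B0Data p P e X Y δ (-1)`, exceptional degree `p - e`.
`τ` is an involution inverting `P`, `x ∈ P`, `x ≠ 1`.  Goal of the pieces: `2 ^ b ≤ p - 1`.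
-/

set_option autoImplicit false

namespace Cfsg.Agent.H1.BT

open Cfsg Cfsg.Agent.H21.BR
open scoped ComplexConjugate

universe u

/-- The class-multiplication character sum. -/
noncomputable def Psi {G : Type u} [Group G] (z v y : G) : ℂ :=
  ∑ᶠ χ : IrrCharacter G, (χ : G → ℂ) z * (χ : G → ℂ) v * (χ : G → ℂ) y⁻¹ / (χ : G → ℂ) 1

/-- Type B context. -/
structure Ctx {G : Type u} [Group G] (p e b : ℕ) (P : Sylow p G)
    (X Y : Finset (IrrCharacter G)) (δ : IrrCharacter G → ℤ) (τ x : G) : Prop where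
  hp : p.Prime
  hp2 : p ≠ 2
  hP : Nat.card (P : Subgroup G) = p
  hC : Subgroup.centralizer ((P : Subgroup G) : Set G) = (P : Subgroup G)
  hN : Nat.card (Subgroup.normalizer ((P : Subgroup G) : Set G)) = p * e
  hev : Even e
  he2 : 2 ≤ e
  h2e : 2 * e ≤ p - 1
  hcard : Nat.card G = 2 ^ b * p * (p - e)
  hB0 : B0Data p (P : Subgroup G) e X Y δ (-1)
  degY : ∀ θ ∈ Y, charDegree (θ : G → ℂ) = p - e
  evenX : ∀ χ ∈ X, χ ≠ one G → Even (charDegree (χ : G → ℂ))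
  hτ : orderOf τ = 2
  hinv : ∀ y ∈ (P : Subgroup G), τ * y * τ⁻¹ = y⁻¹
  hx : x ∈ (P : Subgroup G)
  hx1 : x ≠ 1

/-- Type B with `t = 2`: `p = 2 e + 1`, `e ≥ 4`, `Y = {θ₁, θ₂}`. -/
structure T2 {G : Type u} [Group G] (p e b : ℕ) (P : Sylow p G)
    (X Y : Finset (IrrCharacter G)) (δ : IrrCharacter G → ℤ) (τ x : G)
    (θ₁ θ₂ : IrrCharacter G) : Prop where
  ctx : Ctx p e b P X Y δ τ x
  ht : 2 * e + 1 = p
  he4 : 4 ≤ e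
  hY : ∀ θ : IrrCharacter G, θ ∈ Y ↔ θ = θ₁ ∨ θ = θ₂
  hne : θ₁ ≠ θ₂

/-- The conclusion of the character analysis: `Psi τ u x ≠ 0` for every involution `u`, and the
value of `Psi τ τ x`. -/
def PsiFacts {G : Type u} [Group G] (p e : ℕ) (τ x : G) : Prop :=
  (∀ u : G, orderOf u = 2 → Psi τ u x ≠ 0) ∧ Psi τ τ x = ((p : ℂ) - 1) / ((p : ℂ) - (e : ℂ))

/-! ### General pieces -/

/-- GEN: class multiplication constants via characters (two classes). -/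
def StGen : Prop :=
  ∀ {G : Type u} [Group G] [Finite G] (z v y : G),
    (Nat.card {ab : G × G // ab.1 * z * ab.1⁻¹ * (ab.2 * v * ab.2⁻¹) = y} : ℂ) =
      (Nat.card G : ℂ) * Psi z v y

/-- INV: an involution `u` with `τ^a * u^b = x ∈ P \ 1` is conjugate to `τ`. -/
def StInv : Prop :=
  ∀ {G : Type u} [Group G] [Finite G] (p : ℕ) (_ : p.Prime) (_ : p ≠ 2) (P : Sylow p G)
    (_ : Nat.card (P : Subgroup G) = p)
    (_ : Subgroup.centralizer ((P : Subgroup G) : Set G) = (P : Subgroup G))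
    (τ : G) (_ : orderOf τ = 2) (_ : ∀ y ∈ (P : Subgroup G), τ * y * τ⁻¹ = y⁻¹)
    (x : G) (_ : x ∈ (P : Subgroup G)) (_ : x ≠ 1) (u : G) (_ : orderOf u = 2) (a b : G)
    (_ : a * τ * a⁻¹ * (b * u * b⁻¹) = x), ∃ g : G, g * τ * g⁻¹ = u

/-- CEN: if all involutions are conjugate to `τ` then `2 ^ b ∣ |C(τ)|` whenever `2 ^ b ∣ |G|`. -/
def StCen : Prop :=
  ∀ {G : Type u} [Group G] [Finite G] (b : ℕ) (_ : 2 ^ b ∣ Nat.card G) (τ : G)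
    (_ : orderOf τ = 2) (_ : ∀ u : G, orderOf u = 2 → ∃ g : G, g * τ * g⁻¹ = u),
    2 ^ b ∣ Nat.card (Subgroup.centralizer ({τ} : Set G))

/-- KER: a non-linear irreducible character of a non-cyclic simple group is faithful. -/
def StKer : Prop :=
  ∀ {G : Type u} [Group G] [Finite G] [IsSimpleGroup G] (_ : ¬ IsCyclic G)
    (ψ : IrrCharacter G) (_ : 2 ≤ charDegree (ψ : G → ℂ)) (u : G)
    (_ : (ψ : G → ℂ) u = (ψ : G → ℂ) 1), u = 1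

/-- FIN: the final count. -/
def StFin : Prop :=
  ∀ {G : Type u} [Group G] [Finite G] (p e b : ℕ) (P : Sylow p G)
    (X Y : Finset (IrrCharacter G)) (δ : IrrCharacter G → ℤ) (τ x : G)
    (_ : Ctx p e b P X Y δ τ x) (_ : PsiFacts p e τ x), 2 ^ b ≤ p - 1

/-- E2: the case `e = 2`. -/
def StE2 : Prop :=
  ∀ {G : Type u} [Group G] [Finite G] [IsSimpleGroup G] (_ : ¬ IsCyclic G) (p e b : ℕ)
    (P : Sylow p G) (X Y : Finset (IrrCharacter G)) (δ : IrrCharacter G → ℤ) (τ x : G)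
    (_ : Ctx p e b P X Y δ τ x) (_ : e = 2), PsiFacts p e τ x

/-- ARITH: the 2-adic argument, `4 ∣ e` forces `t = 2`. -/
def StArith : Prop :=
  ∀ {G : Type u} [Group G] [Finite G] (p e b : ℕ) (P : Sylow p G)
    (X Y : Finset (IrrCharacter G)) (δ : IrrCharacter G → ℤ) (τ x : G)
    (_ : Ctx p e b P X Y δ τ x) (_ : 4 ∣ e), 2 * e + 1 = p

/-! ### Pieces for `t = 2` -/

/-- INNER: inner product with a class function supported on the `p`-singular elements. -/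
def StInner : Prop :=
  ∀ {G : Type u} [Group G] [Fintype G] (p e : ℕ) (_ : p.Prime) (P : Sylow p G)
    (_ : Nat.card (P : Subgroup G) = p)
    (_ : Subgroup.centralizer ((P : Subgroup G) : Set G) = (P : Subgroup G))
    (_ : Nat.card (Subgroup.normalizer ((P : Subgroup G) : Set G)) = p * e)
    (f ψ : G → ℂ) (_ : IsClassFunction G f) (_ : IsClassFunction G ψ)
    (_ : ∀ g : G, ¬ p ∣ orderOf g → f g = 0),
    classInner f ψ =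
      ((p : ℂ) * (e : ℂ))⁻¹ * ∑ᶠ y : ↥(P : Subgroup G), f (y : G) * conj (ψ (y : G))

/-- The values of `θ₁, θ₂` on `P \ 1`. -/
def ValP {G : Type u} [Group G] {p : ℕ} (e : ℕ) (P : Sylow p G) (θ₁ θ₂ : IrrCharacter G) : Prop :=
  ∀ y ∈ (P : Subgroup G), y ≠ 1 →
    (θ₁ : G → ℂ) y + (θ₂ : G → ℂ) y = 1 ∧ (θ₁ : G → ℂ) y * (θ₂ : G → ℂ) y = -(e : ℂ) / 2 ∧
    conj ((θ₁ : G → ℂ) y) = (θ₁ : G → ℂ) y ∧ conj ((θ₂ : G → ℂ) y) = (θ₂ : G → ℂ) y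

/-- VALP -/
def StValP : Prop :=
  ∀ {G : Type u} [Group G] [Finite G] (p e b : ℕ) (P : Sylow p G)
    (X Y : Finset (IrrCharacter G)) (δ : IrrCharacter G → ℤ) (τ x : G) (θ₁ θ₂ : IrrCharacter G)
    (_ : T2 p e b P X Y δ τ x θ₁ θ₂), ValP e P θ₁ θ₂

/-- The sums of `θ₁, θ₂` over `P`. -/
def SumP {G : Type u} [Group G] (p e : ℕ) (P : Sylow p G) (θ₁ θ₂ : IrrCharacter G) : Prop :=
  ∑ᶠ y : ↥(P : Subgroup G), ((θ₁ : G → ℂ) y - (θ₂ : G → ℂ) y) * (θ₁ : G → ℂ) y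
      = (p : ℂ) * (e : ℂ) ∧
  ∑ᶠ y : ↥(P : Subgroup G), (θ₁ : G → ℂ) y = (p : ℂ) ∧
  ∑ᶠ y : ↥(P : Subgroup G), (θ₂ : G → ℂ) y = (p : ℂ)

/-- SUMP -/
def StSumP : Prop :=
  ∀ {G : Type u} [Group G] [Finite G] (p e b : ℕ) (P : Sylow p G)
    (X Y : Finset (IrrCharacter G)) (δ : IrrCharacter G → ℤ) (τ x : G) (θ₁ θ₂ : IrrCharacter G)
    (_ : T2 p e b P X Y δ τ x θ₁ θ₂) (_ : ValP e P θ₁ θ₂), SumP p e P θ₁ θ₂

/-- The key identity `(θ₁ - θ₂) θ₁ = θ₁ + Σ_X δ χ`. -/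
def Star {G : Type u} [Group G] (X : Finset (IrrCharacter G)) (δ : IrrCharacter G → ℤ)
    (θ₁ θ₂ : IrrCharacter G) : Prop :=
  ∀ g : G, ((θ₁ : G → ℂ) g - (θ₂ : G → ℂ) g) * (θ₁ : G → ℂ) g =
    (θ₁ : G → ℂ) g + ∑ χ ∈ X, (δ χ : ℂ) * (χ : G → ℂ) g

/-- STAR -/
def StStar : Prop :=
  ∀ {G : Type u} [Group G] [Finite G] (p e b : ℕ) (P : Sylow p G)
    (X Y : Finset (IrrCharacter G)) (δ : IrrCharacter G → ℤ) (τ x : G) (θ₁ θ₂ : IrrCharacter G)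
    (_ : T2 p e b P X Y δ τ x θ₁ θ₂) (_ : ValP e P θ₁ θ₂) (_ : SumP p e P θ₁ θ₂),
    Star X δ θ₁ θ₂

/-- REAL: `θ₁, θ₂` are real valued. -/
def StReal : Prop :=
  ∀ {G : Type u} [Group G] [Finite G] (p e b : ℕ) (P : Sylow p G)
    (X Y : Finset (IrrCharacter G)) (δ : IrrCharacter G → ℤ) (τ x : G) (θ₁ θ₂ : IrrCharacter G)
    (_ : T2 p e b P X Y δ τ x θ₁ θ₂) (_ : ValP e P θ₁ θ₂),
    (∀ g : G, conj ((θ₁ : G → ℂ) g) = (θ₁ : G → ℂ) g) ∧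
      ∀ g : G, conj ((θ₂ : G → ℂ) g) = (θ₂ : G → ℂ) g

/-- DEGA: the arithmetic of the degrees. -/
def StDegA : Prop :=
  ∀ {ι : Type u} (Sp Sm : Finset ι) (D : ι → ℕ) (p e : ℕ) (_ : 2 * e + 1 = p) (_ : 4 ≤ e)
    (_ : Even e) (_ : Sp.card + Sm.card + 1 = e)
    (_ : ∀ i ∈ Sp, Even (D i) ∧ 2 ≤ D i ∧ (D i : ℤ) ≡ 1 [ZMOD p])
    (_ : ∀ i ∈ Sm, Even (D i) ∧ 2 ≤ D i ∧ (D i : ℤ) ≡ -1 [ZMOD p])
    (_ : ∑ i ∈ Sm, D i = ∑ i ∈ Sp, D i + e + 2)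
    (_ : ∑ i ∈ Sm, D i ≤ (e + 1) ^ 2) (_ : ∑ i ∈ Sm, D i + 1 ≠ (e + 1) ^ 2),
    (∀ i ∈ Sm, D i = p - 1) ∧ (∀ i ∈ Sp, D i = p + 1) ∧ 2 * Sm.card = e ∧ 2 * Sp.card + 2 = e

/-- The degrees of the non-exceptional characters. -/
def Degs {G : Type u} [Group G] (p e : ℕ) (X : Finset (IrrCharacter G))
    (δ : IrrCharacter G → ℤ) : Prop :=
  (∀ χ ∈ minusSet X δ, charDegree (χ : G → ℂ) = p - 1) ∧
  (∀ χ ∈ plusSet X δ, charDegree (χ : G → ℂ) = p + 1) ∧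
  2 * (minusSet X δ).card = e ∧ 2 * (plusSet X δ).card + 2 = e

/-- DEG1 -/
def StDeg1 : Prop :=
  ∀ {G : Type u} [Group G] [Finite G] (p e b : ℕ) (P : Sylow p G)
    (X Y : Finset (IrrCharacter G)) (δ : IrrCharacter G → ℤ) (τ x : G) (θ₁ θ₂ : IrrCharacter G)
    (_ : T2 p e b P X Y δ τ x θ₁ θ₂) (_ : Star X δ θ₁ θ₂)
    (_ : ∀ g : G, conj ((θ₂ : G → ℂ) g) = (θ₂ : G → ℂ) g), Degs p e X δ

/-- The character `R` of degree `p`: `θ₁ θ₂ = R + Σ_{X⁻} χ`. -/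
def IsR {G : Type u} [Group G] (p : ℕ) (X Y : Finset (IrrCharacter G))
    (δ : IrrCharacter G → ℤ) (θ₁ θ₂ R : IrrCharacter G) : Prop :=
  R ∉ X ∧ R ∉ Y ∧ charDegree (R : G → ℂ) = p ∧
    ∀ g : G, (θ₁ : G → ℂ) g * (θ₂ : G → ℂ) g =
      (R : G → ℂ) g + ∑ χ ∈ minusSet X δ, (χ : G → ℂ) g

/-- DEGR -/
def StDegR : Prop :=
  ∀ {G : Type u} [Group G] [Finite G] (p e b : ℕ) (P : Sylow p G)
    (X Y : Finset (IrrCharacter G)) (δ : IrrCharacter G → ℤ) (τ x : G) (θ₁ θ₂ : IrrCharacter G)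
    (_ : T2 p e b P X Y δ τ x θ₁ θ₂) (_ : Star X δ θ₁ θ₂)
    (_ : ∀ g : G, conj ((θ₂ : G → ℂ) g) = (θ₂ : G → ℂ) g) (_ : Degs p e X δ),
    ∃ R : IrrCharacter G, IsR p X Y δ θ₁ θ₂ R

/-- DIH: constituents of a character with vanishing dihedral sums. -/
def StDih : Prop :=
  ∀ {G : Type u} [Group G] [Fintype G] (p : ℕ) (_ : p.Prime) (_ : p ≠ 2) (P : Subgroup G)
    (_ : Nat.card P = p) (τ : G) (_ : orderOf τ = 2) (_ : ∀ y ∈ P, τ * y * τ⁻¹ = y⁻¹)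
    (Ξ : G → ℂ) (_ : IsCharacter G Ξ) (ψ : IrrCharacter G) (_ : classInner Ξ (ψ : G → ℂ) ≠ 0),
    ((∑ᶠ y : ↥P, Ξ (y : G)) + (p : ℂ) * Ξ τ = 0 →
        (∑ᶠ y : ↥P, (ψ : G → ℂ) (y : G)) + (p : ℂ) * (ψ : G → ℂ) τ = 0) ∧
      ((∑ᶠ y : ↥P, Ξ (y : G)) - (p : ℂ) * Ξ τ = 0 →
        (∑ᶠ y : ↥P, (ψ : G → ℂ) (y : G)) - (p : ℂ) * (ψ : G → ℂ) τ = 0)

/-- SYM: the symmetric square of a character is a character. -/
def StSym : Prop :=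
  ∀ {G : Type u} [Group G] (χ : G → ℂ) (_ : IsCharacter G χ),
    IsCharacter G (fun g => (χ g ^ 2 + χ (g * g)) / 2)

/-- The values at `τ`. -/
def TauV {G : Type u} [Group G] (X : Finset (IrrCharacter G)) (δ : IrrCharacter G → ℤ)
    (τ : G) (θ₁ R : IrrCharacter G) : Prop :=
  (θ₁ : G → ℂ) τ ^ 2 = 1 ∧ (R : G → ℂ) τ = 1 ∧ ∀ χ ∈ minusSet X δ, (χ : G → ℂ) τ = 0

/-- TAUV -/
def StTauV : Prop :=
  ∀ {G : Type u} [Group G] [Finite G] (p e b : ℕ) (P : Sylow p G)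
    (X Y : Finset (IrrCharacter G)) (δ : IrrCharacter G → ℤ) (τ x : G)
    (θ₁ θ₂ R : IrrCharacter G)
    (_ : T2 p e b P X Y δ τ x θ₁ θ₂) (_ : ValP e P θ₁ θ₂) (_ : SumP p e P θ₁ θ₂)
    (_ : Degs p e X δ) (_ : IsR p X Y δ θ₁ θ₂ R), TauV X δ τ θ₁ R

/-- The Adams operation identity `θ₁(g²) = 1 + s θ₁(g) + R(g) + Σ_{X⁺} (χ(τ)/2) χ(g)`. -/
def Adams {G : Type u} [Group G] (X : Finset (IrrCharacter G)) (δ : IrrCharacter G → ℤ)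
    (τ : G) (θ₁ R : IrrCharacter G) : Prop :=
  ∀ g : G, (θ₁ : G → ℂ) (g * g) = 1 + (θ₁ : G → ℂ) τ * (θ₁ : G → ℂ) g + (R : G → ℂ) g +
    ∑ χ ∈ plusSet X δ, ((χ : G → ℂ) τ / 2) * (χ : G → ℂ) g

/-- ADAMS -/
def StAdams : Prop :=
  ∀ {G : Type u} [Group G] [Finite G] (p e b : ℕ) (P : Sylow p G)
    (X Y : Finset (IrrCharacter G)) (δ : IrrCharacter G → ℤ) (τ x : G)
    (θ₁ θ₂ R : IrrCharacter G)
    (_ : T2 p e b P X Y δ τ x θ₁ θ₂) (_ : ValP e P θ₁ θ₂) (_ : SumP p e P θ₁ θ₂)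
    (_ : Star X δ θ₁ θ₂) (_ : Degs p e X δ) (_ : IsR p X Y δ θ₁ θ₂ R)
    (_ : TauV X δ τ θ₁ R), Adams X δ τ θ₁ R

/-- PSI2: the character sum for `t = 2`. -/
def StPsi2 : Prop :=
  ∀ {G : Type u} [Group G] [Finite G] [IsSimpleGroup G] (_ : ¬ IsCyclic G) (p e b : ℕ)
    (P : Sylow p G) (X Y : Finset (IrrCharacter G)) (δ : IrrCharacter G → ℤ) (τ x : G)
    (θ₁ θ₂ R : IrrCharacter G)
    (_ : T2 p e b P X Y δ τ x θ₁ θ₂) (_ : ValP e P θ₁ θ₂) (_ : Degs p e X δ)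
    (_ : IsR p X Y δ θ₁ θ₂ R) (_ : TauV X δ τ θ₁ R) (_ : Adams X δ τ θ₁ R),
    PsiFacts p e τ x

end Cfsg.Agent.H1.BT
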