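import Mathlib
import Cfsg.Agent.H1.BTDefs
import Cfsg.Agent.H21.BRSplit
import Cfsg.Agent.H21.SimpleTools
import Cfsg.Agent.H62.BRTBG1
import Cfsg.Agent.S0999

set_option autoImplicit false

namespace Cfsg.Agent.H1.BT

open Cfsg Cfsg.Agent.H21 Cfsg.Agent.H21.BR
open scoped ComplexConjugate

universe u

/-- The chain of the `t = 2` pieces. -/
theorem psiFacts_t2 (hValP : StValP.{u}) (hSumP : StSumP.{u}) (hStar : StStar.{u})
    (hReal : StReal.{u}) (hDeg1 : StDeg1.{u}) (hDegR : StDegR.{u}) (hTauV : StTauV.{u})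
    (hAdams : StAdams.{u}) (hPsi2 : StPsi2.{u})
    {G : Type u} [Group G] [Finite G] [IsSimpleGroup G] (hG : ¬ IsCyclic G) (p e b : ℕ)
    (P : Sylow p G) (X Y : Finset (IrrCharacter G)) (δ : IrrCharacter G → ℤ) (τ x : G)
    (θ₁ θ₂ : IrrCharacter G) (h : T2 p e b P X Y δ τ x θ₁ θ₂) : PsiFacts p e τ x := by
  have hV := hValP p e b P X Y δ τ x θ₁ θ₂ h
  have hS := hSumP p e b P X Y δ τ x θ₁ θ₂ h hV
  have hSt := hStar p e b P X Y δ τ x θ₁ θ₂ h hV hS
  have hR := (hReal p e b P X Y δ τ x θ₁ θ₂ h hV).2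
  have hD := hDeg1 p e b P X Y δ τ x θ₁ θ₂ h hSt hR
  obtain ⟨R, hRR⟩ := hDegR p e b P X Y δ τ x θ₁ θ₂ h hSt hR hD
  have hT := hTauV p e b P X Y δ τ x θ₁ θ₂ R h hV hS hD hRR
  have hA := hAdams p e b P X Y δ τ x θ₁ θ₂ R h hV hS hSt hD hRR hT
  exact hPsi2 hG p e b P X Y δ τ x θ₁ θ₂ R h hV hD hRR hT hA

/-- Type B: `2 ^ b ≤ p - 1`. -/
theorem two_pow_le (hFin : StFin.{u}) (hE2 : StE2.{u}) (hArith : StArith.{u})
    (hValP : StValP.{u}) (hSumP : StSumP.{u}) (hStar : StStar.{u})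
    (hReal : StReal.{u}) (hDeg1 : StDeg1.{u}) (hDegR : StDegR.{u}) (hTauV : StTauV.{u})
    (hAdams : StAdams.{u}) (hPsi2 : StPsi2.{u})
    {G : Type u} [Group G] [Finite G] [IsSimpleGroup G] (hG : ¬ IsCyclic G) (p e a b : ℕ)
    (P : Sylow p G) (X Y : Finset (IrrCharacter G)) (δ : IrrCharacter G → ℤ) (τ x : G)
    (c : Ctx p e b P X Y δ τ x) (he : e = 2 ^ a) : 2 ^ b ≤ p - 1 := by
  classical
  have he2 := c.he2
  rcases Nat.lt_or_ge a 2 with ha | ha
  · have ha1 : a = 1 := by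
      rcases Nat.lt_or_ge a 1 with h0 | h0
      · have : a = 0 := by omega
        subst this
        simp at he
        omega
      · omega
    subst ha1
    have he' : e = 2 := by simpa using he
    exact hFin p e b P X Y δ τ x c (hE2 hG p e b P X Y δ τ x c he')
  · have h4 : 4 ∣ e := by
      rw [he]
      exact (pow_dvd_pow 2 ha : (2:ℕ) ^ 2 ∣ 2 ^ a)
    have hpe := hArith p e b P X Y δ τ x c h4
    have he4 : 4 ≤ e := Nat.le_of_dvd (by omega) h4
    have hYc : Y.card = 2 := by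
      have h1 := c.hB0.cardY
      have h2 : Y.card * e = 2 * e := by rw [h1]; omega
      exact Nat.eq_of_mul_eq_mul_right (by omega) h2
    obtain ⟨θ₁, θ₂, hne, hY⟩ := Finset.card_eq_two.1 hYc
    have hT : T2 p e b P X Y δ τ x θ₁ θ₂ :=
      { ctx := c
        ht := hpe
        he4 := he4
        hY := fun θ => by rw [hY]; simp
        hne := hne }
    exact hFin p e b P X Y δ τ x c
      (psiFacts_t2 hValP hSumP hStar hReal hDeg1 hDegR hTauV hAdams hPsi2 hG p e b P X Y δ τ x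
        θ₁ θ₂ hT)

/-- Type B data for S0997. -/
def TypeBData {G : Type u} [Group G] (p : ℕ) : Prop :=
  ∃ (P : Sylow p G) (e a b : ℕ) (X Y : Finset (IrrCharacter G)) (δ : IrrCharacter G → ℤ),
    Nat.card (P : Subgroup G) = p ∧
    Subgroup.centralizer ((P : Subgroup G) : Set G) = (P : Subgroup G) ∧
    e = 2 ^ a ∧
    Nat.card (Subgroup.normalizer ((P : Subgroup G) : Set G)) = p * e ∧
    2 * e ≤ p - 1 ∧
    Nat.card G = 2 ^ b * p * (p - e) ∧
    B0Data p (P : Subgroup G) e X Y δ (-1) ∧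
    (∀ θ ∈ Y, charDegree (θ : G → ℂ) = p - e) ∧
    (∀ χ ∈ X, χ ≠ one G → Even (charDegree (χ : G → ℂ)))

/-- The conclusion of S0997. -/
def Concl (G : Type u) [Group G] (p : ℕ) : Prop :=
  (∃ (m : ℕ) (F : Type) (_ : Field F) (_ : Fintype F), Fintype.card F = p ∧
      (p = 2 ^ m + 1 ∨ p = 2 ^ m - 1) ∧
      Nonempty (G ≃* Matrix.ProjectiveSpecialLinearGroup (Fin 2) F)) ∨
    (∃ (m : ℕ) (F : Type) (_ : Field F) (_ : Fintype F), Fintype.card F = 2 ^ m ∧
      p = 2 ^ m + 1 ∧ 3 < p ∧ Nonempty (G ≃* Matrix.ProjectiveSpecialLinearGroup (Fin 2) F))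

theorem typeB (hFin : StFin.{u}) (hE2 : StE2.{u}) (hArith : StArith.{u})
    (hValP : StValP.{u}) (hSumP : StSumP.{u}) (hStar : StStar.{u})
    (hReal : StReal.{u}) (hDeg1 : StDeg1.{u}) (hDegR : StDegR.{u}) (hTauV : StTauV.{u})
    (hAdams : StAdams.{u}) (hPsi2 : StPsi2.{u})
    {G : Type u} [Group G] [Finite G] [IsSimpleGroup G] (hG : ¬ IsCyclic G) (p : ℕ)
    (hp : p.Prime) (hB : TypeBData (G := G) p) : Concl G p := by
  classical
  obtain ⟨P, e, a, b, X, Y, δ, hP, hC, he, hN, h2e, hcard, hB0, hdegY, hevenX⟩ := hB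
  haveI : Fact p.Prime := ⟨hp⟩
  have hnc : ¬ IsMulCommutative G := by
    intro hc
    have h1 : (Nat.card G).Prime := Group.is_simple_iff_prime_card.1 inferInstance
    haveI : Fact (Nat.card G).Prime := ⟨h1⟩
    exact hG (isCyclic_of_prime_card rfl)
  have hepos : 0 < e := by rw [he]; positivity
  have hp2 : p ≠ 2 := by
    rintro rfl
    omega
  have hp3 : 3 ≤ p := by
    have := hp.two_le
    omega
  -- `e ≠ 1`
  obtain ⟨d, hd, hd1, -, -⟩ := simple_sylow_prime_card_NC hnc P hP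
  have hNC := card_centralizer_mul_relIndex_normalizer (P : Subgroup G)
  rw [← hd, hC, hP, hN] at hNC
  have hde : d = e := Nat.eq_of_mul_eq_mul_left hp.pos hNC
  have he1 : e ≠ 1 := by rw [← hde]; exact hd1
  have ha1 : 1 ≤ a := by
    rcases Nat.eq_zero_or_pos a with h0 | h0
    · subst h0
      simp at he
      exact absurd he he1
    · exact h0
  have hev : Even e := by
    rw [he]
    exact (Nat.even_pow.2 ⟨even_two, by omega⟩)
  have he2 : 2 ≤ e := by omega
  obtain ⟨τ, hτ, hinv⟩ :=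
    Cfsg.Agent.H62.BR.exists_inverting_involution p hp2 P hP hC e hN hev
  obtain ⟨x, hx, hx1⟩ : ∃ x ∈ (P : Subgroup G), x ≠ 1 := by
    by_contra hcon
    push Not at hcon
    have hbot : (P : Subgroup G) = ⊥ := (Subgroup.eq_bot_iff_forall _).2 hcon
    rw [hbot, Subgroup.card_bot] at hP
    omega
  have c : Ctx p e b P X Y δ τ x :=
    { hp := hp, hp2 := hp2, hP := hP, hC := hC, hN := hN, hev := hev, he2 := he2, h2e := h2e,
      hcard := hcard, hB0 := hB0, degY := hdegY, evenX := hevenX, hτ := hτ, hinv := hinv,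
      hx := hx, hx1 := hx1 }
  have hle := two_pow_le hFin hE2 hArith hValP hSumP hStar hReal hDeg1 hDegR hTauV hAdams hPsi2
    hG p e a b P X Y δ τ x c he
  -- Sylow count: `p ∣ 2 ^ b + 1`
  have hsyl := card_sylow_modEq_one p G
  have hidx : Nat.card (Sylow p G) * (p * e) = 2 ^ b * p * (p - e) := by
    rw [← hcard, ← hN, Sylow.card_eq_index_normalizer P, mul_comm]
    exact Subgroup.card_mul_index _
  have hidx2 : Nat.card (Sylow p G) * e = 2 ^ b * (p - e) := by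
    have : p * (Nat.card (Sylow p G) * e) = p * (2 ^ b * (p - e)) := by
      calc p * (Nat.card (Sylow p G) * e) = Nat.card (Sylow p G) * (p * e) := by ring
        _ = 2 ^ b * p * (p - e) := hidx
        _ = p * (2 ^ b * (p - e)) := by ring
    exact Nat.eq_of_mul_eq_mul_left hp.pos this
  have hdvd : p ∣ 2 ^ b + 1 := by
    have h1 : (Nat.card (Sylow p G) * e : ℤ) ≡ (e : ℤ) [ZMOD p] := by
      have h2 : (Nat.card (Sylow p G) : ℤ) ≡ 1 [ZMOD p] := by
        exact_mod_cast (Int.natCast_modEq_iff.2 hsyl)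
      simpa using h2.mul_right (e : ℤ)
    have h3 : ((2 ^ b * (p - e) : ℕ) : ℤ) ≡ (e : ℤ) [ZMOD p] := by
      rw [← hidx2]; exact_mod_cast h1
    have hep : e ≤ p := by omega
    have h4 : ((2 ^ b * (p - e) : ℕ) : ℤ) = (2 : ℤ) ^ b * ((p : ℤ) - e) := by
      push_cast [Nat.cast_sub hep]; ring
    rw [h4] at h3
    have h5 : (p : ℤ) ∣ (e : ℤ) - (2 : ℤ) ^ b * ((p : ℤ) - e) := h3.dvd
    have h6 : (p : ℤ) ∣ (e : ℤ) * ((2 : ℤ) ^ b + 1) := by
      have : (e : ℤ) * ((2 : ℤ) ^ b + 1) = ((e : ℤ) - (2 : ℤ) ^ b * ((p : ℤ) - e)) + p * 2 ^ b := by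
        ring
      rw [this]
      exact dvd_add h5 (dvd_mul_right _ _)
    have h7 : (p : ℤ) ∣ ((e * (2 ^ b + 1) : ℕ) : ℤ) := by push_cast; exact h6
    have h8 : p ∣ e * (2 ^ b + 1) := by exact_mod_cast h7
    rcases (Nat.Prime.dvd_mul hp).1 h8 with h9 | h9
    · have := Nat.le_of_dvd hepos h9
      omega
    · exact h9
  have hpb : 2 ^ b + 1 = p := by
    have := Nat.le_of_dvd (by positivity) hdvd
    omega
  -- `|G| < p ^ 3`
  have hbig : Nat.card G < p ^ 3 := by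
    rw [hcard]
    have h1 : 2 ^ b ≤ p - 1 := hle
    have h2 : p - e ≤ p - 2 := by omega
    have h3 : 2 ^ b * p * (p - e) ≤ (p - 1) * p * (p - 2) := by
      calc 2 ^ b * p * (p - e) ≤ (p - 1) * p * (p - e) :=
            Nat.mul_le_mul_right _ (Nat.mul_le_mul_right _ h1)
        _ ≤ (p - 1) * p * (p - 2) := Nat.mul_le_mul_left _ h2
    have h4 : (p - 1) * p * (p - 2) < p ^ 3 := by
      have h5 : (p - 1) * p * (p - 2) < p * p * p := by
        have h6 : p - 1 < p := by omega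
        have h7 : p - 2 < p := by omega
        calc (p - 1) * p * (p - 2) ≤ (p - 1) * p * p :=
              Nat.mul_le_mul_left _ (by omega)
          _ < p * p * p := by
              apply Nat.mul_lt_mul_of_pos_right _ hp.pos
              exact Nat.mul_lt_mul_of_pos_right h6 hp.pos
      calc (p - 1) * p * (p - 2) < p * p * p := h5
        _ = p ^ 3 := by ring
    omega
  have hpdvd : p ∣ Nat.card G := by
    rw [hcard]
    exact Dvd.dvd.mul_right (Dvd.intro_left _ rfl) _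
  rcases Cfsg.Agent.S0999.result hG p hp hpdvd hbig with ⟨F, iF, iFt, hF, -, hiso⟩ |
      ⟨m, F, iF, iFt, hF, hpm, h3p, hiso⟩
  · left
    exact ⟨b, F, iF, iFt, hF, Or.inl hpb.symm, hiso⟩
  · right
    exact ⟨m, F, iF, iFt, hF, hpm, h3p, hiso⟩

end Cfsg.Agent.H1.BT
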