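import Cfsg.Agent.H1.Hall
import Cfsg.Agent.S0012

/-!
# Burnside's basis theorem (S0014)
-/

set_option autoImplicit false
open scoped commutatorElement

namespace Cfsg.Agent.H1

section ElemAb

variable {W : Type*} [Group W] [Finite W]

omit [Finite W] in
theorem normal_of_comm (hcomm : ∀ a b : W, a * b = b * a) (B : Subgroup W) : B.Normal :=
  ⟨fun n hn g => by rw [hcomm g n, mul_inv_cancel_right]; exact hn⟩

omit [Finite W] in
theorem closure_insert_eq (a : W) (T : Finset W) [DecidableEq W] :
    Subgroup.closure ((insert a T : Finset W) : Set W)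
      = Subgroup.zpowers a ⊔ Subgroup.closure (T : Set W) := by
  rw [Finset.coe_insert, Set.insert_eq, Subgroup.closure_union, Subgroup.zpowers_eq_closure]

/-- In an elementary abelian `p`-group, `k` elements generate a subgroup of order at most
`p ^ k`. -/
theorem card_closure_le (p : ℕ) [Fact p.Prime] (hcomm : ∀ a b : W, a * b = b * a)
    (hexp : ∀ w : W, w ^ p = 1) (T : Finset W) :
    Nat.card (Subgroup.closure (T : Set W)) ≤ p ^ T.card := by
  classical
  induction T using Finset.induction_on with
  | empty => simp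
  | insert a T ha ih =>
    have hn : (Subgroup.closure (T : Set W)).Normal := normal_of_comm hcomm _
    rw [closure_insert_eq, Finset.card_insert_of_notMem ha, pow_succ, mul_comm]
    have h1 := card_sup_dvd_of_normal (Subgroup.zpowers a) (Subgroup.closure (T : Set W))
    have h2 : Nat.card (Subgroup.zpowers a) ≤ p := by
      rw [Nat.card_zpowers]
      exact Nat.le_of_dvd (Fact.out : p.Prime).pos (orderOf_dvd_of_pow_eq_one (hexp a))
    calc Nat.card (Subgroup.zpowers a ⊔ Subgroup.closure (T : Set W) : Subgroup W)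
        ≤ Nat.card (Subgroup.zpowers a) * Nat.card (Subgroup.closure (T : Set W)) :=
          Nat.le_of_dvd (Nat.mul_pos Nat.card_pos Nat.card_pos) h1
      _ ≤ p * p ^ T.card := Nat.mul_le_mul h2 ih

/-- In an elementary abelian `p`-group, `k` irredundant elements generate a subgroup of order
`p ^ k`. -/
theorem card_closure_eq (p : ℕ) [Fact p.Prime] (hcomm : ∀ a b : W, a * b = b * a)
    (hexp : ∀ w : W, w ^ p = 1) [DecidableEq W] (T : Finset W)
    (hirr : ∀ t ∈ T, t ∉ Subgroup.closure ((T.erase t : Finset W) : Set W)) :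
    Nat.card (Subgroup.closure (T : Set W)) = p ^ T.card := by
  induction T using Finset.induction_on with
  | empty => simp
  | insert a T ha ih =>
    have hn : (Subgroup.closure (T : Set W)).Normal := normal_of_comm hcomm _
    have haT : a ∉ Subgroup.closure (T : Set W) := by
      have := hirr a (Finset.mem_insert_self a T)
      rwa [Finset.erase_insert ha] at this
    have hirr' : ∀ t ∈ T, t ∉ Subgroup.closure ((T.erase t : Finset W) : Set W) := by
      intro t ht hmem
      apply hirr t (Finset.mem_insert_of_mem ht)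
      refine Subgroup.closure_mono ?_ hmem
      exact Finset.coe_subset.mpr (Finset.erase_subset_erase t (Finset.subset_insert a T))
    have ha1 : a ≠ 1 := fun h => haT (h ▸ Subgroup.one_mem _)
    have hoa : orderOf a = p := orderOf_eq_prime (hexp a) ha1
    have hdisj : Subgroup.zpowers a ⊓ Subgroup.closure (T : Set W) = ⊥ := by
      rw [eq_bot_iff]
      intro x hx
      rw [Subgroup.mem_bot]
      by_contra hx1
      apply haT
      have hox : orderOf x = p := orderOf_eq_prime (hexp x) hx1
      have hle : Subgroup.zpowers x ≤ Subgroup.zpowers a := by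
        rw [Subgroup.zpowers_le]; exact hx.1
      have heq : Subgroup.zpowers x = Subgroup.zpowers a := by
        apply Subgroup.eq_of_le_of_card_ge hle
        rw [Nat.card_zpowers, Nat.card_zpowers, hox, hoa]
      have ha' : a ∈ Subgroup.zpowers x := by rw [heq]; exact Subgroup.mem_zpowers a
      have hle2 : Subgroup.zpowers x ≤ Subgroup.closure (T : Set W) := by
        rw [Subgroup.zpowers_le]; exact hx.2
      exact hle2 ha'
    rw [closure_insert_eq, Finset.card_insert_of_notMem ha, pow_succ, mul_comm,
      card_sup_of_disjoint_normal _ _ hdisj, Nat.card_zpowers, hoa, ih hirr']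

end ElemAb

/-- Burnside's basis theorem (= S0014). -/
theorem burnside_basis {G : Type*} [Group G] [Finite G] (p n : ℕ) [Fact p.Prime]
    (hG : IsPGroup p G) (hn : (frattini G).index = p ^ n) :
    (∀ S : Finset G, Subgroup.closure (S : Set G) = ⊤ →
      ∃ T : Finset G, T ⊆ S ∧ T.card = n ∧ Subgroup.closure (T : Set G) = ⊤) ∧
    (∀ T : Finset G, Subgroup.closure (T : Set G) = ⊤ → n ≤ T.card) := by
  classical
  obtain ⟨hcomm0, hpow0⟩ := Cfsg.Agent.S0012.result p hG
  set π := QuotientGroup.mk' (frattini G) with hπ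
  have hcomm : ∀ a b : G ⧸ frattini G, a * b = b * a := by
    intro a b
    obtain ⟨a, rfl⟩ := QuotientGroup.mk_surjective a
    obtain ⟨b, rfl⟩ := QuotientGroup.mk_surjective b
    change (QuotientGroup.mk (a * b) : G ⧸ frattini G) = QuotientGroup.mk (b * a)
    rw [QuotientGroup.eq]
    apply hcomm0
    have h1 : (a * b)⁻¹ * (b * a) = ⁅b⁻¹, a⁻¹⁆ := by
      rw [commutatorElement_def]; group
    rw [h1, commutator_def]
    exact Subgroup.commutator_mem_commutator (Subgroup.mem_top _) (Subgroup.mem_top _)
  have hexp : ∀ w : G ⧸ frattini G, w ^ p = 1 := by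
    intro w
    obtain ⟨x, rfl⟩ := QuotientGroup.mk_surjective w
    change (QuotientGroup.mk (x ^ p) : G ⧸ frattini G) = 1
    rw [QuotientGroup.eq_one_iff]
    exact hpow0 x
  have hcardW : Nat.card (G ⧸ frattini G) = p ^ n := by
    rw [← hn, Subgroup.index_eq_card]
  have hgen : ∀ T : Finset G, Subgroup.closure (T : Set G) = ⊤ →
      Subgroup.closure ((T.image π : Finset (G ⧸ frattini G)) : Set (G ⧸ frattini G)) = ⊤ := by
    intro T hT
    rw [Finset.coe_image, ← MonoidHom.map_closure, hT, ← MonoidHom.range_eq_map,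
      MonoidHom.range_eq_top]
    exact QuotientGroup.mk'_surjective _
  have hb : ∀ T : Finset G, Subgroup.closure (T : Set G) = ⊤ → n ≤ T.card := by
    intro T hT
    have h2 := card_closure_le p hcomm hexp (T.image π)
    rw [hgen T hT, Subgroup.card_top, hcardW] at h2
    have h3 : n ≤ (T.image π).card :=
      (Nat.pow_le_pow_iff_right (Fact.out : p.Prime).one_lt).mp h2
    exact h3.trans Finset.card_image_le
  refine ⟨?_, hb⟩
  intro S hS
  have hex : ∃ k, ∃ T : Finset G, T ⊆ S ∧ Subgroup.closure (T : Set G) = ⊤ ∧ T.card = k :=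
    ⟨S.card, S, subset_rfl, hS, rfl⟩
  obtain ⟨T, hTS, hT, hTk⟩ := Nat.find_spec hex
  have hmin : ∀ T' : Finset G, T' ⊆ S → Subgroup.closure (T' : Set G) = ⊤ →
      T.card ≤ T'.card := by
    intro T' h1 h2
    rw [hTk]; exact Nat.find_min' hex ⟨T', h1, h2, rfl⟩
  refine ⟨T, hTS, ?_, hT⟩
  have hirr : ∀ t ∈ T,
      t ∉ Subgroup.closure ((T.erase t : Finset G) : Set G) ⊔ frattini G := by
    intro t ht hmem
    have h1 : Subgroup.closure ((T.erase t : Finset G) : Set G) ⊔ frattini G = ⊤ := by
      rw [eq_top_iff, ← hT, Subgroup.closure_le]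
      intro s hs
      by_cases hst : s = t
      · subst hst; exact hmem
      · exact (le_sup_left : Subgroup.closure ((T.erase t : Finset G) : Set G) ≤ _)
          (Subgroup.subset_closure (Finset.mem_coe.mpr (Finset.mem_erase.mpr ⟨hst, hs⟩)))
    have h2 := frattini_nongenerating h1
    have h3 := hmin (T.erase t) ((Finset.erase_subset t T).trans hTS) h2
    rw [Finset.card_erase_of_mem ht] at h3
    have : 0 < T.card := Finset.card_pos.mpr ⟨t, ht⟩
    omega
  have hinj : Set.InjOn π (T : Set G) := by
    intro s hs t ht hst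
    by_contra hne
    apply hirr t ht
    have h1 : s⁻¹ * t ∈ frattini G := by
      rw [← QuotientGroup.eq]; exact hst
    have h2 : s ∈ Subgroup.closure ((T.erase t : Finset G) : Set G) :=
      Subgroup.subset_closure (Finset.mem_coe.mpr (Finset.mem_erase.mpr ⟨hne, hs⟩))
    have h3 : t = s * (s⁻¹ * t) := by group
    have h4 := Subgroup.mul_mem_sup h2 h1
    rwa [← h3] at h4
  have hirr' : ∀ w ∈ T.image π, w ∉ Subgroup.closure
      (((T.image π).erase w : Finset (G ⧸ frattini G)) : Set (G ⧸ frattini G)) := by
    intro w hw hmem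
    obtain ⟨t, ht, rfl⟩ := Finset.mem_image.mp hw
    apply hirr t ht
    have h1 : ((T.image π).erase (π t) : Finset (G ⧸ frattini G)) ⊆ (T.erase t).image π := by
      intro w hw
      obtain ⟨hw1, hw2⟩ := Finset.mem_erase.mp hw
      obtain ⟨s, hs, rfl⟩ := Finset.mem_image.mp hw2
      exact Finset.mem_image.mpr ⟨s, Finset.mem_erase.mpr ⟨fun h => hw1 (by rw [h]), hs⟩, rfl⟩
    have h2 : π t ∈ (Subgroup.closure ((T.erase t : Finset G) : Set G)).map π := by
      rw [MonoidHom.map_closure, ← Finset.coe_image]
      exact Subgroup.closure_mono (Finset.coe_subset.mpr h1) hmem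
    obtain ⟨u, hu, hut⟩ := h2
    have h3 : u⁻¹ * t ∈ frattini G := by
      rw [← QuotientGroup.eq]; exact hut
    have h4 : t = u * (u⁻¹ * t) := by group
    have h5 := Subgroup.mul_mem_sup hu h3
    rwa [← h4] at h5
  have h2 := card_closure_eq p hcomm hexp (T.image π) hirr'
  rw [hgen T hT, Subgroup.card_top, hcardW, Finset.card_image_of_injOn hinj] at h2
  exact ((Nat.pow_right_injective (Fact.out : p.Prime).two_le) h2).symm

end Cfsg.Agent.H1
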