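import Mathlib
import Cfsg.Prelude.Def_CaseTheorems
import Cfsg.Agent.H3.Narrow
import Cfsg.Agent.H3.PGroup
import Cfsg.Agent.H3.RankTwoAut
import Cfsg.Agent.H38.NormalEp2
import Cfsg.Agent.H1.Frattini

set_option autoImplicit false

universe u

namespace Cfsg.Agent.H1.ChiefRankTwo

/-- In a `p`-central `p`-group (`p` odd), elements with equal `p`-th powers differ by an element
of order dividing `p`. -/
theorem pcentral_pow_eq {p : ℕ} [hp : Fact p.Prime] (hp2 : p ≠ 2) :
    ∀ (n : ℕ) (P : Type u) [Group P] [Finite P], Nat.card P = n → IsPGroup p P →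
      (∀ x : P, x ^ p = 1 → x ∈ Subgroup.center P) →
      ∀ x y : P, x ^ p = y ^ p → (x⁻¹ * y) ^ p = 1 := by
  intro n
  induction n using Nat.strong_induction_on with
  | _ n ih =>
  intro P _ _ hn hP hpc x y hxy
  by_cases htop : Subgroup.zpowers x = ⊤
  · have hy : y ∈ Subgroup.zpowers x := by rw [htop]; trivial
    obtain ⟨i, rfl⟩ := Subgroup.mem_zpowers_iff.mp hy
    have hc : Commute x⁻¹ (x ^ i) := ((Commute.refl x).zpow_right i).inv_left
    rw [hc.mul_pow, inv_pow, hxy, inv_mul_cancel]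
  · obtain ⟨M, hM, hxM⟩ := (eq_top_or_exists_le_coatom _).resolve_left htop
    haveI hMn : M.Normal := H3.coatom_normal hP hM
    have hx : x ∈ M := hxM (Subgroup.mem_zpowers x)
    have hx' : y * x * y⁻¹ ∈ M := hMn.conj_mem x hx y
    have hlt : Nat.card M < n := by
      rw [← hn]
      by_contra hcon
      exact hM.1 (Subgroup.eq_top_of_le_card M (not_lt.mp hcon))
    have hpcM : ∀ m : M, m ^ p = 1 → m ∈ Subgroup.center M := by
      intro m hm
      have h1 : (m : P) ∈ Subgroup.center P := hpc m (by rw [← Subgroup.coe_pow, hm]; rfl)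
      rw [Subgroup.mem_center_iff]
      intro g
      apply Subtype.ext
      exact Subgroup.mem_center_iff.mp h1 g
    have hpow : (⟨x, hx⟩ : M) ^ p = (⟨y * x * y⁻¹, hx'⟩ : M) ^ p := by
      apply Subtype.ext
      show x ^ p = (y * x * y⁻¹) ^ p
      rw [conj_pow, hxy, ← pow_succ', pow_succ, mul_inv_cancel_right]
    have h1 := ih (Nat.card M) hlt M rfl (hP.to_subgroup M) hpcM ⟨x, hx⟩ ⟨y * x * y⁻¹, hx'⟩ hpow
    have hc : (x⁻¹ * (y * x * y⁻¹)) ^ p = 1 := congrArg Subtype.val h1
    have hcc : x⁻¹ * (y * x * y⁻¹) ∈ Subgroup.center P := hpc _ hc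
    have hCc : (x⁻¹ * (y * x * y⁻¹))⁻¹ ∈ Subgroup.center P := Subgroup.inv_mem _ hcc
    have hCp : ((x⁻¹ * (y * x * y⁻¹))⁻¹) ^ p = 1 := by rw [inv_pow, hc, inv_one]
    have hrel : y * x⁻¹ = (x⁻¹ * (y * x * y⁻¹))⁻¹ * x⁻¹ * y := by group
    have h2 := H38.mul_pow_prime_of_central_comm hp2 x⁻¹ y _ hrel
      (Subgroup.mem_center_iff.mp hCc x⁻¹).symm (Subgroup.mem_center_iff.mp hCc y).symm hCp
    rw [h2, inv_pow, hxy, inv_mul_cancel]

/-- Counting in a `p`-central `p`-group. -/
theorem card_le_of_pcentral {P : Type u} [Group P] [Finite P] {p : ℕ} [hp : Fact p.Prime]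
    (hp2 : p ≠ 2) (hP : IsPGroup p P) (hpc : ∀ x : P, x ^ p = 1 → x ∈ Subgroup.center P)
    (E P₀ : Subgroup P) (hE : ∀ x : P, x ^ p = 1 → x ∈ E) (h₀ : ∀ x : P, x ^ p ∈ P₀) :
    Nat.card P ≤ Nat.card E * Nat.card P₀ := by
  have key : ∀ b : P, ∃ r : P, ∀ x : P, x ^ p = b → (r⁻¹ * x) ^ p = 1 := by
    intro b
    by_cases hb : ∃ x₀ : P, x₀ ^ p = b
    · obtain ⟨x₀, hx₀⟩ := hb
      exact ⟨x₀, fun x hx => pcentral_pow_eq hp2 _ P rfl hP hpc x₀ x (hx₀.trans hx.symm)⟩
    · exact ⟨1, fun x hx => absurd ⟨x, hx⟩ hb⟩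
  choose r hr using key
  let f : P → E × P₀ := fun x => (⟨(r (x ^ p))⁻¹ * x, hE _ (hr _ x rfl)⟩, ⟨x ^ p, h₀ x⟩)
  have hf : Function.Injective f := by
    intro x y hxy
    have h1 : x ^ p = y ^ p := congrArg (fun t : E × P₀ => (t.2 : P)) hxy
    have h2 : (r (x ^ p))⁻¹ * x = (r (y ^ p))⁻¹ * y :=
      congrArg (fun t : E × P₀ => (t.1 : P)) hxy
    rw [h1] at h2
    exact mul_left_cancel h2
  have := Nat.card_le_card_of_injective f hf
  rwa [Nat.card_prod] at this

theorem closure_characteristic {P : Type*} [Group P] (s : Set P)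
    (hs : ∀ φ : P ≃* P, ∀ x ∈ s, φ x ∈ s) : (Subgroup.closure s).Characteristic := by
  rw [Subgroup.characteristic_iff_map_le]
  intro φ
  rw [MonoidHom.map_closure]
  apply Subgroup.closure_mono
  rintro _ ⟨x, hx, rfl⟩
  exact hs φ x hx

theorem omegaUcs2_char (p : ℕ) (P : Type*) [Group P] :
    (Subgroup.closure
      {x : P | x ∈ Subgroup.upperCentralSeries P 2 ∧ x ^ p = 1}).Characteristic := by
  apply closure_characteristic
  rintro φ x ⟨hx, hxp⟩
  refine ⟨?_, by rw [← map_pow, hxp, map_one]⟩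
  exact (Subgroup.characteristic_iff_map_le (H := Subgroup.upperCentralSeries P 2)).mp
    inferInstance φ ⟨x, hx, rfl⟩

/-- A proper inclusion of `p`-subgroups has index at least `p`. -/
theorem p_mul_card_le_of_lt {P : Type*} [Group P] [Finite P] {p : ℕ} [hp : Fact p.Prime]
    (hP : IsPGroup p P) {A B : Subgroup P} (hAB : A < B) : p * Nat.card A ≤ Nat.card B := by
  have h1 : A.relIndex B * Nat.card A = Nat.card B := H3.relIndex_mul_card_of_le hAB.le
  have h2 : A.relIndex B ≠ 1 := fun h => (not_le_of_gt hAB) (Subgroup.relIndex_eq_one.mp h)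
  have h3 : A.relIndex B ∣ Nat.card B := Subgroup.relIndex_dvd_card A B
  obtain ⟨k, hk⟩ := IsPGroup.iff_card.mp (hP.to_subgroup B)
  rw [hk] at h3
  obtain ⟨j, -, hj⟩ := (Nat.dvd_prime_pow hp.out).mp h3
  have hj0 : j ≠ 0 := by rintro rfl; exact h2 (by rw [hj, pow_zero])
  have h4 : p ≤ A.relIndex B := by
    rw [hj]
    calc p = p ^ 1 := (pow_one p).symm
      _ ≤ p ^ j := Nat.pow_le_pow_right hp.out.pos (Nat.one_le_iff_ne_zero.mpr hj0)
  calc p * Nat.card A ≤ A.relIndex B * Nat.card A := Nat.mul_le_mul_right _ h4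
    _ = Nat.card B := h1

/-- A `p`-group of index at most `p ^ 2` over a subgroup is generated by it and two elements. -/
theorem exists_two_gen {P : Type*} [Group P] [Finite P] {p : ℕ} [hp : Fact p.Prime]
    (hP : IsPGroup p P) {E W : Subgroup P} (hEW : E ≤ W)
    (hc : Nat.card W ≤ p ^ 2 * Nat.card E) :
    ∃ w₁ ∈ W, ∃ w₂ ∈ W, W ≤ E ⊔ Subgroup.zpowers w₁ ⊔ Subgroup.zpowers w₂ := by
  by_cases h1 : W ≤ E
  · exact ⟨1, W.one_mem, 1, W.one_mem, h1.trans (le_sup_left.trans le_sup_left)⟩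
  · obtain ⟨w₁, hw₁, hw₁E⟩ := SetLike.not_le_iff_exists.mp h1
    have hT1 : E < E ⊔ Subgroup.zpowers w₁ := by
      refine lt_of_le_of_ne le_sup_left ?_
      intro h
      apply hw₁E
      rw [h]
      exact Subgroup.mem_sup_right (Subgroup.mem_zpowers w₁)
    have hT1W : E ⊔ Subgroup.zpowers w₁ ≤ W :=
      sup_le hEW (by rw [Subgroup.zpowers_le]; exact hw₁)
    by_cases h2 : W ≤ E ⊔ Subgroup.zpowers w₁
    · exact ⟨w₁, hw₁, 1, W.one_mem, h2.trans le_sup_left⟩
    · obtain ⟨w₂, hw₂, hw₂T⟩ := SetLike.not_le_iff_exists.mp h2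
      have hT2 : E ⊔ Subgroup.zpowers w₁ < E ⊔ Subgroup.zpowers w₁ ⊔ Subgroup.zpowers w₂ := by
        refine lt_of_le_of_ne le_sup_left ?_
        intro h
        apply hw₂T
        rw [h]
        exact Subgroup.mem_sup_right (Subgroup.mem_zpowers w₂)
      have hT2W : E ⊔ Subgroup.zpowers w₁ ⊔ Subgroup.zpowers w₂ ≤ W :=
        sup_le hT1W (by rw [Subgroup.zpowers_le]; exact hw₂)
      have c1 := p_mul_card_le_of_lt hP hT1
      have c2 := p_mul_card_le_of_lt hP hT2
      refine ⟨w₁, hw₁, w₂, hw₂, ?_⟩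
      have : E ⊔ Subgroup.zpowers w₁ ⊔ Subgroup.zpowers w₂ = W := by
        apply Subgroup.eq_of_le_of_card_ge hT2W
        calc Nat.card W ≤ p ^ 2 * Nat.card E := hc
          _ = p * (p * Nat.card E) := by ring
          _ ≤ p * Nat.card ↥(E ⊔ Subgroup.zpowers w₁) := Nat.mul_le_mul_left _ c1
          _ ≤ _ := c2
      exact this.ge

/-- If all commutators with `w` lie in a central subgroup `E`, the centraliser of `w` has index
at most `|E|`. -/
theorem index_centralizer_le {P : Type*} [Group P] [Finite P]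
    (E : Subgroup P) (hEc : E ≤ Subgroup.center P) (w : P)
    (hw : ∀ u : P, u * w * u⁻¹ * w⁻¹ ∈ E) :
    (Subgroup.centralizer ({w} : Set P)).index ≤ Nat.card E := by
  let f : P →* E := MonoidHom.mk' (fun u => ⟨u * w * u⁻¹ * w⁻¹, hw u⟩) (by
    intro a b
    apply Subtype.ext
    show a * b * w * (a * b)⁻¹ * w⁻¹ = (a * w * a⁻¹ * w⁻¹) * (b * w * b⁻¹ * w⁻¹)
    have hb : ∀ g : P, g * (b * w * b⁻¹ * w⁻¹) = (b * w * b⁻¹ * w⁻¹) * g :=
      Subgroup.mem_center_iff.mp (hEc (hw b))
    calc a * b * w * (a * b)⁻¹ * w⁻¹ = a * (b * w * b⁻¹ * w⁻¹) * (w * a⁻¹ * w⁻¹) := by group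
      _ = (b * w * b⁻¹ * w⁻¹) * a * (w * a⁻¹ * w⁻¹) := by rw [hb a]
      _ = (b * w * b⁻¹ * w⁻¹) * (a * w * a⁻¹ * w⁻¹) := by group
      _ = (a * w * a⁻¹ * w⁻¹) * (b * w * b⁻¹ * w⁻¹) := (hb _).symm)
  have hker : f.ker ≤ Subgroup.centralizer ({w} : Set P) := by
    intro u hu
    rw [Subgroup.mem_centralizer_iff]
    intro h hh
    rw [Set.mem_singleton_iff] at hh
    subst hh
    have h1 : u * h * u⁻¹ * h⁻¹ = 1 := congrArg Subtype.val (MonoidHom.mem_ker.mp hu)
    have h2 : u * h = h * u := by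
      have := congrArg (fun t => t * h * u) h1
      simpa [mul_assoc] using this
    exact h2.symm
  calc (Subgroup.centralizer ({w} : Set P)).index ≤ f.ker.index :=
        Nat.le_of_dvd (Nat.pos_of_ne_zero Subgroup.index_ne_zero_of_finite)
          (Subgroup.index_dvd_of_le hker)
    _ = Nat.card f.range := Subgroup.index_ker f
    _ ≤ Nat.card E := Subgroup.card_le_card_group _

/-- Key `p`-group lemma: a `p`-group of rank at most two (`p` odd) has order at most `p ^ 2` times
that of any subgroup containing all its proper characteristic subgroups. -/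
theorem card_le_sq_mul {P : Type u} [Group P] [Finite P] {p : ℕ} [hp : Fact p.Prime]
    (hp2 : p ≠ 2) (hP : IsPGroup p P) (hr : Cfsg.PRankLE p 2 P) (P₀ : Subgroup P)
    (hchar : ∀ C : Subgroup P, C.Characteristic → C = ⊤ ∨ C ≤ P₀) :
    Nat.card P ≤ p ^ 2 * Nat.card P₀ := by
  have hpp : p.Prime := hp.out
  rcases subsingleton_or_nontrivial P with hsub | hnt
  · rw [Nat.card_unique]
    exact Nat.mul_pos (pow_pos hpp.pos 2) Nat.card_pos
  -- `x ^ p ∈ P₀`
  have h₀ : ∀ x : P, x ^ p ∈ P₀ := by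
    intro x
    rcases hchar (frattini P) inferInstance with h | h
    · exfalso
      have h1 : (⊥ : Subgroup P) = ⊤ := frattini_nongenerating (by rw [h]; simp)
      exact bot_ne_top h1
    · exact h (H3.pow_mem_frattini hP x)
  obtain ⟨E₁, hE₁⟩ : ∃ E₁ : Subgroup P,
      E₁ = Subgroup.closure {x : P | x ∈ Subgroup.center P ∧ x ^ p = 1} := ⟨_, rfl⟩
  have hE₁mem : ∀ g ∈ E₁, g ∈ Subgroup.center P ∧ g ^ p = 1 := by
    rw [hE₁]; exact H3.omega_center_mem
  have hE₁sub : ∀ g : P, g ∈ Subgroup.center P → g ^ p = 1 → g ∈ E₁ := by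
    intro g h1 h2
    rw [hE₁]; exact Subgroup.subset_closure ⟨h1, h2⟩
  have hE₁c : E₁ ≤ Subgroup.center P := fun g hg => (hE₁mem g hg).1
  have hE₁card : Nat.card E₁ ≤ p ^ 2 := by
    apply hr E₁ ⟨⟨?_⟩⟩ (fun a ha => (hE₁mem a ha).2)
    rintro ⟨a, ha⟩ ⟨b, hb⟩
    apply Subtype.ext
    exact (Subgroup.mem_center_iff.mp (hE₁c hb) a)
  by_cases hpc : ∀ x : P, x ^ p = 1 → x ∈ Subgroup.center P
  · have h1 := card_le_of_pcentral hp2 hP hpc E₁ P₀ (fun x hx => hE₁sub x (hpc x hx) hx) h₀
    exact h1.trans (Nat.mul_le_mul_right _ hE₁card)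
  · push Not at hpc
    obtain ⟨x₀, hx₀p, hx₀c⟩ := hpc
    -- `|E₁| = p`
    have hE₁p : Nat.card E₁ = p := by
      obtain ⟨hc1, hc2⟩ := H3.elemAb_sup_zpowers E₁
        (fun a ha b hb => (Subgroup.mem_center_iff.mp (hE₁c hb) a))
        (fun a ha => (hE₁mem a ha).2) x₀ hx₀p
        (fun e he => (Subgroup.mem_center_iff.mp (hE₁c he) x₀).symm)
      have hcard2 : Nat.card ↥(E₁ ⊔ Subgroup.zpowers x₀) ≤ p ^ 2 :=
        hr _ ⟨⟨fun a b => Subtype.ext (hc1 a.1 a.2 b.1 b.2)⟩⟩ hc2
      have hlt : E₁ < E₁ ⊔ Subgroup.zpowers x₀ := by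
        refine lt_of_le_of_ne le_sup_left ?_
        intro h
        apply hx₀c
        apply hE₁c
        rw [h]
        exact Subgroup.mem_sup_right (Subgroup.mem_zpowers x₀)
      have h1 := p_mul_card_le_of_lt hP hlt
      have hne : p ≤ Nat.card E₁ := by
        haveI : Nontrivial (Subgroup.center P) := hP.center_nontrivial
        have hcp := hP.to_subgroup (Subgroup.center P)
        obtain ⟨k, hk⟩ := IsPGroup.iff_card.mp hcp
        have hk0 : k ≠ 0 := by
          rintro rfl
          rw [pow_zero] at hk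
          exact (Finite.one_lt_card (α := Subgroup.center P)).ne' hk
        have hdvd : p ∣ Nat.card (Subgroup.center P) := by rw [hk]; exact dvd_pow_self p hk0
        obtain ⟨z, hz⟩ := exists_prime_orderOf_dvd_card' p hdvd
        have hzp : (z : P) ^ p = 1 := by
          have h2 := pow_orderOf_eq_one z
          rw [hz] at h2
          exact congrArg Subtype.val h2
        have hzE : (z : P) ∈ E₁ := hE₁sub _ z.2 hzp
        have hz1 : (z : P) ≠ 1 := by
          intro h
          have h3 : z = 1 := Subtype.ext h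
          rw [h3, orderOf_one] at hz
          exact hpp.one_lt.ne hz
        have hb : (⊥ : Subgroup P) < E₁ := by
          rw [bot_lt_iff_ne_bot]
          intro h
          rw [h, Subgroup.mem_bot] at hzE
          exact hz1 hzE
        have h4 := p_mul_card_le_of_lt hP hb
        simpa using h4
      have h5 : p * Nat.card E₁ ≤ p * p := by rw [← sq]; exact h1.trans hcard2
      exact le_antisymm (Nat.le_of_mul_le_mul_left h5 hpp.pos) hne
    obtain ⟨W, hW⟩ : ∃ W : Subgroup P,
        W = Subgroup.closure {x : P | x ∈ Subgroup.upperCentralSeries P 2 ∧ x ^ p = 1} :=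
      ⟨_, rfl⟩
    have hWmem : ∀ g ∈ W, g ∈ Subgroup.upperCentralSeries P 2 ∧ g ^ p = 1 := by
      rw [hW]; exact H3.omega_ucs2_mem hpp hp2
    have hWsub : ∀ g : P, g ∈ Subgroup.upperCentralSeries P 2 → g ^ p = 1 → g ∈ W := by
      intro g h1 h2
      rw [hW]; exact Subgroup.subset_closure ⟨h1, h2⟩
    haveI hWchar : W.Characteristic := by rw [hW]; exact omegaUcs2_char p P
    have hE₁W : E₁ ≤ W := by
      intro x hx
      obtain ⟨h1, h2⟩ := hE₁mem x hx
      refine hWsub x ?_ h2
      exact Subgroup.upperCentralSeries_mono P (by norm_num : 1 ≤ 2)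
        (by rw [Subgroup.upperCentralSeries_one]; exact h1)
    have hWcard : Nat.card W ≤ p ^ 3 := by
      apply H3.card_le_cube_of_exponent_of_rank_two (hP.to_subgroup W)
      intro A hA
      have hc : IsMulCommutative ↥(A.map W.subtype) := by
        refine ⟨⟨?_⟩⟩
        rintro ⟨_, ⟨a, ha, rfl⟩⟩ ⟨_, ⟨b, hb, rfl⟩⟩
        apply Subtype.ext
        show (a : P) * b = b * a
        exact congrArg Subtype.val (hA a ha b hb)
      have h1 := hr (A.map W.subtype) hc (by
        rintro _ ⟨a, ha, rfl⟩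
        exact (hWmem a a.2).2)
      rwa [Subgroup.card_map_of_injective W.subtype_injective] at h1
    have hncyc : ¬ IsCyclic P := by
      intro hcyc
      apply hx₀c
      rw [Subgroup.mem_center_iff]
      intro g
      exact (IsCyclic.commGroup (α := P)).mul_comm g x₀
    obtain ⟨E₂, z, hzc, hz1, hzp, hzE, hE₂exp, hE₂card, hE₂comm⟩ :=
      H38.exists_normal_ep2 hp2 _ P rfl hP hncyc
    have hE₂W : E₂ ≤ W := by
      intro e he
      refine hWsub e ((H3.mem_ucs2_iff e).mpr ?_) (hE₂exp e he)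
      intro y
      have h1 := hE₂comm e he y
      have h2 : Subgroup.zpowers z ≤ Subgroup.center P := by
        rw [Subgroup.zpowers_le]; exact hzc
      have e1 : e * y * e⁻¹ * y⁻¹ = (y * e * y⁻¹ * e⁻¹)⁻¹ := by group
      rw [e1]
      exact Subgroup.inv_mem _ (h2 h1)
    have hWnc : ¬ W ≤ Subgroup.center P := by
      intro h
      have hE₂E₁ : E₂ ≤ E₁ := fun e he => hE₁sub e (h (hE₂W he)) (hE₂exp e he)
      have h1 := Nat.le_of_dvd Nat.card_pos (Subgroup.card_dvd_of_le hE₂E₁)
      rw [hE₂card, hE₁p] at h1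
      have h2 : p * p ≤ p * 1 := by rw [← sq, mul_one]; exact h1
      have h3 := Nat.le_of_mul_le_mul_left h2 hpp.pos
      exact absurd hpp.one_lt (not_lt.mpr h3)
    have hCW : Subgroup.centralizer (W : Set P) ≤ P₀ := by
      rcases hchar (Subgroup.centralizer (W : Set P)) inferInstance with h | h
      · exfalso
        apply hWnc
        intro w hw
        rw [Subgroup.mem_center_iff]
        intro g
        have hg : g ∈ Subgroup.centralizer (W : Set P) := by rw [h]; trivial
        exact (Subgroup.mem_centralizer_iff.mp hg w hw).symm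
      · exact h
    have hidx : (Subgroup.centralizer (W : Set P)).index ≤ p ^ 2 := by
      obtain ⟨w₁, hw₁, w₂, hw₂, hgen⟩ := exists_two_gen hP hE₁W (by
        rw [hE₁p]
        calc Nat.card W ≤ p ^ 3 := hWcard
          _ = p ^ 2 * p := by ring)
      have hcomm : ∀ w ∈ W, ∀ u : P, u * w * u⁻¹ * w⁻¹ ∈ E₁ := by
        intro w hw u
        obtain ⟨h1, h2⟩ := H3.ucs2_comm (hWmem w hw).1 (hWmem w hw).2 u
        exact hE₁sub _ h1 h2
      have i1 := index_centralizer_le E₁ hE₁c w₁ (hcomm w₁ hw₁)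
      have i2 := index_centralizer_le E₁ hE₁c w₂ (hcomm w₂ hw₂)
      rw [hE₁p] at i1 i2
      have hle : Subgroup.centralizer ({w₁} : Set P) ⊓ Subgroup.centralizer ({w₂} : Set P) ≤
          Subgroup.centralizer (W : Set P) := by
        intro u hu
        obtain ⟨hu1, hu2⟩ := Subgroup.mem_inf.mp hu
        have hWu : W ≤ Subgroup.centralizer ({u} : Set P) := by
          refine hgen.trans (sup_le (sup_le ?_ ?_) ?_)
          · intro e he
            rw [Subgroup.mem_centralizer_iff]
            intro h hh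
            rw [Set.mem_singleton_iff] at hh
            subst hh
            exact Subgroup.mem_center_iff.mp (hE₁c he) h
          · rw [Subgroup.zpowers_le, Subgroup.mem_centralizer_iff]
            intro h hh
            rw [Set.mem_singleton_iff] at hh
            subst hh
            exact (Subgroup.mem_centralizer_iff.mp hu1 w₁ rfl).symm
          · rw [Subgroup.zpowers_le, Subgroup.mem_centralizer_iff]
            intro h hh
            rw [Set.mem_singleton_iff] at hh
            subst hh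
            exact (Subgroup.mem_centralizer_iff.mp hu2 w₂ rfl).symm
        rw [Subgroup.mem_centralizer_iff]
        intro w hw
        exact (Subgroup.mem_centralizer_iff.mp (hWu hw) u rfl).symm
      calc (Subgroup.centralizer (W : Set P)).index
          ≤ (Subgroup.centralizer ({w₁} : Set P) ⊓
              Subgroup.centralizer ({w₂} : Set P)).index :=
            Nat.le_of_dvd (Nat.pos_of_ne_zero Subgroup.index_ne_zero_of_finite)
              (Subgroup.index_dvd_of_le hle)
        _ ≤ (Subgroup.centralizer ({w₁} : Set P)).index *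
              (Subgroup.centralizer ({w₂} : Set P)).index := Subgroup.index_inf_le
        _ ≤ p * p := Nat.mul_le_mul i1 i2
        _ = p ^ 2 := (sq p).symm
    calc Nat.card P = (Subgroup.centralizer (W : Set P)).index *
          Nat.card (Subgroup.centralizer (W : Set P)) := by
          rw [mul_comm]; exact (Subgroup.card_mul_index _).symm
      _ ≤ p ^ 2 * Nat.card P₀ :=
        Nat.mul_le_mul hidx (Nat.le_of_dvd Nat.card_pos (Subgroup.card_dvd_of_le hCW))

theorem normalizer_inf_le_normalizer_sup {G : Type*} [Group G] (A B : Subgroup G) :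
    Subgroup.normalizer (A : Set G) ⊓ Subgroup.normalizer (B : Set G) ≤
      Subgroup.normalizer ((A ⊔ B : Subgroup G) : Set G) := by
  have key : ∀ g ∈ Subgroup.normalizer (A : Set G) ⊓ Subgroup.normalizer (B : Set G),
      ∀ h ∈ A ⊔ B, g * h * g⁻¹ ∈ A ⊔ B := by
    intro g hg
    obtain ⟨hgA, hgB⟩ := Subgroup.mem_inf.mp hg
    have h1 : A ⊔ B ≤ (A ⊔ B).comap (MulAut.conj g).toMonoidHom := by
      apply sup_le
      · intro a ha
        show g * a * g⁻¹ ∈ A ⊔ B
        exact Subgroup.mem_sup_left ((Subgroup.mem_normalizer_iff.mp hgA a).mp ha)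
      · intro b hb
        show g * b * g⁻¹ ∈ A ⊔ B
        exact Subgroup.mem_sup_right ((Subgroup.mem_normalizer_iff.mp hgB b).mp hb)
    intro h hh
    exact h1 hh
  intro g hg
  rw [Subgroup.mem_normalizer_iff]
  intro h
  refine ⟨key g hg h, fun hh => ?_⟩
  have h2 := key g⁻¹ (Subgroup.inv_mem _ hg) _ hh
  simpa [mul_assoc] using h2

/-- `p`-chief factors of a finite group of `p`-rank at most two (`p` odd) have order `p` or
`p ^ 2`. -/
theorem chief_rank_two {G : Type u} [Group G] [Finite G] {p : ℕ} [hp : Fact p.Prime]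
    (hp2 : p ≠ 2) (hr : Cfsg.PRankLE p 2 G)
    (H K : Subgroup G) [hHn : H.Normal] [hKn : K.Normal] (hKH : K < H)
    (hpow : ∃ n : ℕ, K.relIndex H = p ^ n)
    (hchief : ∀ L : Subgroup G, L.Normal → K ≤ L → L ≤ H → L = K ∨ L = H) :
    K.relIndex H = p ∨ K.relIndex H = p ^ 2 := by
  have hpp : p.Prime := hp.out
  obtain ⟨n, hn⟩ := hpow
  obtain ⟨S'⟩ : Nonempty (Sylow p H) := inferInstance
  obtain ⟨S, hS⟩ : ∃ S : Subgroup G, S = (S' : Subgroup H).map H.subtype := ⟨_, rfl⟩
  have hSH : S ≤ H := by rw [hS]; exact Subgroup.map_subtype_le _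
  have hSp : IsPGroup p S := by rw [hS]; exact S'.isPGroup'.map H.subtype
  have hFr : Subgroup.normalizer (S : Set G) ⊔ H = ⊤ := by
    rw [hS]; exact Sylow.normalizer_sup_eq_top S'
  have hSK : S ⊔ K = H := by
    apply le_antisymm (sup_le hSH hKH.le)
    rw [← Subgroup.relIndex_eq_one]
    have d1 : (S ⊔ K).relIndex H ∣ S.relIndex H := Subgroup.relIndex_dvd_of_le_left H le_sup_left
    have d2 : (S ⊔ K).relIndex H ∣ K.relIndex H :=
      Subgroup.relIndex_dvd_of_le_left H le_sup_right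
    have hSidx : S.relIndex H = (S' : Subgroup H).index := by
      rw [hS]
      show (((S' : Subgroup H).map H.subtype).comap H.subtype).index = _
      rw [Subgroup.comap_map_eq_self_of_injective H.subtype_injective]
    rw [hn] at d2
    obtain ⟨j, -, hj⟩ := (Nat.dvd_prime_pow hpp).mp d2
    rcases Nat.eq_zero_or_pos j with h0 | hpos
    · rw [hj, h0, pow_zero]
    · exfalso
      have h1 : p ∣ (S ⊔ K).relIndex H := by rw [hj]; exact dvd_pow_self p hpos.ne'
      have h2 : p ∣ (S' : Subgroup H).index := hSidx ▸ h1.trans d1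
      exact S'.not_dvd_index h2
  have hNK : Subgroup.normalizer (S : Set G) ⊔ K = ⊤ := by
    rw [← hFr, ← hSK, ← sup_assoc]
    congr 1
    exact (sup_eq_left.mpr Subgroup.le_normalizer).symm
  let 𝒰 : Set (Subgroup G) := {U | U ≤ S ∧
    Subgroup.normalizer (S : Set G) ≤ Subgroup.normalizer (U : Set G) ∧ ¬ U ≤ K}
  have hS𝒰 : S ∈ 𝒰 := ⟨le_rfl, le_rfl, fun h =>
    hKH.ne (le_antisymm hKH.le (by rw [← hSK]; exact sup_le h le_rfl))⟩
  obtain ⟨U, -, hU, hUmin⟩ := (Set.toFinite 𝒰).exists_le_minimal hS𝒰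
  obtain ⟨hUS, hUN, hUK⟩ := hU
  have hUKn : (U ⊔ K).Normal := by
    rw [← Subgroup.normalizer_eq_top_iff, eq_top_iff, ← hNK]
    refine sup_le ?_ ?_
    · refine le_trans (le_inf hUN ?_) (normalizer_inf_le_normalizer_sup U K)
      rw [Subgroup.normalizer_eq_top_iff.mpr hKn]; exact le_top
    · exact le_sup_right.trans Subgroup.le_normalizer
  have hUKH : U ⊔ K = H := by
    rcases hchief (U ⊔ K) hUKn le_sup_right (sup_le (hUS.trans hSH) hKH.le) with h | h
    · exact absurd (h ▸ le_sup_left) hUK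
    · exact h
  have hidx : K.relIndex H = K.relIndex U := by
    rw [← hUKH, Subgroup.relIndex_sup_right]
  have hUp : IsPGroup p U := hSp.to_le hUS
  have hrU : Cfsg.PRankLE p 2 U := by
    intro A hA hexp
    have hc : IsMulCommutative ↥(A.map U.subtype) := by
      refine ⟨⟨?_⟩⟩
      rintro ⟨_, ⟨a, ha, rfl⟩⟩ ⟨_, ⟨b, hb, rfl⟩⟩
      apply Subtype.ext
      show (a : G) * b = b * a
      have h1 : a * b = b * a := setLike_mul_comm ha hb
      exact congrArg Subtype.val h1
    have h1 := hr (A.map U.subtype) hc (by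
      rintro _ ⟨a, ha, rfl⟩
      show (a : G) ^ p = 1
      exact congrArg Subtype.val (hexp a ha))
    rwa [Subgroup.card_map_of_injective U.subtype_injective] at h1
  have hmain := card_le_sq_mul hp2 hUp hrU (K.subgroupOf U) (by
    intro C hC
    by_cases hCK : C.map U.subtype ≤ K
    · right
      intro c hc
      rw [Subgroup.mem_subgroupOf]
      exact hCK ⟨c, hc, rfl⟩
    · left
      have hmem : C.map U.subtype ∈ 𝒰 := ⟨(Subgroup.map_subtype_le C).trans hUS,
        hUN.trans (normalizer_le_normalizer_map_of_characteristic U C), hCK⟩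
      have h1 : U ≤ C.map U.subtype := hUmin hmem (Subgroup.map_subtype_le C)
      rw [eq_top_iff]
      intro u _
      obtain ⟨c, hc, hcu⟩ := h1 u.2
      have h2 : c = u := Subtype.ext hcu
      rwa [← h2])
  have hcardU : K.relIndex U * Nat.card (K.subgroupOf U) = Nat.card U := by
    unfold Subgroup.relIndex
    rw [mul_comm]; exact Subgroup.card_mul_index _
  have hle : K.relIndex U ≤ p ^ 2 := by
    have h1 : K.relIndex U * Nat.card (K.subgroupOf U) ≤ p ^ 2 * Nat.card (K.subgroupOf U) := by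
      rw [hcardU]; exact hmain
    exact Nat.le_of_mul_le_mul_right h1 Nat.card_pos
  have hn2 : n ≤ 2 := by
    have h1 : p ^ n ≤ p ^ 2 := by rw [← hn, hidx]; exact hle
    exact (Nat.pow_le_pow_iff_right hpp.one_lt).mp h1
  have hn0 : n ≠ 0 := by
    rintro rfl
    rw [pow_zero] at hn
    exact (not_le_of_gt hKH) (Subgroup.relIndex_eq_one.mp hn)
  rw [hn]
  interval_cases n
  · exact absurd rfl hn0
  · left; exact pow_one p
  · right; rfl

end Cfsg.Agent.H1.ChiefRankTwo
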