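import Mathlib
import Cfsg.Agent.H72.Fg7Defs
import Cfsg.Agent.H1.Basic

set_option autoImplicit false

/-! helper1: piece S4118-Q6 of helper72's team project S4118: a TI subgroup acting non-trivially
on a solvable normal subgroup of coprime order acts faithfully and fixed-point-freely on some
finite abelian group. -/

namespace Cfsg.Agent.H1.Fg7

open Cfsg.Agent.H72.Zas

universe u

/-- the action of automorphisms on the abelianization. -/
noncomputable def abAut (W : Type u) [Group W] : MulAut W →* MulAut (Abelianization W) where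
  toFun e := e.abelianizationCongr
  map_one' := abelianizationCongr_refl
  map_mul' e₁ e₂ := (abelianizationCongr_trans e₂ e₁).symm

theorem abAut_of (W : Type u) [Group W] (e : MulAut W) (w : W) :
    abAut W e (Abelianization.of w) = Abelianization.of (e w) := rfl

/-- An action on a finite abelian group of coprime order in which the fixed points of every
nontrivial element are fixed by the whole group, and which is not trivial, gives a faithful
fixed-point-free action on the kernel of the norm map. -/
theorem fpf_of_action {H : Type u} [Group H] [Finite H] {A : Type u} [CommGroup A] [Finite A]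
    (ψ : H →* MulAut A) (hcop : (Nat.card A).Coprime (Nat.card H))
    (hfix : ∀ h : H, h ≠ 1 → ∀ a : A, ψ h a = a → ∀ g : H, ψ g a = a)
    (hnt : ∃ (h : H) (a : A), ψ h a ≠ a) :
    ∃ (U : Type u) (_ : CommGroup U) (_ : Finite U) (φ : H →* MulAut U), Function.Injective φ ∧
      ∀ h : H, h ≠ 1 → ∀ u : U, φ h u = u → u = 1 := by
  classical
  haveI := Fintype.ofFinite H
  let N : A →* A :=
    { toFun := fun a => ∏ g : H, ψ g a
      map_one' := by simp
      map_mul' := fun a b => by simp [Finset.prod_mul_distrib] }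
  have hNdef : ∀ a : A, N a = ∏ g : H, ψ g a := fun a => rfl
  have hN : ∀ (h : H) (a : A), N (ψ h a) = N a := by
    intro h a
    rw [hNdef, hNdef]
    rw [← Equiv.prod_comp (Equiv.mulRight h) (fun g => ψ g a)]
    apply Finset.prod_congr rfl
    intro g _
    rw [Equiv.coe_mulRight, map_mul, MulAut.mul_apply]
  have hmem : ∀ (h : H) (u : A), u ∈ N.ker → ψ h u ∈ N.ker := by
    intro h u hu
    rw [MonoidHom.mem_ker] at hu ⊢
    rw [hN, hu]
  let φ : H →* MulAut N.ker :=
    { toFun := fun h =>
        { toFun := fun u => ⟨ψ h u, hmem h u u.2⟩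
          invFun := fun u => ⟨ψ h⁻¹ u, hmem h⁻¹ u u.2⟩
          left_inv := fun u => Subtype.ext (by
            show ψ h⁻¹ (ψ h u) = u
            rw [← MulAut.mul_apply, ← map_mul, inv_mul_cancel, map_one, MulAut.one_apply])
          right_inv := fun u => Subtype.ext (by
            show ψ h (ψ h⁻¹ u) = u
            rw [← MulAut.mul_apply, ← map_mul, mul_inv_cancel, map_one, MulAut.one_apply])
          map_mul' := fun u v => Subtype.ext (by
            show ψ h (u * v : A) = ψ h u * ψ h v
            rw [map_mul]) }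
      map_one' := by
        apply MulEquiv.ext
        intro u
        apply Subtype.ext
        show ψ 1 (u : A) = u
        rw [map_one, MulAut.one_apply]
      map_mul' := fun g h => by
        apply MulEquiv.ext
        intro u
        apply Subtype.ext
        show ψ (g * h) (u : A) = ψ g (ψ h u)
        rw [map_mul, MulAut.mul_apply] }
  have hφ : ∀ (h : H) (u : N.ker), ((φ h u : N.ker) : A) = ψ h u := fun h u => rfl
  have hfpf : ∀ h : H, h ≠ 1 → ∀ u : N.ker, φ h u = u → u = 1 := by
    intro h hh u hu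
    have h1 : ψ h (u : A) = u := by rw [← hφ, hu]
    have h2 := hfix h hh u h1
    have h3 : N (u : A) = (u : A) ^ Nat.card H := by
      rw [hNdef, Finset.prod_congr rfl (fun g _ => h2 g), Finset.prod_const, Finset.card_univ,
        Nat.card_eq_fintype_card]
    have h4 : (u : A) ^ Nat.card H = 1 := by rw [← h3]; exact u.2
    have h5 : orderOf (u : A) = 1 :=
      Nat.eq_one_of_dvd_coprimes hcop (orderOf_dvd_natCard _) (orderOf_dvd_of_pow_eq_one h4)
    exact Subtype.ext (orderOf_eq_one_iff.1 h5)
  refine ⟨N.ker, inferInstance, inferInstance, φ, ?_, hfpf⟩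
  rw [injective_iff_map_eq_one]
  intro h hh
  by_contra hne
  have hker : ∀ a : A, N a = 1 → a = 1 := by
    intro a ha
    have := hfpf h hne ⟨a, ha⟩ (by rw [hh]; rfl)
    exact congrArg Subtype.val this
  obtain ⟨g, a, hga⟩ := hnt
  apply hga
  have h1 : N (a⁻¹ * ψ g a) = 1 := by
    rw [map_mul, map_inv, hN, inv_mul_cancel]
  have h2 := hker _ h1
  calc ψ g a = a * (a⁻¹ * ψ g a) := by group
    _ = a := by rw [h2, mul_one]

/-- a normal subgroup of `G` inside `O`, not centralized by `H`, whose commutator subgroup is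
centralized by `H`. -/
theorem exists_min_sub {G : Type u} [Group G] [Finite G] (H O : Subgroup G)
    [hO : Group.IsSolvable O] :
    ∀ (n : ℕ) (W : Subgroup G), Nat.card W ≤ n → W.Normal → W ≤ O →
      (¬ ∀ x ∈ W, ∀ h ∈ H, x * h = h * x) →
      ∃ W₀ : Subgroup G, W₀.Normal ∧ W₀ ≤ O ∧ (¬ ∀ x ∈ W₀, ∀ h ∈ H, x * h = h * x) ∧
        ∀ x ∈ ⁅W₀, W₀⁆, ∀ h ∈ H, x * h = h * x := by
  intro n
  induction n with
  | zero =>
    intro W hc
    exfalso
    have : 0 < Nat.card W := Nat.card_pos
    omega
  | succ n ih =>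
    intro W hc hWn hWO hWnc
    by_cases hcc : ∀ x ∈ ⁅W, W⁆, ∀ h ∈ H, x * h = h * x
    · exact ⟨W, hWn, hWO, hWnc, hcc⟩
    · haveI := hWn
      have hle : ⁅W, W⁆ ≤ W := Subgroup.commutator_le_self W
      refine ih ⁅W, W⁆ ?_ inferInstance (hle.trans hWO) hcc
      haveI : Group.IsSolvable W := Cfsg.Agent.H1.isSolvable_of_le hWO
      have hWne : W ≠ ⊥ := by
        rintro rfl
        apply hWnc
        intro x hx h _
        rw [Subgroup.mem_bot] at hx
        rw [hx, one_mul, mul_one]
      have hlt := Cfsg.Agent.H1.commutator_lt_of_isSolvable W hWne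
      by_contra hcon
      push Not at hcon
      have heq : ⁅W, W⁆ = W := Subgroup.eq_of_le_of_card_ge hle (by omega)
      exact hlt.ne heq

theorem stQ6 : StQ6.{u} := by
  intro G _ _ H O hTI hOn hcop hsolv hnc
  haveI := hsolv
  -- (a) centralizers of nontrivial elements of `H` in `O` centralize `H`
  have ha : ∀ x ∈ O, ∀ h ∈ H, h ≠ 1 → x * h = h * x → ∀ h' ∈ H, x * h' = h' * x := by
    intro x hx h hh hne hxh h' hh'
    have hxN : x ∈ Subgroup.normalizer (H : Set G) := by
      by_contra hxN
      apply hne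
      apply hTI x hxN h hh
      have : x * h * x⁻¹ = h := by rw [hxh]; group
      rw [this]; exact hh
    have h1 : x * h' * x⁻¹ ∈ H := (Subgroup.mem_normalizer_iff.1 hxN h').1 hh'
    have h2 : x * h' * x⁻¹ * h'⁻¹ ∈ H := H.mul_mem h1 (H.inv_mem hh')
    have h3 : x * h' * x⁻¹ * h'⁻¹ ∈ O := by
      have h4 : h' * x⁻¹ * h'⁻¹ ∈ O := hOn.conj_mem _ (O.inv_mem hx) h'
      have h5 := O.mul_mem hx h4
      have h6 : x * (h' * x⁻¹ * h'⁻¹) = x * h' * x⁻¹ * h'⁻¹ := by group
      rwa [h6] at h5
    have h7 : orderOf (x * h' * x⁻¹ * h'⁻¹) = 1 := by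
      apply Nat.eq_one_of_dvd_coprimes hcop
      · have := orderOf_dvd_natCard (⟨_, h3⟩ : O)
        rwa [Subgroup.orderOf_mk] at this
      · have := orderOf_dvd_natCard (⟨_, h2⟩ : H)
        rwa [Subgroup.orderOf_mk] at this
    have h8 := orderOf_eq_one_iff.1 h7
    calc x * h' = (x * h' * x⁻¹ * h'⁻¹) * h' * x := by group
      _ = h' * x := by rw [h8, one_mul]
  obtain ⟨W, hWn, hWO, hWnc, hW'c⟩ := exists_min_sub H O (Nat.card O) O le_rfl hOn le_rfl hnc
  haveI := hWn
  obtain ⟨ψ, hψ⟩ : ∃ ψ : H →* MulAut (Abelianization W), ∀ (h : H) (w : W),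
      ψ h (Abelianization.of w) = Abelianization.of (MulAut.conjNormal (h : G) w) :=
    ⟨(abAut W).comp ((MulAut.conjNormal (H := W)).comp H.subtype), fun h w => rfl⟩
  have key : ∀ (h : H) (w : W), ψ h (Abelianization.of w) = Abelianization.of w →
      (w : G) * (h : G) = (h : G) * (w : G) := by
    intro h w hfix
    rw [hψ] at hfix
    have h1 : w⁻¹ * MulAut.conjNormal (h : G) w ∈ commutator W := by
      rw [← Abelianization.ker_of, MonoidHom.mem_ker, map_mul, map_inv, hfix, inv_mul_cancel]
    obtain ⟨c, hcdef⟩ : ∃ c : G, c = (w : G)⁻¹ * ((h : G) * (w : G) * (h : G)⁻¹) := ⟨_, rfl⟩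
    have hcW' : c ∈ ⁅W, W⁆ := by
      rw [← Subgroup.map_subtype_commutator]
      refine ⟨_, h1, ?_⟩
      rw [hcdef]
      simp [MulAut.conjNormal_apply]
    have hcO : c ∈ O := hWO (Subgroup.commutator_le_self W hcW')
    have hch : c * (h : G) = (h : G) * c := hW'c c hcW' h h.2
    have h2 : (w : G)⁻¹ * (h : G) * (w : G) = c * (h : G) := by rw [hcdef]; group
    have h3 : c ^ orderOf (h : G) = 1 := by
      have h4 : ((w : G)⁻¹ * (h : G) * (w : G)) ^ orderOf (h : G) = 1 := by
        have := conj_pow (a := (w : G)⁻¹) (b := (h : G)) (i := orderOf (h : G))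
        rw [inv_inv] at this
        rw [this, pow_orderOf_eq_one]; group
      rw [h2, (show Commute c (h : G) from hch).mul_pow, pow_orderOf_eq_one, mul_one] at h4
      exact h4
    have h5 : orderOf c = 1 := by
      apply Nat.eq_one_of_dvd_coprimes hcop
      · have := orderOf_dvd_natCard (⟨c, hcO⟩ : O)
        rwa [Subgroup.orderOf_mk] at this
      · refine (orderOf_dvd_of_pow_eq_one h3).trans ?_
        have := orderOf_dvd_natCard h
        rwa [← Subgroup.orderOf_coe] at this
    rw [orderOf_eq_one_iff.1 h5, one_mul] at h2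
    calc (w : G) * (h : G) = (w : G) * ((w : G)⁻¹ * (h : G) * (w : G)) := by rw [h2]
      _ = (h : G) * (w : G) := by group
  have hcop' : (Nat.card (Abelianization W)).Coprime (Nat.card H) := by
    apply Nat.Coprime.coprime_dvd_left _ hcop
    exact (Subgroup.card_dvd_of_surjective Abelianization.of QuotientGroup.mk_surjective).trans
      (Subgroup.card_dvd_of_le hWO)
  have hfix : ∀ h : H, h ≠ 1 → ∀ a : Abelianization W, ψ h a = a → ∀ g : H, ψ g a = a := by
    intro h hh a hfa g
    obtain ⟨w, rfl⟩ := QuotientGroup.mk_surjective a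
    have h1 := key h w hfa
    have hne : (h : G) ≠ 1 := fun hc => hh (Subtype.ext hc)
    have h2 := ha w (hWO w.2) h h.2 hne h1 g g.2
    show ψ g (Abelianization.of w) = Abelianization.of w
    rw [hψ]
    congr 1
    apply Subtype.ext
    rw [MulAut.conjNormal_apply, ← h2]
    group
  have hnt : ∃ (h : H) (a : Abelianization W), ψ h a ≠ a := by
    by_contra hno
    push Not at hno
    apply hWnc
    intro x hx h hh
    exact key ⟨h, hh⟩ ⟨x, hx⟩ (hno _ _)
  exact fpf_of_action ψ hcop' hfix hnt

end Cfsg.Agent.H1.Fg7
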