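import Cfsg.Agent.H1.SelfNorm
import Cfsg.Agent.H1.HallHigman
import Cfsg.Agent.H1.Fitting
import Cfsg.Agent.H1.Coprime
import Cfsg.Prelude.Def_Transfer

/-!
# Elementary abelian 2-groups acting on odd-order nilpotent groups (S4408)
-/

set_option autoImplicit false
open Pointwise
open scoped commutatorElement

namespace Cfsg.Agent.H1.InvEig

variable {G : Type*} [Group G]

theorem mem_sup_of_commute {H K : Subgroup G} (hc : ∀ h ∈ H, ∀ k ∈ K, h * k = k * h) {x : G}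
    (hx : x ∈ H ⊔ K) : ∃ h ∈ H, ∃ k ∈ K, x = h * k := by
  rw [← Subgroup.closure_eq H, ← Subgroup.closure_eq K, ← Subgroup.closure_union] at hx
  induction hx using Subgroup.closure_induction with
  | mem x hx =>
    rcases hx with h | h
    · exact ⟨x, h, 1, K.one_mem, (mul_one x).symm⟩
    · exact ⟨1, H.one_mem, x, h, (one_mul x).symm⟩
  | one => exact ⟨1, H.one_mem, 1, K.one_mem, (one_mul 1).symm⟩
  | mul x y _ _ ihx ihy =>
    obtain ⟨h1, hh1, k1, hk1, rfl⟩ := ihx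
    obtain ⟨h2, hh2, k2, hk2, rfl⟩ := ihy
    refine ⟨h1 * h2, H.mul_mem hh1 hh2, k1 * k2, K.mul_mem hk1 hk2, ?_⟩
    calc h1 * k1 * (h2 * k2) = h1 * (k1 * h2) * k2 := by group
      _ = h1 * (h2 * k1) * k2 := by rw [hc h2 hh2 k1 hk1]
      _ = h1 * h2 * (k1 * k2) := by group
  | inv x _ ih =>
    obtain ⟨h, hh, k, hk, rfl⟩ := ih
    refine ⟨h⁻¹, H.inv_mem hh, k⁻¹, K.inv_mem hk, ?_⟩
    rw [mul_inv_rev, hc h⁻¹ (H.inv_mem hh) k⁻¹ (K.inv_mem hk)]

/-- An elementary abelian 2-group normalizing a nontrivial abelian subgroup `X` leaves invariant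
a subgroup of prime order, on which each of its elements acts trivially or by inversion. -/
theorem exists_invariant_prime_subgroup [Finite G] (I X : Subgroup G)
    (hIcomm : ∀ s ∈ I, ∀ t ∈ I, s * t = t * s) (hI2 : ∀ s ∈ I, s * s = 1)
    (hXcomm : ∀ a ∈ X, ∀ b ∈ X, a * b = b * a) (hX : X ≠ ⊥)
    (hIX : ∀ s ∈ I, ∀ a ∈ X, s * a * s⁻¹ ∈ X) :
    ∃ A : Subgroup G, A ≤ X ∧ (Nat.card A).Prime ∧
      ∀ s ∈ I, (∀ a ∈ A, s * a * s⁻¹ = a) ∨ (∀ a ∈ A, s * a * s⁻¹ = a⁻¹) := by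
  obtain ⟨A, hAX, hmin⟩ := Set.Finite.exists_le_minimal
    (Set.toFinite {Y : Subgroup G | Y ≤ X ∧ Y ≠ ⊥ ∧ ∀ s ∈ I, ∀ a ∈ Y, s * a * s⁻¹ ∈ Y})
    (show X ∈ {Y : Subgroup G | Y ≤ X ∧ Y ≠ ⊥ ∧ ∀ s ∈ I, ∀ a ∈ Y, s * a * s⁻¹ ∈ Y} from
      ⟨le_rfl, hX, hIX⟩)
  obtain ⟨hAX', hAne, hAinv⟩ := hmin.prop
  have hAcomm : ∀ a ∈ A, ∀ b ∈ A, a * b = b * a := fun a ha b hb =>
    hXcomm a (hAX ha) b (hAX hb)
  have hsinv : ∀ s ∈ I, s⁻¹ = s := fun s hs => inv_eq_of_mul_eq_one_left (hI2 s hs)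
  have hact : ∀ s ∈ I, (∀ a ∈ A, s * a * s⁻¹ = a) ∨ (∀ a ∈ A, s * a * s⁻¹ = a⁻¹) := by
    intro s hs
    let Ap : Subgroup G :=
      { carrier := {a | a ∈ A ∧ s * a * s⁻¹ = a}
        mul_mem' := by
          rintro a b ⟨ha, ha'⟩ ⟨hb, hb'⟩
          refine ⟨A.mul_mem ha hb, ?_⟩
          calc s * (a * b) * s⁻¹ = (s * a * s⁻¹) * (s * b * s⁻¹) := by group
            _ = a * b := by rw [ha', hb']
        one_mem' := ⟨A.one_mem, by group⟩
        inv_mem' := by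
          rintro a ⟨ha, ha'⟩
          refine ⟨A.inv_mem ha, ?_⟩
          calc s * a⁻¹ * s⁻¹ = (s * a * s⁻¹)⁻¹ := by group
            _ = a⁻¹ := by rw [ha'] }
    have hApA : Ap ≤ A := fun a ha => ha.1
    by_cases hAp : Ap = ⊥
    · right
      intro a ha
      have h1 : a * (s * a * s⁻¹) ∈ Ap := by
        refine ⟨A.mul_mem ha (hAinv s hs a ha), ?_⟩
        calc s * (a * (s * a * s⁻¹)) * s⁻¹ = (s * a * s⁻¹) * ((s * s) * a * (s * s)⁻¹) := by group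
          _ = (s * a * s⁻¹) * a := by rw [hI2 s hs]; group
          _ = a * (s * a * s⁻¹) := hAcomm _ (hAinv s hs a ha) _ ha
      rw [hAp, Subgroup.mem_bot] at h1
      exact (eq_inv_of_mul_eq_one_right h1)
    · left
      have hmem : Ap ∈ {Y : Subgroup G | Y ≤ X ∧ Y ≠ ⊥ ∧ ∀ s ∈ I, ∀ a ∈ Y, s * a * s⁻¹ ∈ Y} := by
        refine ⟨hApA.trans hAX, hAp, ?_⟩
        rintro t ht a ⟨ha, ha'⟩
        refine ⟨hAinv t ht a ha, ?_⟩
        calc s * (t * a * t⁻¹) * s⁻¹ = (s * t) * a * (s * t)⁻¹ := by group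
          _ = (t * s) * a * (t * s)⁻¹ := by rw [hIcomm s hs t ht]
          _ = t * (s * a * s⁻¹) * t⁻¹ := by group
          _ = t * a * t⁻¹ := by rw [ha']
      have hle : A ≤ Ap := hmin.le_of_le hmem hApA
      intro a ha
      exact (hle ha).2
  refine ⟨A, hAX, ?_, hact⟩
  have hcard : Nat.card A ≠ 1 := fun h => hAne (Subgroup.card_eq_one.mp h)
  obtain ⟨q, hq, hqd⟩ := Nat.exists_prime_and_dvd hcard
  haveI : Fact q.Prime := ⟨hq⟩
  obtain ⟨a, ha⟩ := exists_prime_orderOf_dvd_card' (G := A) q hqd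
  have ha' : orderOf (a : G) = q := by rw [Subgroup.orderOf_coe, ha]
  have hY : Subgroup.zpowers (a : G) ∈
      {Y : Subgroup G | Y ≤ X ∧ Y ≠ ⊥ ∧ ∀ s ∈ I, ∀ a ∈ Y, s * a * s⁻¹ ∈ Y} := by
    have hzA : Subgroup.zpowers (a : G) ≤ A := (Subgroup.zpowers_le).mpr a.2
    refine ⟨hzA.trans hAX, ?_, ?_⟩
    · rw [Ne, Subgroup.zpowers_eq_bot]
      intro h
      rw [h, orderOf_one] at ha'
      exact hq.one_lt.ne ha'
    · intro s hs y hy
      rcases hact s hs with h | h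
      · rw [h y (hzA hy)]; exact hy
      · rw [h y (hzA hy)]; exact Subgroup.inv_mem _ hy
  have hle : A ≤ Subgroup.zpowers (a : G) := hmin.le_of_le hY ((Subgroup.zpowers_le).mpr a.2)
  have heq : A = Subgroup.zpowers (a : G) := le_antisymm hle ((Subgroup.zpowers_le).mpr a.2)
  rw [heq, Nat.card_zpowers, ha']
  exact hq

/-- The inductive construction of independent eigen-subgroups. -/
theorem exists_eigen_family [Finite G] (I B : Subgroup G)
    (hIcomm : ∀ s ∈ I, ∀ t ∈ I, s * t = t * s) (hI2 : ∀ s ∈ I, s * s = 1)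
    (hBcomm : ∀ a ∈ B, ∀ b ∈ B, a * b = b * a) (hBodd : Odd (Nat.card B))
    (hIB : ∀ s ∈ I, ∀ b ∈ B, s * b * s⁻¹ ∈ B) :
    ∀ (m : ℕ) (J : Subgroup G), J ≤ I → Nat.card J = 2 ^ m →
      (∀ s ∈ J, (∀ b ∈ B, s * b * s⁻¹ = b) → s = 1) →
      ∃ f : Fin m → Subgroup G, (∀ i, (Nat.card (f i)).Prime) ∧ (∀ i, f i ≤ B) ∧
        (∀ i, ∀ s ∈ I, ∀ a ∈ f i, s * a * s⁻¹ ∈ f i) ∧
        Nat.card (⨆ i, f i : Subgroup G) = ∏ i, Nat.card (f i) ∧
        (∀ s ∈ J, (∀ d ∈ (⨆ i, f i : Subgroup G), s * d * s⁻¹ = d) → s = 1) ∧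
        (∀ d ∈ (⨆ i, f i : Subgroup G), (∀ s ∈ J, s * d * s⁻¹ = d) → d = 1) := by
  have hodd : ∀ a ∈ B, a = a⁻¹ → a = 1 := by
    intro a ha h
    have h1 : a ^ 2 = 1 := by
      rw [pow_two]; nth_rewrite 2 [h]; exact mul_inv_cancel a
    have h2 : a ^ Nat.card B = 1 := by
      have := pow_card_eq_one' (G := B) (x := ⟨a, ha⟩)
      exact congrArg Subtype.val this
    have h3 : orderOf a = 1 :=
      Nat.eq_one_of_dvd_coprimes (Nat.coprime_two_left.mpr hBodd)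
        (orderOf_dvd_of_pow_eq_one h1) (orderOf_dvd_of_pow_eq_one h2)
    exact orderOf_eq_one_iff.mp h3
  intro m
  induction m with
  | zero =>
    intro J _ hJc _
    refine ⟨fun i => i.elim0, fun i => i.elim0, fun i => i.elim0, fun i => i.elim0, ?_, ?_, ?_⟩
    · simp
    · intro s hs _
      rw [pow_zero, Subgroup.card_eq_one] at hJc
      rw [hJc, Subgroup.mem_bot] at hs
      exact hs
    · intro d hd _
      rw [iSup_of_empty, Subgroup.mem_bot] at hd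
      exact hd
  | succ m ih =>
    intro J hJI hJc hJf
    -- a nontrivial element `t` of `J`
    have hJne : J ≠ ⊥ := by
      rw [← Subgroup.one_lt_card_iff_ne_bot, hJc]
      exact Nat.one_lt_two_pow (Nat.succ_ne_zero m)
    obtain ⟨t, htJ, ht1⟩ : ∃ t ∈ J, t ≠ 1 := by
      obtain ⟨t, ht⟩ := (Subgroup.ne_bot_iff_exists_ne_one (H := J)).mp hJne
      exact ⟨t.1, t.2, fun h => ht (Subtype.ext h)⟩
    have htI : t ∈ I := hJI htJ
    have htinv : t⁻¹ = t := inv_eq_of_mul_eq_one_left (hI2 t htI)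
    obtain ⟨b, hbB, hb⟩ : ∃ b ∈ B, t * b * t⁻¹ ≠ b := by
      by_contra hcon
      push Not at hcon
      exact ht1 (hJf t htJ hcon)
    -- the subgroup of `B` inverted by `t`
    let Bm : Subgroup G :=
      { carrier := {a | a ∈ B ∧ t * a * t⁻¹ = a⁻¹}
        mul_mem' := by
          rintro a c ⟨ha, ha'⟩ ⟨hc, hc'⟩
          refine ⟨B.mul_mem ha hc, ?_⟩
          calc t * (a * c) * t⁻¹ = (t * a * t⁻¹) * (t * c * t⁻¹) := by group
            _ = a⁻¹ * c⁻¹ := by rw [ha', hc']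
            _ = (a * c)⁻¹ := by rw [mul_inv_rev, hBcomm _ (B.inv_mem hc) _ (B.inv_mem ha)]
        one_mem' := ⟨B.one_mem, by group⟩
        inv_mem' := by
          rintro a ⟨ha, ha'⟩
          refine ⟨B.inv_mem ha, ?_⟩
          calc t * a⁻¹ * t⁻¹ = (t * a * t⁻¹)⁻¹ := by group
            _ = a⁻¹⁻¹ := by rw [ha'] }
    have hBmB : Bm ≤ B := fun a ha => ha.1
    have hBmne : Bm ≠ ⊥ := by
      intro h
      have hc : t * b * t⁻¹ * b⁻¹ ∈ Bm := by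
        refine ⟨B.mul_mem (hIB t htI b hbB) (B.inv_mem hbB), ?_⟩
        calc t * (t * b * t⁻¹ * b⁻¹) * t⁻¹ = (t * t) * b * (t * t)⁻¹ * (t * b * t⁻¹)⁻¹ := by group
          _ = b * (t * b * t⁻¹)⁻¹ := by rw [hI2 t htI]; group
          _ = (t * b * t⁻¹ * b⁻¹)⁻¹ := by group
      rw [h, Subgroup.mem_bot] at hc
      exact hb (mul_inv_eq_one.mp hc)
    have hIBm : ∀ s ∈ I, ∀ a ∈ Bm, s * a * s⁻¹ ∈ Bm := by
      rintro s hs a ⟨ha, ha'⟩
      refine ⟨hIB s hs a ha, ?_⟩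
      calc t * (s * a * s⁻¹) * t⁻¹ = (t * s) * a * (t * s)⁻¹ := by group
        _ = (s * t) * a * (s * t)⁻¹ := by rw [hIcomm t htI s hs]
        _ = s * (t * a * t⁻¹) * s⁻¹ := by group
        _ = s * a⁻¹ * s⁻¹ := by rw [ha']
        _ = (s * a * s⁻¹)⁻¹ := by group
    obtain ⟨A₁, hA₁Bm, hA₁p, hact⟩ := exists_invariant_prime_subgroup I Bm hIcomm hI2
      (fun a ha c hc => hBcomm a (hBmB ha) c (hBmB hc)) hBmne hIBm
    have hA₁B : A₁ ≤ B := hA₁Bm.trans hBmB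
    have htA₁ : ∀ a ∈ A₁, t * a * t⁻¹ = a⁻¹ := fun a ha => (hA₁Bm ha).2
    -- a nontrivial element of `A₁`
    obtain ⟨a₁, ha₁, ha₁1⟩ : ∃ a₁ ∈ A₁, a₁ ≠ 1 := by
      have hne : A₁ ≠ ⊥ := by
        rw [← Subgroup.one_lt_card_iff_ne_bot]; exact hA₁p.one_lt
      obtain ⟨a, ha⟩ := (Subgroup.ne_bot_iff_exists_ne_one (H := A₁)).mp hne
      exact ⟨a.1, a.2, fun h => ha (Subtype.ext h)⟩
    have hnotboth : ∀ s : G, (∀ a ∈ A₁, s * a * s⁻¹ = a) → (∀ a ∈ A₁, s * a * s⁻¹ = a⁻¹) → False := by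
      intro s h1 h2
      exact ha₁1 (hodd a₁ (hA₁B ha₁) ((h1 a₁ ha₁).symm.trans (h2 a₁ ha₁)))
    -- the centralizer of `A₁` in `J`
    obtain ⟨J₁, hJ₁def⟩ : ∃ J₁ : Subgroup G, J₁ = J ⊓ Subgroup.centralizer (A₁ : Set G) := ⟨_, rfl⟩
    have hJ₁mem : ∀ s : G, s ∈ J₁ ↔ s ∈ J ∧ ∀ a ∈ A₁, s * a * s⁻¹ = a := by
      intro s
      rw [hJ₁def, Subgroup.mem_inf, Subgroup.mem_centralizer_iff]
      constructor
      · rintro ⟨h1, h2⟩
        refine ⟨h1, fun a ha => ?_⟩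
        rw [mul_inv_eq_iff_eq_mul]; exact (h2 a ha).symm
      · rintro ⟨h1, h2⟩
        refine ⟨h1, fun a ha => ?_⟩
        have := h2 a ha
        rw [mul_inv_eq_iff_eq_mul] at this
        exact this.symm
    have hJ₁J : J₁ ≤ J := fun s hs => ((hJ₁mem s).mp hs).1
    have hJ₁c : Nat.card J₁ = 2 ^ m := by
      have hidx : (J₁.subgroupOf J).index = 2 := by
        rw [Subgroup.index_eq_two_iff]
        refine ⟨⟨t, htJ⟩, fun u => ?_⟩
        have huI : (u : G) ∈ I := hJI u.2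
        have hut : ∀ a ∈ A₁, (u : G) * t * a * ((u : G) * t)⁻¹ = (u : G) * a⁻¹ * (u : G)⁻¹ := by
          intro a ha
          calc (u : G) * t * a * ((u : G) * t)⁻¹ = (u : G) * (t * a * t⁻¹) * (u : G)⁻¹ := by group
            _ = (u : G) * a⁻¹ * (u : G)⁻¹ := by rw [htA₁ a ha]
        have hcoe : ((u * ⟨t, htJ⟩ : J) : G) = (u : G) * t := rfl
        rcases hact u.1 huI with h | h
        · right
          refine ⟨?_, ?_⟩
          · rw [Subgroup.mem_subgroupOf, hJ₁mem]; exact ⟨u.2, h⟩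
          · rw [Subgroup.mem_subgroupOf, hJ₁mem, hcoe]
            rintro ⟨-, h'⟩
            apply hnotboth ((u : G) * t) h'
            intro a ha
            rw [hut a ha, h a⁻¹ (A₁.inv_mem ha)]
        · left
          refine ⟨?_, ?_⟩
          · rw [Subgroup.mem_subgroupOf, hJ₁mem, hcoe]
            refine ⟨J.mul_mem u.2 htJ, fun a ha => ?_⟩
            rw [hut a ha, h a⁻¹ (A₁.inv_mem ha), inv_inv]
          · rw [Subgroup.mem_subgroupOf, hJ₁mem]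
            rintro ⟨-, h'⟩
            exact hnotboth u.1 h' h
      have h1 := Subgroup.card_mul_index (J₁.subgroupOf J)
      rw [hidx, card_subgroupOf_of_le hJ₁J, hJc, pow_succ] at h1
      exact Nat.eq_of_mul_eq_mul_right (by norm_num) h1
    obtain ⟨f', hf'p, hf'B, hf'I, hf'c, hf'J, hf'd⟩ := ih J₁ (hJ₁J.trans hJI) hJ₁c
      (fun s hs h => hJf s (hJ₁J hs) h)
    obtain ⟨D, hDdef⟩ : ∃ D : Subgroup G, D = ⨆ i, f' i := ⟨_, rfl⟩
    rw [← hDdef] at hf'c hf'J hf'd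
    have hDB : D ≤ B := by rw [hDdef]; exact iSup_le hf'B
    have hcomm : ∀ a ∈ A₁, ∀ d ∈ D, a * d = d * a := fun a ha d hd =>
      hBcomm a (hA₁B ha) d (hDB hd)
    have hsup : (⨆ i, (Fin.cons A₁ f' : Fin (m + 1) → Subgroup G) i) = A₁ ⊔ D := by
      apply le_antisymm
      · apply iSup_le
        intro i
        refine Fin.cases ?_ (fun j => ?_) i
        · rw [Fin.cons_zero]; exact le_sup_left
        · rw [Fin.cons_succ, hDdef]; exact le_sup_of_le_right (le_iSup f' j)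
      · apply sup_le
        · have := le_iSup (Fin.cons A₁ f' : Fin (m + 1) → Subgroup G) 0
          rwa [Fin.cons_zero] at this
        · rw [hDdef]
          apply iSup_le
          intro j
          have := le_iSup (Fin.cons A₁ f' : Fin (m + 1) → Subgroup G) j.succ
          rwa [Fin.cons_succ] at this
    have hdisj : A₁ ⊓ D = ⊥ := by
      rw [eq_bot_iff]
      intro x hx
      have hxA : x ∈ A₁ := hx.1
      have hxD : x ∈ D := hx.2
      rw [Subgroup.mem_bot]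
      exact hf'd x hxD (fun s hs => ((hJ₁mem s).mp hs).2 x hxA)
    refine ⟨Fin.cons A₁ f', ?_, ?_, ?_, ?_, ?_, ?_⟩
    · intro i
      refine Fin.cases ?_ (fun j => ?_) i
      · rw [Fin.cons_zero]; exact hA₁p
      · rw [Fin.cons_succ]; exact hf'p j
    · intro i
      refine Fin.cases ?_ (fun j => ?_) i
      · rw [Fin.cons_zero]; exact hA₁B
      · rw [Fin.cons_succ]; exact hf'B j
    · intro i
      refine Fin.cases ?_ (fun j => ?_) i
      · rw [Fin.cons_zero]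
        intro s hs a ha
        rcases hact s hs with h | h
        · rw [h a ha]; exact ha
        · rw [h a ha]; exact A₁.inv_mem ha
      · rw [Fin.cons_succ]; exact hf'I j
    · rw [hsup, Fin.prod_univ_succ]
      simp only [Fin.cons_zero, Fin.cons_succ]
      rw [← hf'c]
      apply card_sup_of_le_normalizer A₁ D _ hdisj
      intro a ha
      apply Cfsg.Agent.H1.SelfNorm.mem_normalizer_of_conj_mem
      intro d hd
      rw [hcomm a ha d hd, mul_inv_cancel_right]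
      exact hd
    · intro s hs h
      rw [hsup] at h
      apply hf'J s
      · rw [hJ₁mem]
        exact ⟨hs, fun a ha => h a (Subgroup.mem_sup_left ha)⟩
      · intro d hd
        exact h d (Subgroup.mem_sup_right hd)
    · intro d hd h
      rw [hsup] at hd
      obtain ⟨a, ha, d', hd', rfl⟩ := mem_sup_of_commute hcomm hd
      have hd'1 : d' = 1 := by
        apply hf'd d' hd'
        intro s hs
        have h1 := h s (hJ₁J hs)
        have h2 := ((hJ₁mem s).mp hs).2 a ha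
        have h3 : s * (a * d') * s⁻¹ = (s * a * s⁻¹) * (s * d' * s⁻¹) := by group
        rw [h3, h2] at h1
        exact mul_left_cancel h1
      rw [hd'1, mul_one] at h ⊢
      have h1 := h t htJ
      rw [htA₁ a ha] at h1
      exact hodd a (hA₁B ha) h1.symm

/-- A maximal invariant abelian normal subgroup of a nilpotent normal subgroup `F` is
self-centralizing in `F`. -/
theorem exists_selfCentralizing [Finite G] (F I : Subgroup G) [hFn : F.Normal]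
    (hFnil : Group.IsNilpotent F)
    (hIcomm : ∀ s ∈ I, ∀ t ∈ I, s * t = t * s) (hI2 : ∀ s ∈ I, s * s = 1) :
    ∃ B : Subgroup G, B ≤ F ∧ (∀ a ∈ B, ∀ b ∈ B, a * b = b * a) ∧
      (∀ g ∈ F, ∀ b ∈ B, g * b * g⁻¹ ∈ B) ∧ (∀ s ∈ I, ∀ b ∈ B, s * b * s⁻¹ ∈ B) ∧
      ∀ x ∈ F, (∀ b ∈ B, x * b = b * x) → x ∈ B := by
  obtain ⟨B, -, hmax⟩ := Set.Finite.exists_le_maximal
    (Set.toFinite {B : Subgroup G | B ≤ F ∧ (∀ a ∈ B, ∀ b ∈ B, a * b = b * a) ∧
      (∀ g ∈ F, ∀ b ∈ B, g * b * g⁻¹ ∈ B) ∧ (∀ s ∈ I, ∀ b ∈ B, s * b * s⁻¹ ∈ B)})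
    (show (⊥ : Subgroup G) ∈ {B : Subgroup G | B ≤ F ∧ (∀ a ∈ B, ∀ b ∈ B, a * b = b * a) ∧
      (∀ g ∈ F, ∀ b ∈ B, g * b * g⁻¹ ∈ B) ∧ (∀ s ∈ I, ∀ b ∈ B, s * b * s⁻¹ ∈ B)} by
      refine ⟨bot_le, ?_, ?_, ?_⟩
      · intro a ha b hb
        rw [Subgroup.mem_bot] at ha hb
        rw [ha, hb]
      · intro g _ b hb
        rw [Subgroup.mem_bot] at hb ⊢
        rw [hb]; group
      · intro g _ b hb
        rw [Subgroup.mem_bot] at hb ⊢
        rw [hb]; group)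
  obtain ⟨hBF, hBcomm, hBFinv, hBI⟩ := hmax.prop
  refine ⟨B, hBF, hBcomm, hBFinv, hBI, ?_⟩
  by_contra hcon
  push Not at hcon
  obtain ⟨x₀, hx₀F, hx₀c, hx₀B⟩ := hcon
  have hIinv : ∀ s ∈ I, s⁻¹ = s := fun s hs => inv_eq_of_mul_eq_one_left (hI2 s hs)
  -- the centralizer of `B` in `F`
  obtain ⟨C, hCdef⟩ : ∃ C : Subgroup G, C = F ⊓ Subgroup.centralizer (B : Set G) := ⟨_, rfl⟩
  have hCmem : ∀ z, z ∈ C ↔ z ∈ F ∧ ∀ b ∈ B, z * b = b * z := by
    intro z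
    rw [hCdef, Subgroup.mem_inf, Subgroup.mem_centralizer_iff]
    constructor
    · rintro ⟨h1, h2⟩; exact ⟨h1, fun b hb => (h2 b hb).symm⟩
    · rintro ⟨h1, h2⟩; exact ⟨h1, fun b hb => (h2 b hb).symm⟩
  have hCF : C ≤ F := fun z hz => ((hCmem z).mp hz).1
  have hCcomm : ⁅C, F⁆ ≤ C := by
    rw [Subgroup.commutator_le]
    intro c hc g hg
    obtain ⟨hcF, hcB⟩ := (hCmem c).mp hc
    rw [hCmem, commutatorElement_def]
    refine ⟨F.mul_mem (F.mul_mem (F.mul_mem hcF hg) (F.inv_mem hcF)) (F.inv_mem hg), ?_⟩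
    intro b hb
    have h1 : g⁻¹ * b * g ∈ B := by
      have := hBFinv g⁻¹ (F.inv_mem hg) b hb
      rwa [inv_inv] at this
    have h2 := hcB _ h1
    have h3 : c⁻¹ * (g⁻¹ * b * g) = (g⁻¹ * b * g) * c⁻¹ := by
      have : c⁻¹ * (c * (g⁻¹ * b * g)) * c⁻¹ = c⁻¹ * ((g⁻¹ * b * g) * c) * c⁻¹ := by rw [h2]
      calc c⁻¹ * (g⁻¹ * b * g) = c⁻¹ * ((g⁻¹ * b * g) * c) * c⁻¹ := by group
        _ = c⁻¹ * (c * (g⁻¹ * b * g)) * c⁻¹ := by rw [h2]
        _ = (g⁻¹ * b * g) * c⁻¹ := by group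
    have h4 := hcB b hb
    calc c * g * c⁻¹ * g⁻¹ * b = c * g * (c⁻¹ * (g⁻¹ * b * g)) * g⁻¹ := by group
      _ = c * g * ((g⁻¹ * b * g) * c⁻¹) * g⁻¹ := by rw [h3]
      _ = (c * b) * g * c⁻¹ * g⁻¹ := by group
      _ = (b * c) * g * c⁻¹ * g⁻¹ := by rw [h4]
      _ = b * (c * g * c⁻¹ * g⁻¹) := by group
  -- the descending chain `[C, F, ..., F]`
  obtain ⟨Lc, hLc0, hLcs⟩ : ∃ Lc : ℕ → Subgroup G, Lc 0 = C ∧ ∀ k, Lc (k + 1) = ⁅Lc k, F⁆ :=
    ⟨fun k => Nat.rec C (fun _ L => ⁅L, F⁆) k, rfl, fun _ => rfl⟩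
  have hLcC : ∀ k, Lc k ≤ C := by
    intro k
    induction k with
    | zero => rw [hLc0]
    | succ k ih => rw [hLcs]; exact (Subgroup.commutator_mono ih le_rfl).trans hCcomm
  have hLcmap : ∀ k, Lc k ≤ F.lowerCentralSeries k := by
    intro k
    induction k with
    | zero => rw [hLc0, Subgroup.lowerCentralSeries_zero]; exact hCF
    | succ k ih =>
      rw [hLcs, Subgroup.lowerCentralSeries_succ]
      exact Subgroup.commutator_mono ih le_rfl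
  obtain ⟨n, hn⟩ := (Subgroup.isNilpotent_iff_lowerCentralSeries F).mp hFnil
  have hex : ∃ k, Lc k ≤ B := ⟨n, by
    have := hLcmap n
    rw [hn] at this
    exact this.trans bot_le⟩
  classical
  obtain ⟨k, hkdef⟩ : ∃ k, k = Nat.find hex := ⟨_, rfl⟩
  have hk : Lc k ≤ B := hkdef ▸ Nat.find_spec hex
  have hk0 : k ≠ 0 := by
    intro h
    rw [h, hLc0] at hk
    exact hx₀B (hk ((hCmem x₀).mpr ⟨hx₀F, hx₀c⟩))
  obtain ⟨j, hj⟩ := Nat.exists_eq_succ_of_ne_zero hk0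
  have hjB : ¬ Lc j ≤ B := Nat.find_min hex (by omega)
  obtain ⟨x₁, hx₁L, hx₁B⟩ := SetLike.not_le_iff_exists.mp hjB
  obtain ⟨hx₁F, hx₁c⟩ := (hCmem x₁).mp (hLcC j hx₁L)
  have hx₁comm : ∀ g ∈ F, x₁ * g * x₁⁻¹ * g⁻¹ ∈ B := by
    intro g hg
    have h1 : ⁅x₁, g⁆ ∈ Lc (j + 1) := by
      rw [hLcs]; exact Subgroup.commutator_mem_commutator hx₁L hg
    rw [commutatorElement_def] at h1
    rw [hj] at hk
    exact hk h1
  -- centralizing `B` is conjugation-invariance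
  have hconjB : ∀ z : G, (∀ b ∈ B, z * b = b * z) → ∀ b ∈ B, z * b * z⁻¹ = b := by
    intro z hz b hb
    rw [hz b hb, mul_inv_cancel_right]
  have hconjB' : ∀ z : G, (∀ b ∈ B, z * b = b * z) → ∀ b ∈ B, z⁻¹ * b * z = b := by
    intro z hz b hb
    rw [mul_assoc, ← hz b hb, inv_mul_cancel_left]
  -- the preimage of the centre of `F / B` inside `C B`
  let Z₁ : Subgroup G :=
    { carrier := {z | z ∈ F ∧ (∀ b ∈ B, z * b = b * z) ∧ ∀ g ∈ F, z * g * z⁻¹ * g⁻¹ ∈ B}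
      mul_mem' := by
        rintro z w ⟨hzF, hzc, hzg⟩ ⟨hwF, hwc, hwg⟩
        refine ⟨F.mul_mem hzF hwF, ?_, ?_⟩
        · intro b hb
          rw [mul_assoc, hwc b hb, ← mul_assoc, hzc b hb, mul_assoc]
        · intro g hg
          have h1 : z * w * g * (z * w)⁻¹ * g⁻¹ =
              (z * (w * g * w⁻¹ * g⁻¹) * z⁻¹) * (z * g * z⁻¹ * g⁻¹) := by group
          rw [h1, hconjB z hzc _ (hwg g hg)]
          exact B.mul_mem (hwg g hg) (hzg g hg)
      one_mem' := by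
        refine ⟨F.one_mem, fun b _ => by rw [one_mul, mul_one], fun g _ => ?_⟩
        have : (1 : G) * g * 1⁻¹ * g⁻¹ = 1 := by group
        rw [this]; exact B.one_mem
      inv_mem' := by
        rintro z ⟨hzF, hzc, hzg⟩
        refine ⟨F.inv_mem hzF, ?_, ?_⟩
        · intro b hb
          have := hconjB' z hzc b hb
          calc z⁻¹ * b = (z⁻¹ * b * z) * z⁻¹ := by group
            _ = b * z⁻¹ := by rw [this]
        · intro g hg
          have h1 : z⁻¹ * g * z⁻¹⁻¹ * g⁻¹ = z⁻¹ * (z * g * z⁻¹ * g⁻¹)⁻¹ * z := by group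
          rw [h1, hconjB' z hzc _ (B.inv_mem (hzg g hg))]
          exact B.inv_mem (hzg g hg) }
  have hZ₁mem : ∀ z, z ∈ Z₁ ↔ z ∈ F ∧ (∀ b ∈ B, z * b = b * z) ∧
      ∀ g ∈ F, z * g * z⁻¹ * g⁻¹ ∈ B := fun z => Iff.rfl
  have hBZ₁ : B ≤ Z₁ := by
    intro b hb
    refine ⟨hBF hb, fun c hc => hBcomm b hb c hc, fun g hg => ?_⟩
    have h1 : b * g * b⁻¹ * g⁻¹ = b * (g * b⁻¹ * g⁻¹) := by group
    rw [h1]
    exact B.mul_mem hb (hBFinv g hg _ (B.inv_mem hb))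
  have hx₁Z : x₁ ∈ Z₁ := ⟨hx₁F, hx₁c, hx₁comm⟩
  have hZ₁I : ∀ s ∈ I, ∀ z ∈ Z₁, s * z * s⁻¹ ∈ Z₁ := by
    rintro s hs z ⟨hzF, hzc, hzg⟩
    have hsinv : ∀ b ∈ B, s⁻¹ * b * s ∈ B := by
      intro b hb
      have := hBI s⁻¹ (I.inv_mem hs) b hb
      rwa [inv_inv] at this
    refine ⟨hFn.conj_mem z hzF s, ?_, ?_⟩
    · intro b hb
      have h1 := hzc _ (hsinv b hb)
      calc s * z * s⁻¹ * b = s * (z * (s⁻¹ * b * s)) * s⁻¹ := by group
        _ = s * ((s⁻¹ * b * s) * z) * s⁻¹ := by rw [h1]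
        _ = b * (s * z * s⁻¹) := by group
    · intro g hg
      have hg' : s⁻¹ * g * s ∈ F := by
        have := hFn.conj_mem g hg s⁻¹
        rwa [inv_inv] at this
      have h1 : s * z * s⁻¹ * g * (s * z * s⁻¹)⁻¹ * g⁻¹ =
          s * (z * (s⁻¹ * g * s) * z⁻¹ * (s⁻¹ * g * s)⁻¹) * s⁻¹ := by group
      rw [h1]
      exact hBI s hs _ (hzg _ hg')
  -- a minimal invariant subgroup strictly above `B`
  obtain ⟨X, hXZ, hXmin⟩ := Set.Finite.exists_le_minimal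
    (Set.toFinite {X : Subgroup G | B < X ∧ X ≤ Z₁ ∧ ∀ s ∈ I, ∀ y ∈ X, s * y * s⁻¹ ∈ X})
    (show Z₁ ∈ {X : Subgroup G | B < X ∧ X ≤ Z₁ ∧ ∀ s ∈ I, ∀ y ∈ X, s * y * s⁻¹ ∈ X} from
      ⟨lt_of_le_of_ne hBZ₁ (fun h => hx₁B (h ▸ hx₁Z)), le_rfl, hZ₁I⟩)
  obtain ⟨hBX, -, hXI⟩ := hXmin.prop
  obtain ⟨x, hxX, hxB⟩ := SetLike.exists_of_lt hBX
  obtain ⟨hxF, hxc, hxg⟩ := (hZ₁mem x).mp (hXZ hxX)
  have hdich : ∀ s ∈ I, s * x * s⁻¹ * x⁻¹ ∈ B ∨ x * (s * x * s⁻¹) ∈ B := by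
    intro s hs
    let Xp : Subgroup G :=
      { carrier := {y | y ∈ X ∧ s * y * s⁻¹ * y⁻¹ ∈ B}
        mul_mem' := by
          rintro y w ⟨hy, hy'⟩ ⟨hw, hw'⟩
          refine ⟨X.mul_mem hy hw, ?_⟩
          have h1 : s * (y * w) * s⁻¹ * (y * w)⁻¹ =
              (s * y * s⁻¹ * y⁻¹) * (y * (s * w * s⁻¹ * w⁻¹) * y⁻¹) := by group
          rw [h1, hconjB y ((hZ₁mem y).mp (hXZ hy)).2.1 _ hw']
          exact B.mul_mem hy' hw'
        one_mem' := by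
          refine ⟨X.one_mem, ?_⟩
          have : s * 1 * s⁻¹ * (1 : G)⁻¹ = 1 := by group
          rw [this]; exact B.one_mem
        inv_mem' := by
          rintro y ⟨hy, hy'⟩
          refine ⟨X.inv_mem hy, ?_⟩
          have h1 : s * y⁻¹ * s⁻¹ * y⁻¹⁻¹ = y⁻¹ * (s * y * s⁻¹ * y⁻¹)⁻¹ * y := by group
          rw [h1, hconjB' y ((hZ₁mem y).mp (hXZ hy)).2.1 _ (B.inv_mem hy')]
          exact B.inv_mem hy' }
    have hXpX : Xp ≤ X := fun y hy => hy.1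
    have hBXp : B ≤ Xp := by
      intro b hb
      exact ⟨hBX.le hb, B.mul_mem (hBI s hs b hb) (B.inv_mem hb)⟩
    by_cases hlt : B < Xp
    · left
      have hmem : Xp ∈ {X : Subgroup G | B < X ∧ X ≤ Z₁ ∧ ∀ s ∈ I, ∀ y ∈ X, s * y * s⁻¹ ∈ X} := by
        refine ⟨hlt, hXpX.trans hXZ, ?_⟩
        rintro t ht y ⟨hy, hy'⟩
        refine ⟨hXI t ht y hy, ?_⟩
        have h1 : s * (t * y * t⁻¹) * s⁻¹ * (t * y * t⁻¹)⁻¹ =
            (s * t) * y * (s * t)⁻¹ * (t * y⁻¹ * t⁻¹) := by group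
        rw [h1, hIcomm s hs t ht]
        have h2 : t * s * y * (t * s)⁻¹ * (t * y⁻¹ * t⁻¹) = t * (s * y * s⁻¹ * y⁻¹) * t⁻¹ := by
          group
        rw [h2]
        exact hBI t ht _ hy'
      exact (hXmin.le_of_le hmem hXpX hxX).2
    · right
      have hXpB : Xp = B := (eq_of_le_of_not_lt hBXp hlt).symm
      have hw : x * (s * x * s⁻¹) ∈ Xp := by
        refine ⟨X.mul_mem hxX (hXI s hs x hxX), ?_⟩
        have h1 : s * (x * (s * x * s⁻¹)) * s⁻¹ * (x * (s * x * s⁻¹))⁻¹ =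
            (s * x * s⁻¹) * ((s * s) * x * (s * s)⁻¹) * (s * x * s⁻¹)⁻¹ * x⁻¹ := by group
        rw [h1, hI2 s hs]
        have h2 : s * x * s⁻¹ * (1 * x * 1⁻¹) * (s * x * s⁻¹)⁻¹ * x⁻¹ =
            (s * x * s⁻¹) * x * (s * x * s⁻¹)⁻¹ * x⁻¹ := by group
        rw [h2]
        exact ((hZ₁mem _).mp (hXZ (hXI s hs x hxX))).2.2 x hxF
      rw [hXpB] at hw
      exact hw
  -- the subgroup `Y = B ⟨x⟩` contradicts the maximality of `B`
  obtain ⟨Y, hYdef⟩ : ∃ Y : Subgroup G, Y = B ⊔ Subgroup.zpowers x := ⟨_, rfl⟩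
  have hBY : B ≤ Y := hYdef ▸ le_sup_left
  have hxY : x ∈ Y := hYdef ▸ Subgroup.mem_sup_right (Subgroup.mem_zpowers x)
  have hYX : Y ≤ X := by
    rw [hYdef]; exact sup_le hBX.le ((Subgroup.zpowers_le).mpr hxX)
  have hYZ : Y ≤ Z₁ := hYX.trans hXZ
  have hYcomm : ∀ a ∈ Y, ∀ b ∈ Y, a * b = b * a := by
    have hT : ∀ u ∈ (B : Set G) ∪ {x}, ∀ v ∈ (B : Set G) ∪ {x}, u * v = v * u := by
      rintro u (hu | hu) v (hv | hv)
      · exact hBcomm u hu v hv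
      · rw [Set.mem_singleton_iff] at hv; rw [hv]; exact (hxc u hu).symm
      · rw [Set.mem_singleton_iff] at hu; rw [hu]; exact hxc v hv
      · rw [Set.mem_singleton_iff] at hu hv; rw [hu, hv]
    have hYcl : Y = Subgroup.closure ((B : Set G) ∪ {x}) := by
      rw [hYdef, Subgroup.closure_union, Subgroup.closure_eq, Subgroup.zpowers_eq_closure]
    have hc := Subgroup.isMulCommutative_closure hT
    rw [← hYcl] at hc
    intro a ha b hb
    exact setLike_mul_comm ha hb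
  have hYmem : Y ∈ {B : Subgroup G | B ≤ F ∧ (∀ a ∈ B, ∀ b ∈ B, a * b = b * a) ∧
      (∀ g ∈ F, ∀ b ∈ B, g * b * g⁻¹ ∈ B) ∧ (∀ s ∈ I, ∀ b ∈ B, s * b * s⁻¹ ∈ B)} := by
    refine ⟨fun y hy => ((hZ₁mem y).mp (hYZ hy)).1, hYcomm, ?_, ?_⟩
    · intro g hg y hy
      have h1 : g * y * g⁻¹ = (y * g * y⁻¹ * g⁻¹)⁻¹ * y := by group
      rw [h1]
      exact Y.mul_mem (hBY (B.inv_mem (((hZ₁mem y).mp (hYZ hy)).2.2 g hg))) hy
    · intro s hs y hy
      have hle : B ⊔ Subgroup.zpowers x ≤ Y.comap (MulAut.conj s).toMonoidHom := by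
        apply sup_le
        · intro b hb
          show s * b * s⁻¹ ∈ Y
          exact hBY (hBI s hs b hb)
        · rw [Subgroup.zpowers_le]
          show s * x * s⁻¹ ∈ Y
          rcases hdich s hs with h | h
          · have h1 : s * x * s⁻¹ = (s * x * s⁻¹ * x⁻¹) * x := by group
            rw [h1]
            exact Y.mul_mem (hBY h) hxY
          · have h1 : s * x * s⁻¹ = x⁻¹ * (x * (s * x * s⁻¹)) := by group
            rw [h1]
            exact Y.mul_mem (Y.inv_mem hxY) (hBY h)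
      exact hle (hYdef ▸ hy)
  exact hxB (hmax.le_of_ge hYmem hBY hxY)

/-- S4408: independent invariant subgroups of prime order in the Fitting subgroup. -/
theorem main {S : Type*} [Group S] [Finite S]
    [Group.IsSolvable S] (hF : Odd (Nat.card ↥(Cfsg.fittingSubgroup S)))
    (I : Subgroup S) (hI : Cfsg.IsElementaryAbelian 2 I) (n : ℕ) (hIn : Nat.card ↥I = 2 ^ n) :
    ∃ f : Fin n → Subgroup S, (∀ i, (Nat.card ↥(f i)).Prime) ∧ (∀ i, f i ≤ Cfsg.fittingSubgroup S) ∧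
      (∀ i, I ≤ Subgroup.normalizer ((f i) : Set S)) ∧ (∀ i j, i ≠ j → ∀ a ∈ f i, ∀ b ∈ f j, a * b = b * a) ∧
      Nat.card ↥(⨆ i, f i) = ∏ i, Nat.card ↥(f i) ∧ I ⊓ Subgroup.centralizer ((⨆ i, f i : Subgroup S) : Set S) = ⊥ := by
  obtain ⟨hIc, hI2'⟩ := hI
  have hIcomm : ∀ s ∈ I, ∀ t ∈ I, s * t = t * s := fun s hs t ht => setLike_mul_comm hs ht
  have hI2 : ∀ s ∈ I, s * s = 1 := fun s hs => by rw [← pow_two]; exact hI2' s hs
  obtain ⟨F, hFdef⟩ : ∃ F : Subgroup S, F = Cfsg.fittingSubgroup S := ⟨_, rfl⟩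
  haveI hFn : F.Normal := hFdef ▸ fitting_normal
  have hFnil : Group.IsNilpotent F := hFdef ▸ fitting_nilpotent
  rw [← hFdef] at hF ⊢
  obtain ⟨B, hBF, hBcomm, hBFinv, hBI, hBself⟩ := exists_selfCentralizing F I hFnil hIcomm hI2
  have hFodd2 : ∀ u ∈ F, u * u = 1 → u = 1 := by
    intro u hu h
    have h1 : u ^ 2 = 1 := by rw [pow_two]; exact h
    have h2 : u ^ Nat.card F = 1 := by
      have := pow_card_eq_one' (G := F) (x := ⟨u, hu⟩)
      exact congrArg Subtype.val this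
    have h3 : orderOf u = 1 :=
      Nat.eq_one_of_dvd_coprimes (Nat.coprime_two_left.mpr hF)
        (orderOf_dvd_of_pow_eq_one h1) (orderOf_dvd_of_pow_eq_one h2)
    exact orderOf_eq_one_iff.mp h3
  have hBodd : Odd (Nat.card B) := Odd.of_dvd_nat hF (Subgroup.card_dvd_of_le hBF)
  have hfaith : ∀ s ∈ I, (∀ b ∈ B, s * b * s⁻¹ = b) → s = 1 := by
    intro s hs hsB
    have hsB' : ∀ b ∈ B, s⁻¹ * b * s = b := by
      intro b hb
      have := hsB b hb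
      calc s⁻¹ * b * s = s⁻¹ * (s * b * s⁻¹) * s := by rw [this]
        _ = b := by group
    have hsF : ∀ g ∈ F, s * g * s⁻¹ = g := by
      intro g hg
      have huF : g⁻¹ * (s * g * s⁻¹) ∈ F := F.mul_mem (F.inv_mem hg) (hFn.conj_mem g hg s)
      have huB : g⁻¹ * (s * g * s⁻¹) ∈ B := by
        apply hBself _ huF
        intro b hb
        have h1 := hsB' b hb
        have h2 : s * (g * b * g⁻¹) * s⁻¹ = g * b * g⁻¹ := hsB _ (hBFinv g hg b hb)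
        calc g⁻¹ * (s * g * s⁻¹) * b
            = g⁻¹ * (s * (g * (s⁻¹ * b * s) * g⁻¹) * s⁻¹) * (s * g * s⁻¹) := by group
          _ = g⁻¹ * (s * (g * b * g⁻¹) * s⁻¹) * (s * g * s⁻¹) := by rw [h1]
          _ = g⁻¹ * (g * b * g⁻¹) * (s * g * s⁻¹) := by rw [h2]
          _ = b * (g⁻¹ * (s * g * s⁻¹)) := by group
      have h3 := hsB _ huB
      have h4 : (g⁻¹ * (s * g * s⁻¹)) * (g⁻¹ * (s * g * s⁻¹)) = 1 := by
        calc (g⁻¹ * (s * g * s⁻¹)) * (g⁻¹ * (s * g * s⁻¹))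
            = g⁻¹ * (s * g * s⁻¹) * (s * (g⁻¹ * (s * g * s⁻¹)) * s⁻¹) := by rw [h3]
          _ = g⁻¹ * ((s * s) * g * (s * s)⁻¹) := by group
          _ = 1 := by rw [hI2 s hs]; group
      have h5 := hFodd2 _ huF h4
      exact (inv_mul_eq_one.mp h5).symm
    have hsC : s ∈ Subgroup.centralizer (F : Set S) := by
      rw [Subgroup.mem_centralizer_iff]
      intro g hg
      have := hsF g hg
      rw [mul_inv_eq_iff_eq_mul] at this
      exact this.symm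
    have hsFm : s ∈ F := by
      rw [hFdef] at hsC ⊢
      exact centralizer_fitting_le hsC
    exact hFodd2 s hsFm (hI2 s hs)
  obtain ⟨f, hfp, hfB, hfI, hfc, hfJ, -⟩ :=
    exists_eigen_family I B hIcomm hI2 hBcomm hBodd hBI n I le_rfl hIn hfaith
  refine ⟨f, hfp, fun i => (hfB i).trans hBF, ?_, ?_, hfc, ?_⟩
  · intro i s hs
    exact Cfsg.Agent.H1.SelfNorm.mem_normalizer_of_conj_mem _ _ (hfI i s hs)
  · intro i j _ a ha b hb
    exact hBcomm a (hfB i ha) b (hfB j hb)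
  · rw [eq_bot_iff]
    intro s hs
    have hsI : s ∈ I := hs.1
    have hsC : s ∈ Subgroup.centralizer ((⨆ i, f i : Subgroup S) : Set S) := hs.2
    rw [Subgroup.mem_bot]
    apply hfJ s hsI
    intro d hd
    have := Subgroup.mem_centralizer_iff.mp hsC d hd
    rw [mul_inv_eq_iff_eq_mul]
    exact this.symm

end Cfsg.Agent.H1.InvEig
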