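import Cfsg.Agent.H1.CoprimeSylow
import Cfsg.Agent.H3.PGroup

/-!
# Maximal invariant subgroups under a coprime action (S4381)
-/

set_option autoImplicit false
open Pointwise
open scoped commutatorElement

namespace Cfsg.Agent.H1.MaxInv

/-- External coprime action: there is an invariant Sylow `p`-subgroup. -/
theorem exists_invariant_sylow_external {A G : Type*} [Group A] [Finite A] [Group G] [Finite G]
    [MulDistribMulAction A G] (hcop : (Nat.card A).Coprime (Nat.card G))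
    (hsol : Group.IsSolvable A ∨ Group.IsSolvable G) (p : ℕ) [Fact p.Prime] :
    ∃ P : Subgroup G, Nat.card P = p ^ (Nat.card G).factorization p ∧
      ∀ a : A, ∀ x ∈ P, a • x ∈ P := by
  let φ : A →* MulAut G := MulDistribMulAction.toMulAut A G
  let iG : G →* G ⋊[φ] A := SemidirectProduct.inl
  let iA : A →* G ⋊[φ] A := SemidirectProduct.inr
  have hiG : Function.Injective iG := SemidirectProduct.inl_injective
  have hiA : Function.Injective iA := SemidirectProduct.inr_injective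
  haveI : Finite (G ⋊[φ] A) := Finite.of_equiv _ SemidirectProduct.equivProd.symm
  haveI hKn : (iG.range).Normal := by
    have : iG.range = (SemidirectProduct.rightHom : G ⋊[φ] A →* A).ker :=
      SemidirectProduct.range_inl_eq_ker_rightHom
    rw [this]; infer_instance
  have hcardK : Nat.card iG.range = Nat.card G :=
    Nat.card_congr (Equiv.ofInjective iG hiG).symm
  have hcardA : Nat.card iA.range = Nat.card A :=
    Nat.card_congr (Equiv.ofInjective iA hiA).symm
  have hAK : iA.range ≤ Subgroup.normalizer (iG.range : Set (G ⋊[φ] A)) := by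
    rw [Subgroup.normalizer_eq_top]; exact le_top
  have hsolv : Group.IsSolvable iA.range ∨ Group.IsSolvable iG.range := by
    rcases hsol with h | h
    · left
      exact Group.isSolvable_of_surjective (f := (MonoidHom.ofInjective hiA).toMonoidHom)
        (MonoidHom.ofInjective hiA).surjective
    · right
      exact Group.isSolvable_of_surjective (f := (MonoidHom.ofInjective hiG).toMonoidHom)
        (MonoidHom.ofInjective hiG).surjective
  obtain ⟨X, hXK, hXc, hAX⟩ := coprime_exists_invariant_sylow_aux iA.range iG.range hAK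
    (by rw [hcardK, hcardA]; exact hcop) hsolv p
  refine ⟨X.comap iG, ?_, ?_⟩
  · rw [← Subgroup.card_map_of_injective hiG, Subgroup.map_comap_eq_self hXK, hXc, hcardK]
  · intro a x hx
    have hx' : iG x ∈ X := hx
    show iG (a • x) ∈ X
    have h1 : iG (a • x) = iA a * iG x * (iA a)⁻¹ := by
      have := SemidirectProduct.inl_aut (φ := φ) a x
      rw [map_inv] at this
      exact this
    rw [h1]
    exact (Subgroup.mem_normalizer_iff.mp (hAX ⟨a, rfl⟩) (iG x)).mp hx'

/-- Existence of a complement in an elementary abelian `p`-group. -/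
theorem exists_compl_elementary {V : Type*} [Group V] [Finite V] (p : ℕ) [Fact p.Prime]
    (hcomm : ∀ x y : V, x * y = y * x) (hexp : ∀ x : V, x ^ p = 1) (W : Subgroup V) :
    ∃ U : Subgroup V, W ⊓ U = ⊥ ∧ W ⊔ U = ⊤ := by
  letI : CommGroup V := { (inferInstance : Group V) with mul_comm := hcomm }
  have hp : p.Prime := Fact.out
  obtain ⟨U₀, -, hmax⟩ := Set.Finite.exists_le_maximal (Set.toFinite {U : Subgroup V | W ⊓ U = ⊥})
    (show (⊥ : Subgroup V) ∈ {U : Subgroup V | W ⊓ U = ⊥} from inf_bot_eq W)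
  have hU₀ : W ⊓ U₀ = ⊥ := hmax.prop
  refine ⟨U₀, hU₀, ?_⟩
  by_contra hne
  obtain ⟨v, hv⟩ : ∃ v : V, v ∉ W ⊔ U₀ := by
    by_contra hcon
    push Not at hcon
    exact hne (eq_top_iff.mpr fun x _ => hcon x)
  have hU₁ : W ⊓ (U₀ ⊔ Subgroup.zpowers v) = ⊥ := by
    rw [eq_bot_iff]
    rintro w hw
    have hwW : w ∈ W := hw.1
    have hwU : w ∈ U₀ ⊔ Subgroup.zpowers v := hw.2
    obtain ⟨u, hu, z, hz, rfl⟩ := Subgroup.mem_sup.mp hwU
    obtain ⟨k, rfl⟩ := Subgroup.mem_zpowers_iff.mp hz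
    have hzk : v ^ k ∈ W ⊔ U₀ := by
      have : v ^ k = u⁻¹ * (u * v ^ k) := by group
      rw [this, mul_comm]
      exact Subgroup.mul_mem_sup hwW (U₀.inv_mem hu)
    have hk1 : v ^ k = 1 := by
      rcases (Nat.dvd_prime hp).mp (Int.natCast_dvd_natCast.mp (Int.gcd_dvd_right k p)) with h | h
      · exfalso
        apply hv
        have hb := Int.gcd_eq_gcd_ab k p
        rw [h] at hb
        have : v = (v ^ k) ^ (Int.gcdA k p) := by
          have h2 : v ^ (k * Int.gcdA k p + (p : ℤ) * Int.gcdB k p) = v := by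
            rw [← hb]; simp
          rw [zpow_add, zpow_mul, zpow_mul, zpow_natCast, hexp, one_zpow, mul_one] at h2
          exact h2.symm
        rw [this]
        exact Subgroup.zpow_mem _ hzk _
      · have hd : (p : ℤ) ∣ k := by
          have := Int.gcd_dvd_left k p
          rwa [h] at this
        obtain ⟨m, rfl⟩ := hd
        rw [zpow_mul, zpow_natCast, hexp, one_zpow]
    rw [hk1, mul_one] at hwW ⊢
    have : u ∈ W ⊓ U₀ := ⟨hwW, hu⟩
    rw [hU₀] at this
    exact this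
  have hle : U₀ ⊔ Subgroup.zpowers v ≤ U₀ := hmax.le_of_ge hU₁ le_sup_left
  exact hv ((le_sup_right : U₀ ≤ W ⊔ U₀) (hle ((le_sup_right : Subgroup.zpowers v ≤ _)
    (Subgroup.mem_zpowers v))))

/-- Maschke's theorem, multiplicatively, for an elementary abelian `p`-group with a coprime
action: an invariant subgroup has an invariant complement. -/
theorem maschke_mul {A V : Type*} [Group A] [Finite A] [Group V] [Finite V] (p : ℕ)
    [Fact p.Prime] (hcomm : ∀ x y : V, x * y = y * x) (hexp : ∀ x : V, x ^ p = 1)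
    (hcop : (Nat.card A).Coprime p) (φ : A → V →* V) (hone : ∀ v, φ 1 v = v)
    (hmul : ∀ a b v, φ (a * b) v = φ a (φ b v))
    (W : Subgroup V) (hW : ∀ a, ∀ v ∈ W, φ a v ∈ W) :
    ∃ U : Subgroup V, (∀ a, ∀ v ∈ U, φ a v ∈ U) ∧ W ⊓ U = ⊥ ∧ W ⊔ U = ⊤ := by
  obtain ⟨U₀, hinf, hsup⟩ := exists_compl_elementary p hcomm hexp W
  letI : CommGroup V := { (inferInstance : Group V) with mul_comm := hcomm }
  have hp : p.Prime := Fact.out
  letI : Fintype A := Fintype.ofFinite A
  have hdec : ∀ v : V, ∃ w : V, w ∈ W ∧ ∃ u ∈ U₀, w * u = v := by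
    intro v
    have hv : v ∈ W ⊔ U₀ := by rw [hsup]; trivial
    obtain ⟨w, hw, u, hu, h⟩ := Subgroup.mem_sup.mp hv
    exact ⟨w, hw, u, hu, h⟩
  choose π hπW hπ using hdec
  have huniq : ∀ v w, w ∈ W → (∃ u ∈ U₀, w * u = v) → π v = w := by
    rintro v w hw ⟨u, hu, h⟩
    obtain ⟨u', hu', h'⟩ := hπ v
    have h1 : w⁻¹ * π v ∈ W ⊓ U₀ := by
      refine ⟨W.mul_mem (W.inv_mem hw) (hπW v), ?_⟩
      have e : w * u = π v * u' := h.trans h'.symm
      have : w⁻¹ * π v = u * u'⁻¹ := by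
        calc w⁻¹ * π v = w⁻¹ * (π v * u') * u'⁻¹ := by group
          _ = w⁻¹ * (w * u) * u'⁻¹ := by rw [e]
          _ = u * u'⁻¹ := by group
      show w⁻¹ * π v ∈ U₀
      rw [this]
      exact U₀.mul_mem hu (U₀.inv_mem hu')
    rw [hinf, Subgroup.mem_bot, inv_mul_eq_one] at h1
    exact h1.symm
  have hπmul : ∀ v v', π (v * v') = π v * π v' := by
    intro v v'
    obtain ⟨u, hu, h⟩ := hπ v
    obtain ⟨u', hu', h'⟩ := hπ v'
    apply huniq _ _ (W.mul_mem (hπW v) (hπW v'))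
    refine ⟨u * u', U₀.mul_mem hu hu', ?_⟩
    rw [mul_mul_mul_comm, h, h']
  have hπid : ∀ w ∈ W, π w = w := fun w hw => huniq w w hw ⟨1, U₀.one_mem, mul_one w⟩
  let f : V → V := fun v => ∏ a : A, φ a (π (φ a⁻¹ v))
  have hfmul : ∀ v v', f (v * v') = f v * f v' := by
    intro v v'
    show ∏ a : A, φ a (π (φ a⁻¹ (v * v'))) = (∏ a : A, φ a (π (φ a⁻¹ v))) * ∏ a : A, φ a (π (φ a⁻¹ v'))
    rw [← Finset.prod_mul_distrib]
    refine Finset.prod_congr rfl fun a _ => ?_
    rw [map_mul, hπmul, map_mul]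
  let F : V →* V := MonoidHom.mk' f hfmul
  have hfW : ∀ v, f v ∈ W := fun v => Subgroup.prod_mem _ fun a _ => hW a _ (hπW _)
  have hfid : ∀ w ∈ W, f w = w ^ Nat.card A := by
    intro w hw
    show ∏ a : A, φ a (π (φ a⁻¹ w)) = w ^ Nat.card A
    have : ∀ a : A, φ a (π (φ a⁻¹ w)) = w := by
      intro a
      rw [hπid _ (hW _ _ hw), ← hmul, mul_inv_cancel, hone]
    rw [Finset.prod_congr rfl fun a _ => this a, Finset.prod_const, Finset.card_univ,
      Nat.card_eq_fintype_card]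
  have hfeq : ∀ b v, f (φ b v) = φ b (f v) := by
    intro b v
    show ∏ a : A, φ a (π (φ a⁻¹ (φ b v))) = φ b (∏ a : A, φ a (π (φ a⁻¹ v)))
    rw [map_prod]
    symm
    refine Fintype.prod_equiv (Equiv.mulLeft b) _ _ fun c => ?_
    rw [Equiv.coe_mulLeft, ← hmul, ← hmul, mul_inv_rev, inv_mul_cancel_right]
  refine ⟨F.ker, ?_, ?_, ?_⟩
  · intro a v hv
    rw [MonoidHom.mem_ker] at hv ⊢
    show f (φ a v) = 1
    rw [hfeq, show f v = 1 from hv, map_one]
  · rw [eq_bot_iff]
    intro w hw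
    have hwW : w ∈ W := hw.1
    have hwK : f w = 1 := MonoidHom.mem_ker.mp hw.2
    rw [hfid w hwW] at hwK
    have h1 : orderOf w ∣ Nat.card A := orderOf_dvd_of_pow_eq_one hwK
    have h2 : orderOf w ∣ p := orderOf_dvd_of_pow_eq_one (hexp w)
    have h3 : orderOf w = 1 := Nat.eq_one_of_dvd_coprimes hcop h1 h2
    rw [Subgroup.mem_bot]
    exact orderOf_eq_one_iff.mp h3
  · rw [eq_top_iff]
    intro v _
    obtain ⟨m, -, hm⟩ := Nat.exists_mul_mod_eq_one_of_coprime hcop hp.one_lt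
    have hwW : f v ^ m ∈ W := W.pow_mem (hfW v) m
    have hfw : f (f v ^ m) = f v := by
      rw [hfid _ hwW, ← pow_mul, mul_comm, pow_eq_pow_mod _ (hexp (f v)), hm, pow_one]
    have hker : (f v ^ m)⁻¹ * v ∈ F.ker := by
      rw [MonoidHom.mem_ker]
      show f ((f v ^ m)⁻¹ * v) = 1
      rw [hfmul, show f (f v ^ m)⁻¹ = (f (f v ^ m))⁻¹ from map_inv F _, hfw, inv_mul_cancel]
    have : v = f v ^ m * ((f v ^ m)⁻¹ * v) := by group
    rw [this]
    exact Subgroup.mul_mem_sup hwW hker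

theorem frattini_invariant {A G : Type*} [Group A] [Group G] [MulDistribMulAction A G] :
    ∀ a : A, ∀ x ∈ frattini G, a • x ∈ frattini G := by
  intro a x hx
  have h := (frattini_characteristic (G := G)).fixed (MulDistribMulAction.toMulAut A G a)
  have hx' : x ∈ (frattini G).comap (MulDistribMulAction.toMulAut A G a).toMonoidHom := by
    rw [h]; exact hx
  exact hx'

theorem inv_sup {A G : Type*} [Group A] [Group G] [MulDistribMulAction A G] {M N : Subgroup G}
    (hM : ∀ a : A, ∀ x ∈ M, a • x ∈ M) (hN : ∀ a : A, ∀ x ∈ N, a • x ∈ N) :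
    ∀ a : A, ∀ x ∈ M ⊔ N, a • x ∈ M ⊔ N := by
  intro a x hx
  have h1 : (M ⊔ N).map (MulDistribMulAction.toMonoidHom G a) ≤ M ⊔ N := by
    rw [Subgroup.map_sup]
    apply sup_le_sup
    · rw [Subgroup.map_le_iff_le_comap]; intro y hy; exact hM a y hy
    · rw [Subgroup.map_le_iff_le_comap]; intro y hy; exact hN a y hy
  exact h1 ⟨x, hx, rfl⟩

/-- In a `p`-group with a coprime action, an invariant subgroup containing the Frattini subgroup
has an invariant supplement meeting it in the Frattini subgroup. -/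
theorem exists_invariant_supplement {A G : Type*} [Group A] [Finite A] [Group G] [Finite G]
    [MulDistribMulAction A G] (p : ℕ) [Fact p.Prime] (hG : IsPGroup p G)
    (hcop : (Nat.card A).Coprime p)
    (L : Subgroup G) (hΦL : frattini G ≤ L) (hL : ∀ a : A, ∀ x ∈ L, a • x ∈ L) :
    ∃ L' : Subgroup G, (∀ a : A, ∀ x ∈ L', a • x ∈ L') ∧ L ⊔ L' = ⊤ ∧
      L ⊓ L' ≤ frattini G := by
  have hΦinv : ∀ a : A, ∀ x ∈ frattini G, a • x ∈ frattini G := frattini_invariant
  let φ : A → (G ⧸ frattini G) →* (G ⧸ frattini G) := fun a =>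
    QuotientGroup.map (frattini G) (frattini G) (MulDistribMulAction.toMonoidHom G a)
      (fun x hx => hΦinv a x hx)
  have hφ : ∀ a (x : G), φ a (QuotientGroup.mk' (frattini G) x) =
      QuotientGroup.mk' (frattini G) (a • x) := fun a x => rfl
  have hsurj : Function.Surjective (QuotientGroup.mk' (frattini G)) :=
    QuotientGroup.mk'_surjective _
  have hone : ∀ v, φ 1 v = v := by
    intro v
    obtain ⟨x, rfl⟩ := hsurj v
    rw [hφ, one_smul]
  have hmul : ∀ a b v, φ (a * b) v = φ a (φ b v) := by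
    intro a b v
    obtain ⟨x, rfl⟩ := hsurj v
    rw [hφ, hφ, hφ, mul_smul]
  have hcomm : ∀ x y : G ⧸ frattini G, x * y = y * x := by
    intro x y
    obtain ⟨x, rfl⟩ := hsurj x
    obtain ⟨y, rfl⟩ := hsurj y
    rw [← map_mul, ← map_mul]
    apply (QuotientGroup.eq).mpr
    have h1 : (x * y)⁻¹ * (y * x) = ⁅y⁻¹, x⁻¹⁆ := by
      rw [commutatorElement_def]; group
    rw [h1]
    apply Cfsg.Agent.H3.commutator_le_frattini hG
    rw [commutator_def]
    exact Subgroup.commutator_mem_commutator (Subgroup.mem_top _) (Subgroup.mem_top _)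
  have hexp : ∀ x : G ⧸ frattini G, x ^ p = 1 := by
    intro x
    obtain ⟨x, rfl⟩ := hsurj x
    rw [← map_pow]
    exact (QuotientGroup.eq_one_iff _).mpr (Cfsg.Agent.H3.pow_mem_frattini hG x)
  obtain ⟨U, hUinv, hinf, hsup⟩ := maschke_mul p hcomm hexp hcop φ hone hmul
    (L.map (QuotientGroup.mk' (frattini G))) (by
      rintro a _ ⟨x, hx, rfl⟩
      rw [hφ]
      exact ⟨a • x, hL a x hx, rfl⟩)
  refine ⟨U.comap (QuotientGroup.mk' (frattini G)), ?_, ?_, ?_⟩
  · intro a x hx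
    have hx' : QuotientGroup.mk' (frattini G) x ∈ U := hx
    show QuotientGroup.mk' (frattini G) (a • x) ∈ U
    rw [← hφ]
    exact hUinv a _ hx'
  · have h1 : (L.map (QuotientGroup.mk' (frattini G))).comap (QuotientGroup.mk' (frattini G))
        = L := by
      rw [Subgroup.comap_map_eq, QuotientGroup.ker_mk']
      exact sup_eq_left.mpr hΦL
    have h2 := Subgroup.comap_sup_eq (QuotientGroup.mk' (frattini G))
      (L.map (QuotientGroup.mk' (frattini G))) U hsurj
    rw [h1, hsup, Subgroup.comap_top] at h2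
    exact h2
  · intro x hx
    have hxL : x ∈ L := hx.1
    have hxU : QuotientGroup.mk' (frattini G) x ∈ U := hx.2
    have : QuotientGroup.mk' (frattini G) x ∈ L.map (QuotientGroup.mk' (frattini G)) ⊓ U :=
      ⟨⟨x, hxL, rfl⟩, hxU⟩
    rw [hinf, Subgroup.mem_bot] at this
    exact (QuotientGroup.eq_one_iff x).mp this

/-- Every proper invariant subgroup lies in a maximal invariant subgroup. -/
theorem exists_maxInv_ge {A G : Type*} [Group A] [Group G] [Finite G]
    [MulDistribMulAction A G] (H : Subgroup G) (hH : H ≠ ⊤)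
    (hHinv : ∀ a : A, ∀ x ∈ H, a • x ∈ H) :
    ∃ M : Subgroup G, H ≤ M ∧ (M ≠ ⊤ ∧ (∀ a : A, ∀ x ∈ M, a • x ∈ M) ∧
      ∀ L : Subgroup G, M < L → (∀ a : A, ∀ x ∈ L, a • x ∈ L) → L = ⊤) := by
  obtain ⟨M, hHM, hmax⟩ := Set.Finite.exists_le_maximal
    (Set.toFinite {K : Subgroup G | K ≠ ⊤ ∧ ∀ a : A, ∀ x ∈ K, a • x ∈ K})
    (show H ∈ {K : Subgroup G | K ≠ ⊤ ∧ ∀ a : A, ∀ x ∈ K, a • x ∈ K} from ⟨hH, hHinv⟩)
  refine ⟨M, hHM, hmax.prop.1, hmax.prop.2, ?_⟩
  intro L hML hLinv
  by_contra hL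
  exact (lt_irrefl M) (lt_of_lt_of_le hML (hmax.le_of_ge ⟨hL, hLinv⟩ hML.le))

/-- A maximal invariant subgroup contains the Frattini subgroup. -/
theorem frattini_le_of_maxInv {A G : Type*} [Group A] [Group G] [Finite G]
    [MulDistribMulAction A G] (M : Subgroup G) (hM : M ≠ ⊤)
    (hMinv : ∀ a : A, ∀ x ∈ M, a • x ∈ M)
    (hMmax : ∀ L : Subgroup G, M < L → (∀ a : A, ∀ x ∈ L, a • x ∈ L) → L = ⊤) :
    frattini G ≤ M := by
  by_contra hle
  have hlt : M < M ⊔ frattini G := by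
    refine lt_of_le_of_ne le_sup_left fun h => hle ?_
    rw [h]; exact le_sup_right
  have htop := hMmax _ hlt (inv_sup hMinv frattini_invariant)
  exact hM (frattini_nongenerating htop)

theorem main {A G : Type*} [Group A] [Finite A]
    [Group G] [Finite G] [MulDistribMulAction A G] (hcop : (Nat.card A).Coprime (Nat.card G)) (hsol : Group.IsSolvable A ∨ Group.IsSolvable G) :
    ((∀ M N : Subgroup G, (M ≠ ⊤ ∧ (∀ a : A, ∀ x ∈ M, a • x ∈ M) ∧ ∀ L : Subgroup G, M < L → (∀ a : A, ∀ x ∈ L, a • x ∈ L) → L = ⊤) → (N ≠ ⊤ ∧ (∀ a : A, ∀ x ∈ N, a • x ∈ N) ∧ ∀ L : Subgroup G, N < L → (∀ a : A, ∀ x ∈ L, a • x ∈ L) → L = ⊤) →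
        ∃ c : G, (∀ a : A, a • c = c) ∧ N = MulAut.conj c • M) ↔
      ((∃ p : ℕ, p.Prime ∧ IsPGroup p G) ∧ ∀ L : Subgroup G, frattini G < L → (∀ a : A, ∀ x ∈ L, a • x ∈ L) → L = ⊤)) ∧
    (((∃ p : ℕ, p.Prime ∧ IsPGroup p G) ∧ ∀ L : Subgroup G, frattini G < L → (∀ a : A, ∀ x ∈ L, a • x ∈ L) → L = ⊤) →
      ∀ M : Subgroup G, (M ≠ ⊤ ∧ (∀ a : A, ∀ x ∈ M, a • x ∈ M) ∧ ∀ L : Subgroup G, M < L → (∀ a : A, ∀ x ∈ L, a • x ∈ L) → L = ⊤) ↔ (M = frattini G ∧ M ≠ ⊤)) := by
  have hΦinv : ∀ a : A, ∀ x ∈ frattini G, a • x ∈ frattini G := frattini_invariant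
  have key1 : (∀ L : Subgroup G, frattini G < L → (∀ a : A, ∀ x ∈ L, a • x ∈ L) → L = ⊤) →
      ∀ M : Subgroup G, (M ≠ ⊤ ∧ (∀ a : A, ∀ x ∈ M, a • x ∈ M) ∧
        ∀ L : Subgroup G, M < L → (∀ a : A, ∀ x ∈ L, a • x ∈ L) → L = ⊤) → M = frattini G := by
    rintro h2 M ⟨hM, hMinv, hMmax⟩
    have hle := frattini_le_of_maxInv M hM hMinv hMmax
    by_contra hne
    exact hM (h2 M (lt_of_le_of_ne hle (Ne.symm hne)) hMinv)
  refine ⟨⟨?_, ?_⟩, ?_⟩
  · intro hconj
    -- Step 1: `G` is a `p`-group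
    have step1 : ∃ p : ℕ, p.Prime ∧ IsPGroup p G := by
      by_cases hsub : Subsingleton G
      · refine ⟨2, Nat.prime_two, IsPGroup.of_card (n := 0) ?_⟩
        rw [pow_zero]; exact Nat.card_unique
      · rw [not_subsingleton_iff_nontrivial] at hsub
        by_contra hno
        obtain ⟨M₀, -, hM₀⟩ := exists_maxInv_ge (A := A) (⊥ : Subgroup G) bot_ne_top
          (by intro a x hx; rw [Subgroup.mem_bot] at hx ⊢; rw [hx, smul_one])
        have hdvd : Nat.card G ∣ Nat.card M₀ := by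
          rw [← Nat.factorization_prime_le_iff_dvd Nat.card_pos.ne' Nat.card_pos.ne']
          intro q hq
          haveI : Fact q.Prime := ⟨hq⟩
          obtain ⟨P, hPc, hPinv⟩ := exists_invariant_sylow_external hcop hsol q
          have hPtop : P ≠ ⊤ := by
            rintro rfl
            apply hno
            refine ⟨q, hq, IsPGroup.of_card (n := (Nat.card G).factorization q) ?_⟩
            rw [← hPc, Subgroup.card_top]
          obtain ⟨Mq, hPM, hMq⟩ := exists_maxInv_ge P hPtop hPinv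
          obtain ⟨c, -, hc⟩ := hconj M₀ Mq hM₀ hMq
          have hcard : Nat.card Mq = Nat.card M₀ := by rw [hc, card_conj_smul]
          rw [← Nat.Prime.pow_dvd_iff_le_factorization hq Nat.card_pos.ne', ← hPc, ← hcard]
          exact Subgroup.card_dvd_of_le hPM
        exact hM₀.1 (Subgroup.eq_top_of_le_card _ (Nat.le_of_dvd Nat.card_pos hdvd))
    refine ⟨step1, ?_⟩
    obtain ⟨p, hp, hG⟩ := step1
    haveI : Fact p.Prime := ⟨hp⟩
    intro L hΦL hLinv
    by_contra hLtop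
    have hnt : Nontrivial G := by
      by_contra hsub
      rw [not_nontrivial_iff_subsingleton] at hsub
      exact hLtop (Subsingleton.elim _ _)
    have hcop' : (Nat.card A).Coprime p := by
      obtain ⟨n, hn⟩ := IsPGroup.iff_card.mp hG
      have hn0 : n ≠ 0 := by
        rintro rfl
        rw [pow_zero] at hn
        have := Finite.one_lt_card (α := G)
        omega
      exact Nat.Coprime.coprime_dvd_right (hn ▸ dvd_pow_self p hn0) hcop
    obtain ⟨L', hL'inv, hsup, hinf⟩ := exists_invariant_supplement p hG hcop' L hΦL.le hLinv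
    have hL'top : L' ≠ ⊤ := by
      rintro rfl
      rw [inf_top_eq] at hinf
      exact (lt_irrefl _) (lt_of_lt_of_le hΦL hinf)
    obtain ⟨M₁, hLM₁, hM₁⟩ := exists_maxInv_ge L hLtop hLinv
    obtain ⟨M₂, hLM₂, hM₂⟩ := exists_maxInv_ge L' hL'top hL'inv
    obtain ⟨c, -, hc⟩ := hconj M₁ M₂ hM₁ hM₂
    have hnorm : M₁.Normal := by
      refine ⟨fun n hn g => ?_⟩
      have h1 : g * n * g⁻¹ = ⁅g, n⁆ * n := by rw [commutatorElement_def]; group
      rw [h1]
      refine M₁.mul_mem (hLM₁ (hΦL.le (Cfsg.Agent.H3.commutator_le_frattini hG ?_))) hn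
      rw [commutator_def]
      exact Subgroup.commutator_mem_commutator (Subgroup.mem_top _) (Subgroup.mem_top _)
    have hM₂eq : M₂ = M₁ := by
      rw [hc]
      exact Subgroup.Normal.conj_smul_eq_self c M₁
    have : (⊤ : Subgroup G) ≤ M₁ := by
      rw [← hsup]
      exact sup_le hLM₁ (hM₂eq ▸ hLM₂)
    exact hM₁.1 (top_le_iff.mp this)
  · rintro ⟨-, h2⟩ M N hM hN
    refine ⟨1, fun a => smul_one a, ?_⟩
    rw [key1 h2 M hM, key1 h2 N hN, map_one, one_smul]
  · rintro ⟨-, h2⟩ M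
    constructor
    · intro hM
      exact ⟨key1 h2 M hM, hM.1⟩
    · rintro ⟨rfl, hne⟩
      exact ⟨hne, hΦinv, fun L hL hLinv => h2 L hL hLinv⟩

end Cfsg.Agent.H1.MaxInv
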