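import Mathlib
import Cfsg.Agent.H83.PCDefs

/-! S3366, piece PC-Y (helper83's team proof): an element of order 3 outside `R = O_3(X)`
centralizing the involution `t`. -/

set_option autoImplicit false

universe u

namespace Cfsg.Agent.H1.PC

open Cfsg Cfsg.Agent.H83.PC

set_option maxRecDepth 100000 in
theorem pcy_card_SL23 : Nat.card SL23 = 24 := by
  rw [Nat.card_eq_fintype_card]
  decide

theorem pcy_dvd27 (d : ℕ) (h1 : 9 ∣ d) (h2 : d ∣ 27) : d = 9 ∨ d = 27 := by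
  obtain ⟨k, rfl⟩ := h1
  have hk : k ∣ 3 :=
    Nat.dvd_of_mul_dvd_mul_left (by norm_num : 0 < 9) (show 9 * k ∣ 9 * 3 from h2)
  rcases (Nat.dvd_prime Nat.prime_three).mp hk with rfl | rfl
  · left; rfl
  · right; rfl

theorem y (hZC : StZC.{u}) : StY.{u} := by
  intro X _ _ R f hyp t ht
  have hzc := hZC X R f hyp
  obtain ⟨hRn, hRcard, hRexp, ⟨a0, ha0, b0, hb0, hab0⟩, -, hfker, -, -,
    ⟨E, hEc, hEexp, hEcard⟩⟩ := hyp
  obtain ⟨htt, hft, hinv⟩ := ht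
  have htinv : t⁻¹ = t := inv_eq_of_mul_eq_one_right htt
  -- `Z(R)` as a subgroup
  obtain ⟨ZR, hZRdef⟩ : ∃ ZR : Subgroup X, ZR = R ⊓ Subgroup.centralizer (R : Set X) :=
    ⟨_, rfl⟩
  have hZR : ∀ z : X, IsZ R z ↔ z ∈ ZR := by
    intro z
    rw [hZRdef, Subgroup.mem_inf, Subgroup.mem_centralizer_iff]
    constructor
    · rintro ⟨h1, h2⟩; exact ⟨h1, fun s hs => (h2 s hs).symm⟩
    · rintro ⟨h1, h2⟩; exact ⟨h1, fun s hs => (h2 s hs).symm⟩
  have hZRR : ∀ z ∈ ZR, z ∈ R := fun z hz => ((hZR z).mpr hz).1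
  have hZRc : ∀ z ∈ ZR, ∀ s ∈ R, z * s = s * z := fun z hz => ((hZR z).mpr hz).2
  have hZRt : ∀ z ∈ ZR, t * z = z * t := fun z hz => hzc t z ((hZR z).mpr hz)
  have hζ : ∀ r ∈ R, t * r * t⁻¹ * r ∈ ZR := fun r hr => (hZR _).mp (hinv r hr)
  have hcube3 : ∀ r ∈ R, r * r * r = 1 := by
    intro r hr
    have h3 := hRexp r hr
    rw [← h3]; simp [pow_succ]
  have hcube : ∀ r ∈ R, r⁻¹ * r⁻¹ = r := by
    intro r hr
    calc r⁻¹ * r⁻¹ = r⁻¹ * r⁻¹ * (r * r * r) := by rw [hcube3 r hr, mul_one]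
      _ = r := by group
  have hsq : ∀ r ∈ R, r * r = r⁻¹ := by
    intro r hr
    calc r * r = r⁻¹ * (r * r * r) := by group
      _ = r⁻¹ := by rw [hcube3 r hr, mul_one]
  -- (a) `r * ζ(r)` is inverted by `t`
  have hI : ∀ r ∈ R, t * (r * (t * r * t⁻¹ * r)) * t⁻¹ = (r * (t * r * t⁻¹ * r))⁻¹ := by
    intro r hr
    obtain ⟨z, hzdef⟩ : ∃ z, z = t * r * t⁻¹ * r := ⟨_, rfl⟩
    have hz : z ∈ ZR := by rw [hzdef]; exact hζ r hr
    have e1 : t * r * t⁻¹ = z * r⁻¹ := by rw [hzdef]; group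
    rw [← hzdef]
    have e2 := hZRt z hz
    have e3 := hZRc z hz r⁻¹ (R.inv_mem hr)
    have e4 := hsq z (hZRR z hz)
    calc t * (r * z) * t⁻¹ = (t * r * t⁻¹) * (t * z) * t⁻¹ := by group
      _ = (z * r⁻¹) * (z * t) * t⁻¹ := by rw [e1, e2]
      _ = z * (r⁻¹ * z) := by group
      _ = z * (z * r⁻¹) := by rw [e3]
      _ = (z * z) * r⁻¹ := by group
      _ = z⁻¹ * r⁻¹ := by rw [e4]
      _ = (r * z)⁻¹ := by group
  -- (b) elements inverted by `t`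
  have hb : ∀ r ∈ R, t * r * t⁻¹ = r⁻¹ → r * t * r⁻¹ = t * r := by
    intro r hr h
    rw [htinv] at h
    calc r * t * r⁻¹ = (t * t) * r * t * r⁻¹ := by rw [htt, one_mul]
      _ = t * (t * r * t) * r⁻¹ := by group
      _ = t * r⁻¹ * r⁻¹ := by rw [h]
      _ = t * (r⁻¹ * r⁻¹) := by group
      _ = t * r := by rw [hcube r hr]
  -- commutators of `R` are central in `R`
  have hcomm : ∀ r ∈ R, ∀ s ∈ R, r⁻¹ * s⁻¹ * r * s ∈ ZR := by
    intro r hr s hs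
    obtain ⟨zr, hzr⟩ : ∃ z, z = t * r * t⁻¹ * r := ⟨_, rfl⟩
    obtain ⟨zs, hzs⟩ : ∃ z, z = t * s * t⁻¹ * s := ⟨_, rfl⟩
    obtain ⟨zrs, hzrs⟩ : ∃ z, z = t * (r * s) * t⁻¹ * (r * s) := ⟨_, rfl⟩
    have mr : zr ∈ ZR := by rw [hzr]; exact hζ r hr
    have ms : zs ∈ ZR := by rw [hzs]; exact hζ s hs
    have mrs : zrs ∈ ZR := by rw [hzrs]; exact hζ _ (R.mul_mem hr hs)
    have e1 : t * r * t⁻¹ = zr * r⁻¹ := by rw [hzr]; group
    have e2 : t * s * t⁻¹ = zs * s⁻¹ := by rw [hzs]; group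
    have e3 : t * (r * s) * t⁻¹ = zrs * (r * s)⁻¹ := by rw [hzrs]; group
    have e4 : zrs * (r * s)⁻¹ = zr * r⁻¹ * (zs * s⁻¹) := by
      rw [← e3, ← e1, ← e2]; group
    have e5 := hZRc zs ms r⁻¹ (R.inv_mem hr)
    have e6 : r⁻¹ * s⁻¹ * r * s = zs⁻¹ * zr⁻¹ * zrs := by
      calc r⁻¹ * s⁻¹ * r * s = zs⁻¹ * zr⁻¹ * (zr * (zs * r⁻¹) * s⁻¹ * r * s) := by group
        _ = zs⁻¹ * zr⁻¹ * (zr * (r⁻¹ * zs) * s⁻¹ * r * s) := by rw [e5]
        _ = zs⁻¹ * zr⁻¹ * ((zr * r⁻¹ * (zs * s⁻¹)) * (r * s)) := by group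
        _ = zs⁻¹ * zr⁻¹ * ((zrs * (r * s)⁻¹) * (r * s)) := by rw [e4]
        _ = zs⁻¹ * zr⁻¹ * zrs := by group
    rw [e6]
    exact ZR.mul_mem (ZR.mul_mem (ZR.inv_mem ms) (ZR.inv_mem mr)) mrs
  -- (c) `X = R * C_X(t)`
  have hfc : ∀ g : SL23, f t * g = g * f t := by
    intro g
    apply Subtype.ext
    show (f t).1 * g.1 = g.1 * (f t).1
    rw [hft]; simp
  have hc : ∀ x : X, ∃ ρ ∈ R, (ρ⁻¹ * x) * t = t * (ρ⁻¹ * x) := by
    intro x
    obtain ⟨ρ, hρdef⟩ : ∃ ρ, ρ = t * x * t * x⁻¹ := ⟨_, rfl⟩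
    have hρR : ρ ∈ R := by
      rw [← hfker, MonoidHom.mem_ker, hρdef]
      have h1 : f t * f t = 1 := by rw [← map_mul, htt, map_one]
      calc f (t * x * t * x⁻¹) = f t * f x * f t * (f x)⁻¹ := by
            simp only [map_mul, map_inv]
        _ = f x * (f t * f t) * (f x)⁻¹ := by rw [hfc (f x)]; group
        _ = 1 := by rw [h1]; group
    have hρI : t * ρ * t⁻¹ = ρ⁻¹ := by
      rw [hρdef]
      calc t * (t * x * t * x⁻¹) * t⁻¹ = (t * t) * x * t * x⁻¹ * t⁻¹ := by group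
        _ = x * t * x⁻¹ * t⁻¹ := by rw [htt, one_mul]
        _ = x * t⁻¹ * x⁻¹ * t⁻¹ := by rw [htinv]
        _ = (t * x * t * x⁻¹)⁻¹ := by group
    have htρ : t * ρ = x * t * x⁻¹ := by
      rw [hρdef]
      calc t * (t * x * t * x⁻¹) = (t * t) * x * t * x⁻¹ := by group
        _ = x * t * x⁻¹ := by rw [htt, one_mul]
    have hkey : ρ * t * ρ⁻¹ = x * t * x⁻¹ := (hb ρ hρR hρI).trans htρ
    refine ⟨ρ, hρR, ?_⟩
    calc ρ⁻¹ * x * t = ρ⁻¹ * (x * t * x⁻¹) * x := by group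
      _ = ρ⁻¹ * (ρ * t * ρ⁻¹) * x := by rw [hkey]
      _ = t * (ρ⁻¹ * x) := by group
  -- (d) `A = E ⊓ R` has order 9 and is self-centralizing in `R`
  have hAdvd : Nat.card ↥(E ⊓ R) ∣ 27 := by
    rw [← hRcard]; exact Subgroup.card_dvd_of_le inf_le_right
  have hA9 : 9 ∣ Nat.card ↥(E ⊓ R) := by
    have h1 : Nat.card ↥(E ⊓ R) * (E ⊓ R).relIndex E = Nat.card E := by
      have := Subgroup.relIndex_mul_relIndex (⊥ : Subgroup X) (E ⊓ R) E bot_le inf_le_left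
      rwa [Subgroup.relIndex_bot_left, Subgroup.relIndex_bot_left] at this
    have h2 : (E ⊓ R).relIndex E = Nat.card ↥(E.map f) := by
      rw [Subgroup.inf_relIndex_left, ← hfker, Subgroup.relIndex_ker]
    have h3 : Nat.card ↥(E.map f) ∣ 24 := by
      rw [← pcy_card_SL23]; exact Subgroup.card_subgroup_dvd_card _
    have h4 : Nat.card ↥(E.map f) ∣ 27 := by
      rw [← hEcard, ← h1, h2]; exact dvd_mul_left _ _
    have h5 : Nat.card ↥(E.map f) ∣ 3 := by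
      have := Nat.dvd_gcd h3 h4
      norm_num at this
      exact this
    rw [h2, hEcard] at h1
    rcases (Nat.dvd_prime Nat.prime_three).mp h5 with h | h
    · rw [h, mul_one] at h1; rw [h1]; norm_num
    · rw [h] at h1; exact ⟨1, by omega⟩
  have hAcard : Nat.card ↥(E ⊓ R) = 9 := by
    rcases pcy_dvd27 _ hA9 hAdvd with h | h
    · exact h
    · exfalso
      have hEq : E ⊓ R = R := Subgroup.eq_of_le_of_card_ge inf_le_right (by rw [h, hRcard])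
      have hle : R ≤ E := by rw [← hEq]; exact inf_le_left
      exact hab0 (hEc a0 (hle ha0) b0 (hle hb0))
  have hCA : ∀ r ∈ R, (∀ a ∈ E ⊓ R, r * a = a * r) → r ∈ E ⊓ R := by
    intro r hr hra
    by_contra hrA
    have hAD : E ⊓ R ≤ R ⊓ Subgroup.centralizer ((E ⊓ R : Subgroup X) : Set X) := by
      intro a ha
      refine Subgroup.mem_inf.mpr ⟨ha.2, ?_⟩
      rw [Subgroup.mem_centralizer_iff]
      intro h hh
      exact hEc h hh.1 a ha.1
    have hD : R ⊓ Subgroup.centralizer ((E ⊓ R : Subgroup X) : Set X) = R := by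
      have h9 : 9 ∣ Nat.card ↥(R ⊓ Subgroup.centralizer ((E ⊓ R : Subgroup X) : Set X)) := by
        rw [← hAcard]; exact Subgroup.card_dvd_of_le hAD
      have h27 : Nat.card ↥(R ⊓ Subgroup.centralizer ((E ⊓ R : Subgroup X) : Set X)) ∣ 27 := by
        rw [← hRcard]; exact Subgroup.card_dvd_of_le inf_le_left
      rcases pcy_dvd27 _ h9 h27 with h | h
      · exfalso
        have hEq : E ⊓ R = R ⊓ Subgroup.centralizer ((E ⊓ R : Subgroup X) : Set X) :=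
          Subgroup.eq_of_le_of_card_ge hAD (by rw [h, hAcard])
        apply hrA
        rw [hEq]
        refine Subgroup.mem_inf.mpr ⟨hr, ?_⟩
        rw [Subgroup.mem_centralizer_iff]
        intro h hh
        exact (hra h hh).symm
      · exact Subgroup.eq_of_le_of_card_ge inf_le_left (by rw [h, hRcard])
    have hAc : ∀ a ∈ E ⊓ R, ∀ s ∈ R, s * a = a * s := by
      intro a ha s hs
      have hsD : s ∈ R ⊓ Subgroup.centralizer ((E ⊓ R : Subgroup X) : Set X) := by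
        rw [hD]; exact hs
      exact (Subgroup.mem_centralizer_iff.mp (Subgroup.mem_inf.mp hsD).2 a ha).symm
    have hA0 : E ⊓ R ≤ R ⊓ Subgroup.centralizer ({a0} : Set X) := by
      intro a ha
      refine Subgroup.mem_inf.mpr ⟨ha.2, ?_⟩
      rw [Subgroup.mem_centralizer_iff]
      intro h hh
      rw [Set.mem_singleton_iff] at hh
      rw [hh]
      exact hAc a ha a0 ha0
    have ha0C : a0 ∈ R ⊓ Subgroup.centralizer ({a0} : Set X) := by
      refine Subgroup.mem_inf.mpr ⟨ha0, ?_⟩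
      rw [Subgroup.mem_centralizer_iff]
      intro h hh
      rw [Set.mem_singleton_iff] at hh
      rw [hh]
    have h9 : 9 ∣ Nat.card ↥(R ⊓ Subgroup.centralizer ({a0} : Set X)) := by
      rw [← hAcard]; exact Subgroup.card_dvd_of_le hA0
    have h27 : Nat.card ↥(R ⊓ Subgroup.centralizer ({a0} : Set X)) ∣ 27 := by
      rw [← hRcard]; exact Subgroup.card_dvd_of_le inf_le_left
    rcases pcy_dvd27 _ h9 h27 with h | h
    · have hEq : E ⊓ R = R ⊓ Subgroup.centralizer ({a0} : Set X) :=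
        Subgroup.eq_of_le_of_card_ge hA0 (by rw [h, hAcard])
      have ha0A : a0 ∈ E ⊓ R := by rw [hEq]; exact ha0C
      exact hab0 (hAc a0 ha0A b0 hb0).symm
    · have hEq : R ⊓ Subgroup.centralizer ({a0} : Set X) = R :=
        Subgroup.eq_of_le_of_card_ge inf_le_left (by rw [h, hRcard])
      have hb0C : b0 ∈ R ⊓ Subgroup.centralizer ({a0} : Set X) := by rw [hEq]; exact hb0
      exact hab0 (Subgroup.mem_centralizer_iff.mp (Subgroup.mem_inf.mp hb0C).2 a0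
        (Set.mem_singleton a0))
  have hZA : ∀ z ∈ ZR, z ∈ E ⊓ R := fun z hz =>
    hCA z (hZRR z hz) (fun a ha => hZRc z hz a ha.2)
  obtain ⟨u, huE, huR⟩ : ∃ u ∈ E, u ∉ R := by
    by_contra hcon
    push_neg at hcon
    have hER : E ≤ R := hcon
    have hEq : E = R := Subgroup.eq_of_le_of_card_ge hER (by rw [hEcard, hRcard])
    exact hab0 (hEc a0 (by rw [hEq]; exact ha0) b0 (by rw [hEq]; exact hb0))
  -- (e) decompose `u = ρ * n`
  obtain ⟨ρ, hρ, hn⟩ := hc u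
  obtain ⟨n, hndef⟩ : ∃ n, n = ρ⁻¹ * u := ⟨_, rfl⟩
  rw [← hndef] at hn
  have hu : u = ρ * n := by rw [hndef]; group
  have hn4 : n⁻¹ * t⁻¹ = t⁻¹ * n⁻¹ := by rw [← mul_inv_rev, ← mul_inv_rev, hn]
  have hnA : ∀ b ∈ E ⊓ R, n * b = b * n := by
    intro b hb
    obtain ⟨z, hzdef⟩ : ∃ z, z = t * b * t⁻¹ * b := ⟨_, rfl⟩
    have hz : z ∈ ZR := by rw [hzdef]; exact hζ b hb.2
    obtain ⟨s, hsdef⟩ : ∃ s, s = b * z := ⟨_, rfl⟩
    have hsA : s ∈ E ⊓ R := by rw [hsdef]; exact (E ⊓ R).mul_mem hb (hZA z hz)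
    have hsI : t * s * t⁻¹ = s⁻¹ := by rw [hsdef, hzdef]; exact hI b hb.2
    have hus : u * s = s * u := hEc u huE s hsA.1
    obtain ⟨w, hwdef⟩ : ∃ w, w = s⁻¹ * ρ⁻¹ * s * ρ := ⟨_, rfl⟩
    have hw : w ∈ ZR := by rw [hwdef]; exact hcomm s hsA.2 ρ hρ
    have hc1 : n * s * n⁻¹ = s * w := by
      rw [hndef, hwdef]
      calc ρ⁻¹ * u * s * (ρ⁻¹ * u)⁻¹ = ρ⁻¹ * (u * s) * u⁻¹ * ρ := by group
        _ = ρ⁻¹ * (s * u) * u⁻¹ * ρ := by rw [hus]
        _ = s * (s⁻¹ * ρ⁻¹ * s * ρ) := by group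
    have hc2 : t * (n * s * n⁻¹) * t⁻¹ = (n * s * n⁻¹)⁻¹ := by
      calc t * (n * s * n⁻¹) * t⁻¹ = (t * n) * s * (n⁻¹ * t⁻¹) := by group
        _ = (n * t) * s * (t⁻¹ * n⁻¹) := by rw [← hn, hn4]
        _ = n * (t * s * t⁻¹) * n⁻¹ := by group
        _ = n * s⁻¹ * n⁻¹ := by rw [hsI]
        _ = (n * s * n⁻¹)⁻¹ := by group
    have hw1 : w = 1 := by
      rw [hc1] at hc2
      have e1 : t * (s * w) * t⁻¹ = s⁻¹ * w := by
        calc t * (s * w) * t⁻¹ = (t * s * t⁻¹) * (t * w) * t⁻¹ := by group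
          _ = s⁻¹ * (w * t) * t⁻¹ := by rw [hsI, hZRt w hw]
          _ = s⁻¹ * w := by group
      have e2 : (s * w)⁻¹ = s⁻¹ * w⁻¹ := by
        rw [mul_inv_rev]; exact hZRc w⁻¹ (ZR.inv_mem hw) s⁻¹ (R.inv_mem hsA.2)
      rw [e1, e2] at hc2
      have e3 : w = w⁻¹ := mul_left_cancel hc2
      have e4 := hsq w (hZRR w hw)
      have e5 : w * w = w := e4.trans e3.symm
      exact mul_left_cancel (a := w) (by rw [e5, mul_one])
    have hns : n * s = s * n := by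
      rw [hw1, mul_one] at hc1
      calc n * s = (n * s * n⁻¹) * n := by group
        _ = s * n := by rw [hc1]
    have hnz : n * z = z * n := hzc n z ((hZR z).mpr hz)
    have hnz' : n * z⁻¹ = z⁻¹ * n := by
      calc n * z⁻¹ = z⁻¹ * (z * n) * z⁻¹ := by group
        _ = z⁻¹ * (n * z) * z⁻¹ := by rw [hnz]
        _ = z⁻¹ * n := by group
    have hbs : b = s * z⁻¹ := by rw [hsdef]; group
    rw [hbs]
    calc n * (s * z⁻¹) = (n * s) * z⁻¹ := by group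
      _ = (s * n) * z⁻¹ := by rw [hns]
      _ = s * (n * z⁻¹) := by group
      _ = s * (z⁻¹ * n) := by rw [hnz']
      _ = s * z⁻¹ * n := by group
  -- (f) `ρ ∈ A`, so `n` commutes with `ρ`
  have hρA : ρ ∈ E ⊓ R := by
    apply hCA ρ hρ
    intro a ha
    have h1 := hnA a ha
    have h2 := hEc u huE a ha.1
    have hρu : ρ = u * n⁻¹ := by rw [hu]; group
    have h1' : n⁻¹ * a = a * n⁻¹ := by
      calc n⁻¹ * a = n⁻¹ * (a * n) * n⁻¹ := by group
        _ = n⁻¹ * (n * a) * n⁻¹ := by rw [h1]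
        _ = a * n⁻¹ := by group
    rw [hρu]
    calc u * n⁻¹ * a = u * (n⁻¹ * a) := by group
      _ = u * (a * n⁻¹) := by rw [h1']
      _ = (u * a) * n⁻¹ := by group
      _ = (a * u) * n⁻¹ := by rw [h2]
      _ = a * (u * n⁻¹) := by group
  have hnρ : n * ρ = ρ * n := hnA ρ hρA
  have hn3 : n ^ 3 = 1 := by
    have hu3 : u ^ 3 = 1 := hEexp u huE
    have hρ3 : ρ ^ 3 = 1 := hRexp ρ hρ
    rw [hu, (show Commute ρ n from hnρ.symm).mul_pow, hρ3, one_mul] at hu3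
    exact hu3
  refine ⟨n, hn, ?_, hn3⟩
  intro hnR
  exact huR (by rw [hu]; exact R.mul_mem hρ hnR)

example : StZC.{u} → StY.{u} := y

end Cfsg.Agent.H1.PC

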