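import Mathlib
import Cfsg.Agent.H45.S8Defs0

set_option autoImplicit false

namespace Cfsg.Agent.H1.S7

open Cfsg.Agent.H45.S8

theorem ar7_aux (q r : ℕ) (hr : r * r = 3 * q) (hrq : r ≤ q) (hq : 1 ≤ q) :
    (q - r + 1) * (q + r + 1) = q ^ 2 - q + 1 ∧
    (∀ N φ : ℕ, 6 * (q - r + 1) * N = q ^ 3 * (q - 1) * (q ^ 3 + 1) * φ →
      6 * N = φ * q ^ 3 * (q ^ 2 - 1) * (q + r + 1)) ∧
    (∀ N φ : ℕ, 6 * (q + r + 1) * N = q ^ 3 * (q - 1) * (q ^ 3 + 1) * φ →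
      6 * N = φ * q ^ 3 * (q ^ 2 - 1) * (q - r + 1)) ∧
    (q ^ 3 + 1) * (q ^ 3 - q ^ 2) = q ^ 2 * (q - 1) * (q ^ 3 + 1) ∧
    q ^ 2 * (q ^ 2 - q + 1) * ((q + 1) * (q - 1)) = q ^ 2 * (q - 1) * (q ^ 3 + 1) := by
  obtain ⟨k, rfl⟩ : ∃ k, q = r + k := ⟨q - r, by omega⟩
  obtain ⟨j, hj⟩ : ∃ j, r + k = j + 1 := ⟨r + k - 1, by omega⟩
  have e1 : r + k - r + 1 = k + 1 := by omega
  have e2 : r + k - 1 = j := by omega
  have e3 : (r + k) ^ 2 - (r + k) + 1 = (r + k) * j + 1 := by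
    have : (r + k) ^ 2 = (r + k) * j + (r + k) := by rw [hj]; ring
    omega
  have e4 : (r + k) ^ 2 - 1 = j * (j + 2) := by
    have : (r + k) ^ 2 = j * (j + 2) + 1 := by rw [hj]; ring
    omega
  have e5 : (r + k) ^ 3 - (r + k) ^ 2 = (r + k) ^ 2 * j := by
    have : (r + k) ^ 3 = (r + k) ^ 2 * j + (r + k) ^ 2 := by
      have : (r + k) ^ 3 = (r + k) ^ 2 * (r + k) := by ring
      rw [this, hj]; ring
    omega
  rw [e1, e2, e3, e4, e5]
  -- key: (k+1)(2r+k+1) = q*j + 1 where q = r + k = j + 1, r*r = 3q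
  have key : (k + 1) * (r + k + r + 1) = (r + k) * j + 1 := by
    have h1 : (r + k) * j + (r + k) = (r + k) * (r + k) := by rw [hj]; ring
    nlinarith [hr, h1]
  have cube : (r + k) ^ 3 + 1 = (j + 2) * ((k + 1) * (r + k + r + 1)) := by
    rw [key, hj]; ring
  refine ⟨key, ?_, ?_, ?_, ?_⟩
  · intro N φ h
    rw [cube] at h
    have hpos : 0 < k + 1 := by omega
    have h' : (k + 1) * (6 * N) = (k + 1) * (φ * (r + k) ^ 3 * (j * (j + 2)) * (r + k + r + 1)) := by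
      calc (k + 1) * (6 * N) = 6 * (k + 1) * N := by ring
        _ = (r + k) ^ 3 * j * ((j + 2) * ((k + 1) * (r + k + r + 1))) * φ := h
        _ = (k + 1) * (φ * (r + k) ^ 3 * (j * (j + 2)) * (r + k + r + 1)) := by ring
    exact Nat.eq_of_mul_eq_mul_left hpos h'
  · intro N φ h
    rw [cube] at h
    have hpos : 0 < r + k + r + 1 := by omega
    have h' : (r + k + r + 1) * (6 * N) =
        (r + k + r + 1) * (φ * (r + k) ^ 3 * (j * (j + 2)) * (k + 1)) := by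
      calc (r + k + r + 1) * (6 * N) = 6 * (r + k + r + 1) * N := by ring
        _ = (r + k) ^ 3 * j * ((j + 2) * ((k + 1) * (r + k + r + 1))) * φ := h
        _ = (r + k + r + 1) * (φ * (r + k) ^ 3 * (j * (j + 2)) * (k + 1)) := by ring
    exact Nat.eq_of_mul_eq_mul_left hpos h'
  · ring
  · rw [cube, key]
    have : r + k + 1 = j + 2 := by omega
    rw [this]; ring

theorem ar7 : ∀ m : ℕ, 1 ≤ m →
    (qq m - rr m + 1) * (qq m + rr m + 1) = MM m ∧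
    (∀ N φ : ℕ, 6 * (qq m - rr m + 1) * N = GG m * φ →
      6 * N = φ * qq m ^ 3 * (qq m ^ 2 - 1) * (qq m + rr m + 1)) ∧
    (∀ N φ : ℕ, 6 * (qq m + rr m + 1) * N = GG m * φ →
      6 * N = φ * qq m ^ 3 * (qq m ^ 2 - 1) * (qq m - rr m + 1)) ∧
    (qq m ^ 3 + 1) * (qq m ^ 3 - qq m ^ 2) = qq m ^ 2 * (qq m - 1) * (qq m ^ 3 + 1) ∧
    qq m ^ 2 * (qq m ^ 2 - qq m + 1) * ((qq m + 1) * (qq m - 1)) =
      qq m ^ 2 * (qq m - 1) * (qq m ^ 3 + 1) := by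
  intro m hm
  have hr : rr m * rr m = 3 * qq m := by
    unfold rr qq
    rw [← pow_add, ← pow_succ']
    congr 1
    omega
  have hrq : rr m ≤ qq m := by
    unfold rr qq
    exact Nat.pow_le_pow_right (by norm_num) (by omega)
  have hq : 1 ≤ qq m := by unfold qq; exact Nat.one_le_pow _ _ (by norm_num)
  exact ar7_aux (qq m) (rr m) hr hrq hq

end Cfsg.Agent.H1.S7
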