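import Mathlib
import Cfsg.Agent.H45.S8Defs0

set_option autoImplicit false

namespace Cfsg.Agent.H1.S7

universe u

theorem conj_orderOf {G : Type u} [Group G] (c w : G) : orderOf (c * w * c⁻¹) = orderOf w := by
  have := (MulAut.conj c).orderOf_eq w
  simpa [MulAut.conj_apply] using this

theorem smul_mk_eq_iff {G : Type u} [Group G] (B : Subgroup G) (w c : G) :
    w • (QuotientGroup.mk c : G ⧸ B) = QuotientGroup.mk c ↔ c⁻¹ * w * c ∈ B := by
  rw [MulAction.Quotient.smul_mk, QuotientGroup.eq]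
  constructor
  · intro h
    have h2 := B.inv_mem h
    have e : ((w • c)⁻¹ * c)⁻¹ = c⁻¹ * w * c := by
      simp [smul_eq_mul, mul_assoc]
    rwa [e] at h2
  · intro h
    have h2 := B.inv_mem h
    have e : (c⁻¹ * w * c)⁻¹ = (w • c)⁻¹ * c := by
      simp [smul_eq_mul, mul_assoc]
    rwa [e] at h2

theorem c3Cnt : ∀ (G : Type u) [Group G] [Finite G] (B U : Subgroup G) (n : ℕ),
    (∀ w ∈ B, orderOf w = 3 → w ∈ U) → U ≤ B →
    (∀ w : G, orderOf w = 3 → ∃! x : G ⧸ B, w • x = x) →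
    (∀ a' ∈ B, a' ≠ 1 → a' * a' = 1 →
      Nat.card {u : G // u ∈ U ∧ orderOf u = 3 ∧ u * a' = a' * u} = n) →
    ∀ a : G, a ≠ 1 → a * a = 1 →
      Nat.card {w : G // orderOf w = 3 ∧ w * a = a * w} =
        Nat.card ↥(MulAction.fixedBy (G ⧸ B) a) * n := by
  intro G _ _ B U n hBU hUB hfix hcnt a ha1 ha2
  classical
  have hainv : a⁻¹ = a := inv_eq_of_mul_eq_one_left ha2
  -- the fixed point map
  have hfa : ∀ w : {w : G // orderOf w = 3 ∧ w * a = a * w},
      a • (hfix w.1 w.2.1).choose = (hfix w.1 w.2.1).choose := by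
    intro w
    have hs := (hfix w.1 w.2.1).choose_spec
    apply hs.2
    have hw := w.2.2
    generalize (hfix w.1 w.2.1).choose = x at hs ⊢
    calc w.1 • a • x = (w.1 * a) • x := (mul_smul _ _ _).symm
      _ = (a * w.1) • x := by rw [hw]
      _ = a • w.1 • x := mul_smul _ _ _
      _ = a • x := by rw [hs.1]
  let f : {w : G // orderOf w = 3 ∧ w * a = a * w} → ↥(MulAction.fixedBy (G ⧸ B) a) :=
    fun w => ⟨(hfix w.1 w.2.1).choose, hfa w⟩
  have hfiber : ∀ y : ↥(MulAction.fixedBy (G ⧸ B) a),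
      Nat.card {w : {w : G // orderOf w = 3 ∧ w * a = a * w} // f w = y} = n := by
    intro y
    obtain ⟨c, hc⟩ := QuotientGroup.mk_surjective (y : G ⧸ B)
    have hy : a • (QuotientGroup.mk c : G ⧸ B) = QuotientGroup.mk c := by
      rw [hc]; exact y.2
    have ha'B : c⁻¹ * a * c ∈ B := (smul_mk_eq_iff B a c).1 hy
    have ha'1 : c⁻¹ * a * c ≠ 1 := by
      intro h
      apply ha1
      have : a = c * (c⁻¹ * a * c) * c⁻¹ := by group
      rw [this, h]; group
    have ha'2 : (c⁻¹ * a * c) * (c⁻¹ * a * c) = 1 := by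
      have : (c⁻¹ * a * c) * (c⁻¹ * a * c) = c⁻¹ * (a * a) * c := by group
      rw [this, ha2]; group
    rw [← hcnt (c⁻¹ * a * c) ha'B ha'1 ha'2]
    -- characterisation of the fibre
    have hmem : ∀ w : {w : G // orderOf w = 3 ∧ w * a = a * w},
        f w = y ↔ w.1 • (QuotientGroup.mk c : G ⧸ B) = QuotientGroup.mk c := by
      intro w
      have hs := (hfix w.1 w.2.1).choose_spec
      constructor
      · intro h
        have h1 : (hfix w.1 w.2.1).choose = (y : G ⧸ B) := congrArg Subtype.val h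
        rw [hc, ← h1]
        exact hs.1
      · intro h
        apply Subtype.ext
        show (hfix w.1 w.2.1).choose = (y : G ⧸ B)
        rw [← hc]
        exact (hs.2 _ h).symm
    refine Nat.card_congr
      { toFun := fun w => ⟨c⁻¹ * w.1.1 * c, ?_, ?_, ?_⟩
        invFun := fun u => ⟨⟨c * u.1 * c⁻¹, ?_, ?_⟩, ?_⟩
        left_inv := ?_
        right_inv := ?_ }
    · have hB : c⁻¹ * w.1.1 * c ∈ B := (smul_mk_eq_iff B w.1.1 c).1 ((hmem w.1).1 w.2)
      apply hBU _ hB
      have := conj_orderOf c⁻¹ w.1.1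
      rw [inv_inv] at this
      rw [this]; exact w.1.2.1
    · have := conj_orderOf c⁻¹ w.1.1
      rw [inv_inv] at this
      rw [this]; exact w.1.2.1
    · have h := w.1.2.2
      calc c⁻¹ * w.1.1 * c * (c⁻¹ * a * c) = c⁻¹ * (w.1.1 * a) * c := by group
        _ = c⁻¹ * (a * w.1.1) * c := by rw [h]
        _ = c⁻¹ * a * c * (c⁻¹ * w.1.1 * c) := by group
    · rw [conj_orderOf]; exact u.2.2.1
    · have h := u.2.2.2
      calc c * u.1 * c⁻¹ * a = c * (u.1 * (c⁻¹ * a * c)) * c⁻¹ := by group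
        _ = c * ((c⁻¹ * a * c) * u.1) * c⁻¹ := by rw [h]
        _ = a * (c * u.1 * c⁻¹) := by group
    · rw [hmem]
      rw [smul_mk_eq_iff]
      have : c⁻¹ * (c * u.1 * c⁻¹) * c = u.1 := by group
      rw [this]
      exact hUB u.2.1
    · intro w
      apply Subtype.ext
      apply Subtype.ext
      show c * (c⁻¹ * w.1.1 * c) * c⁻¹ = w.1.1
      group
    · intro u
      apply Subtype.ext
      show c⁻¹ * (c * u.1 * c⁻¹) * c = u.1
      group
  have e := Equiv.sigmaFiberEquiv f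
  rw [← Nat.card_congr e]
  letI : Fintype ↥(MulAction.fixedBy (G ⧸ B) a) := Fintype.ofFinite _
  rw [Nat.card_sigma]
  simp only [hfiber]
  rw [Finset.sum_const, Finset.card_univ, Nat.card_eq_fintype_card, smul_eq_mul]

end Cfsg.Agent.H1.S7
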