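import Mathlib
import Cfsg.Agent.H45.S8Defs0

set_option autoImplicit false

namespace Cfsg.Agent.H1.S7

open Cfsg.Agent.H45.S8

universe u

theorem inv2_arith (q N : ℕ) (hq : 2 ≤ q)
    (h : N * (q * (q ^ 2 - 1)) = q ^ 3 * (q - 1) * (q ^ 3 + 1)) :
    N = q ^ 2 * (q ^ 2 - q + 1) := by
  obtain ⟨j, rfl⟩ : ∃ j, q = j + 1 := ⟨q - 1, by omega⟩
  have e1 : (j + 1) ^ 2 - 1 = j * (j + 2) := by
    have : (j + 1) ^ 2 = j * (j + 2) + 1 := by ring
    omega
  have e2 : j + 1 - 1 = j := by omega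
  have e3 : (j + 1) ^ 2 - (j + 1) + 1 = (j + 1) * j + 1 := by
    have : (j + 1) ^ 2 = (j + 1) * j + (j + 1) := by ring
    omega
  rw [e1, e2] at h
  rw [e3]
  have hpos : 0 < (j + 1) * (j * (j + 2)) := by
    have : 0 < j := by omega
    positivity
  have h' : N * ((j + 1) * (j * (j + 2))) =
      (j + 1) ^ 2 * ((j + 1) * j + 1) * ((j + 1) * (j * (j + 2))) := by
    rw [h]; ring
  exact Nat.eq_of_mul_eq_mul_right hpos h'

theorem inv2 : ∀ (G : Type u) [Group G] [Finite G] (m : ℕ), 1 ≤ m → Nat.card G = GG m →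
    StInvCnt.{u} →
    ∀ a : G, a ≠ 1 → a * a = 1 → (∀ z : G, z ≠ 1 → z * z = 1 → ∃ c : G, c * a * c⁻¹ = z) →
    Nat.card ↥(Subgroup.centralizer ({a} : Set G)) = qq m * (qq m ^ 2 - 1) →
    Nat.card {g : G // orderOf g = 2} = qq m ^ 2 * (qq m ^ 2 - qq m + 1) := by
  intro G _ _ m hm hG hInv a ha1 ha2 hconj hC
  have h := hInv G a ha1 ha2 hconj
  have hset : {g : G | orderOf g = 2} = InvSet G := by
    ext g
    simp only [Set.mem_setOf_eq, InvSet]
    haveI : Fact (Nat.Prime 2) := ⟨Nat.prime_two⟩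
    rw [orderOf_eq_prime_iff, pow_two]
    tauto
  have hcard : Nat.card {g : G // orderOf g = 2} = (InvSet G).ncard := by
    rw [← hset]
    exact Nat.card_coe_set_eq _
  rw [hcard]
  rw [hC, hG] at h
  have hq : 2 ≤ qq m := by
    unfold qq
    calc 2 ≤ 3 ^ 1 := by norm_num
      _ ≤ 3 ^ (2 * m + 1) := Nat.pow_le_pow_right (by norm_num) (by omega)
  unfold GG at h
  exact inv2_arith (qq m) _ hq h

end Cfsg.Agent.H1.S7
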