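import Mathlib
import Cfsg.Agent.H45.SpTwoGen

set_option autoImplicit false

/-! # S2281-N2E (helper1, for helper97): `Sp₄(q)`, `q ≥ 4` even, is generated by three conjugate
regular unipotent elements.

Construction of helper97: `u = d(J)·U(E₀₀)`, `g = d(diag(1, μ))` (`μ` a generator of `Fˣ`),
`h = L(A + E₁₁)`.  The five word identities between `0/1` matrices are checked over `ZMod 2` by
`decide` and transported along `ZMod 2 →+* F`. -/

namespace Cfsg.Agent.H1.SpR

open Matrix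

abbrev M4 (R : Type*) := Matrix (Fin 2 ⊕ Fin 2) (Fin 2 ⊕ Fin 2) R

section general
variable {R : Type*} [CommRing R]

def Um (p q r : R) : M4 R := fromBlocks 1 !![p, q; q, r] 0 1
def Lm (p q r : R) : M4 R := fromBlocks 1 0 !![p, q; q, r] 1
def dT (s : R) : M4 R := fromBlocks !![1, s; 0, 1] 0 0 !![1, 0; -s, 1]
def am (R : Type*) [CommRing R] : M4 R :=
  fromBlocks !![0, 1; 1, 0] !![0, 0; 1, 0] 0 !![0, 1; 1, 0]
def am' (R : Type*) [CommRing R] : M4 R :=
  fromBlocks !![0, 1; 1, 0] !![0, -1; 0, 0] 0 !![0, 1; 1, 0]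
def cm (R : Type*) [CommRing R] : M4 R :=
  fromBlocks !![0, 1; 1, 1] !![0, 0; 1, 0] !![0, 0; 1, 1] !![1, 1; 0, 0]
def cm' (R : Type*) [CommRing R] : M4 R :=
  fromBlocks !![1, 0; 1, 0] !![0, 1; 0, 0] !![0, 1; 0, 1] !![0, 1; 1, 1]
def n3 (R : Type*) [CommRing R] : M4 R :=
  fromBlocks 0 !![1, 1; 1, 1] 0 0

theorem Um_mul (p q r p' q' r' : R) :
    Um p q r * Um p' q' r' = Um (p + p') (q + q') (r + r') := by
  ext (i|i) (j|j) <;> fin_cases i <;> fin_cases j <;>
    simp [Um, Matrix.mul_apply, Fintype.sum_sum_type, Matrix.one_apply] <;> ring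

theorem Um_zero : Um (0 : R) 0 0 = 1 := by
  ext (i|i) (j|j) <;> fin_cases i <;> fin_cases j <;>
    simp [Um]

theorem Lm_mul (p q r p' q' r' : R) :
    Lm p q r * Lm p' q' r' = Lm (p + p') (q + q') (r + r') := by
  ext (i|i) (j|j) <;> fin_cases i <;> fin_cases j <;>
    simp [Lm, Matrix.mul_apply, Fintype.sum_sum_type, Matrix.one_apply, add_comm]

theorem Lm_zero : Lm (0 : R) 0 0 = 1 := by
  ext (i|i) (j|j) <;> fin_cases i <;> fin_cases j <;>
    simp [Lm]

theorem dT_zero : dT (0 : R) = 1 := by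
  ext (i|i) (j|j) <;> fin_cases i <;> fin_cases j <;>
    simp [dT]

theorem dT_conj_U (s p q r : R) :
    dT s * Um p q r * dT (-s) = Um (p + 2 * s * q + s ^ 2 * r) (q + s * r) r := by
  ext (i|i) (j|j) <;> fin_cases i <;> fin_cases j <;>
    simp [dT, Um, Matrix.mul_apply, Fintype.sum_sum_type, Fin.sum_univ_two, Matrix.one_apply] <;> ring

theorem dT_conj_L (s p q r : R) :
    dT s * Lm p q r * dT (-s) = Lm p (q - s * p) (r - 2 * s * q + s ^ 2 * p) := by
  ext (i|i) (j|j) <;> fin_cases i <;> fin_cases j <;>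
    simp [dT, Lm, Matrix.mul_apply, Fintype.sum_sum_type, Fin.sum_univ_two, Matrix.one_apply] <;> ring

theorem am_mul_am' : am R * am' R = 1 := by
  ext (i|i) (j|j) <;> fin_cases i <;> fin_cases j <;>
    simp [am, am', Matrix.mul_apply, Fintype.sum_sum_type, Fin.sum_univ_two]

theorem xs_inv (s : R) : (dT s * Um 0 1 0) * (Um 0 (-1) 0 * dT (-s)) = 1 := by
  have h1 : dT s * dT (-s) = 1 := by
    have := dT_conj_U s 0 0 0
    rw [Um_zero, mul_one] at this
    rw [this]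
    simp [Um_zero]
  calc (dT s * Um 0 1 0) * (Um 0 (-1) 0 * dT (-s))
      = dT s * (Um 0 1 0 * Um 0 (-1) 0) * dT (-s) := by simp only [mul_assoc]
    _ = 1 := by rw [Um_mul]; simp [Um_zero, h1]

theorem xs_conj_U (s : R) :
    (dT s * Um 0 1 0) * Um 0 0 1 * (Um 0 (-1) 0 * dT (-s)) = Um (s ^ 2) s 1 := by
  calc (dT s * Um 0 1 0) * Um 0 0 1 * (Um 0 (-1) 0 * dT (-s))
      = dT s * (Um 0 1 0 * Um 0 0 1 * Um 0 (-1) 0) * dT (-s) := by simp only [mul_assoc]
    _ = dT s * Um 0 0 1 * dT (-s) := by rw [Um_mul, Um_mul]; simp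
    _ = Um (s ^ 2) s 1 := by rw [dT_conj_U]; simp

theorem am_mem : am R ∈ Matrix.symplecticGroup (Fin 2) R := by
  rw [SymplecticGroup.mem_iff]
  ext (i|i) (j|j) <;> fin_cases i <;> fin_cases j <;>
    simp [am, Matrix.J, Matrix.mul_apply, Fintype.sum_sum_type, Fin.sum_univ_two, Matrix.one_apply]

theorem Lm_mem (p q r : R) : Lm p q r ∈ Matrix.symplecticGroup (Fin 2) R := by
  rw [SymplecticGroup.mem_iff]
  ext (i|i) (j|j) <;> fin_cases i <;> fin_cases j <;>
    simp [Lm, Matrix.J, Matrix.mul_apply, Fintype.sum_sum_type, Fin.sum_univ_two, Matrix.one_apply]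

section maps
variable {S : Type*} [CommRing S] (f : R →+* S)

theorem map22 (a b c d : R) :
    (!![a, b; c, d] : Matrix (Fin 2) (Fin 2) R).map f = !![f a, f b; f c, f d] := by
  ext i j; fin_cases i <;> fin_cases j <;> rfl

theorem map_Um (p q r : R) : (Um p q r).map f = Um (f p) (f q) (f r) := by
  simp [Um, Matrix.fromBlocks_map, map22]

theorem map_Lm (p q r : R) : (Lm p q r).map f = Lm (f p) (f q) (f r) := by
  simp [Lm, Matrix.fromBlocks_map, map22]

theorem map_dT (s : R) : (dT s).map f = dT (f s) := by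
  simp [dT, Matrix.fromBlocks_map, map22]

theorem map_am : (am R).map f = am S := by
  simp [am, Matrix.fromBlocks_map, map22]

theorem map_am' : (am' R).map f = am' S := by
  simp [am', Matrix.fromBlocks_map, map22]

theorem map_cm : (cm R).map f = cm S := by
  simp [cm, Matrix.fromBlocks_map, map22]

theorem map_cm' : (cm' R).map f = cm' S := by
  simp [cm', Matrix.fromBlocks_map, map22]

theorem map_n3 : (n3 R).map f = n3 S := by
  simp [n3, Matrix.fromBlocks_map, map22]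

end maps

end general

/-! ### the identities over `ZMod 2` -/

set_option maxRecDepth 100000 in
theorem d1_two : Lm (0 : ZMod 2) 1 1 * am (ZMod 2) * Lm (0 : ZMod 2) 1 1 = cm (ZMod 2) := by
  decide

set_option maxRecDepth 100000 in
theorem d2_two : cm (ZMod 2) * cm' (ZMod 2) = 1 := by
  decide

set_option maxRecDepth 100000 in
theorem w1_two : cm (ZMod 2) * cm (ZMod 2) * am' (ZMod 2) * cm (ZMod 2) * cm (ZMod 2) *
    am' (ZMod 2) * cm (ZMod 2) = Um (1 : ZMod 2) 1 0 := by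
  decide

set_option maxRecDepth 100000 in
theorem w2_two : am' (ZMod 2) * cm (ZMod 2) * am' (ZMod 2) * cm (ZMod 2) * cm (ZMod 2) *
    am' (ZMod 2) * cm (ZMod 2) * cm (ZMod 2) = Um (0 : ZMod 2) 1 1 := by
  decide

set_option maxRecDepth 100000 in
theorem w3_two : am (ZMod 2) * cm' (ZMod 2) * am (ZMod 2) * cm' (ZMod 2) = Lm (1 : ZMod 2) 1 0 := by
  decide

set_option maxRecDepth 100000 in
theorem w4_two : am (ZMod 2) * cm (ZMod 2) * am (ZMod 2) * cm (ZMod 2) * am (ZMod 2) =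
    Lm (0 : ZMod 2) 1 1 := by
  decide

set_option maxRecDepth 100000 in
theorem w5_two : cm (ZMod 2) * am (ZMod 2) * am (ZMod 2) * cm' (ZMod 2) =
    dT (1 : ZMod 2) * Um (0 : ZMod 2) 1 0 := by
  decide

set_option maxRecDepth 100000 in
theorem n4_two : (am (ZMod 2) - 1) ^ 4 = 0 := by
  decide

set_option maxRecDepth 100000 in
theorem n3_two : (am (ZMod 2) - 1) ^ 3 = n3 (ZMod 2) := by
  decide


/-! ### transport to a field of characteristic two -/

section field
variable {F : Type*} [Field F]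

theorem d1 (h2 : (2 : F) = 0) : Lm (0 : F) 1 1 * am F * Lm (0 : F) (-1) (-1) = cm F := by
  haveI := CharTwo.of_one_ne_zero_of_two_eq_zero (one_ne_zero (α := F)) h2
  have h := congrArg (fun M => M.map (ZMod.castHom (dvd_refl 2) F)) d1_two
  have e : (-1 : F) = 1 := CharTwo.neg_eq 1
  rw [e]
  simpa [Matrix.map_mul, map_cm, map_cm', map_am, map_am', map_Um, map_Lm, map_dT] using h

theorem d2 (h2 : (2 : F) = 0) : cm F * cm' F = 1 := by
  haveI := CharTwo.of_one_ne_zero_of_two_eq_zero (one_ne_zero (α := F)) h2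
  have h := congrArg (fun M => M.map (ZMod.castHom (dvd_refl 2) F)) d2_two
  simpa [Matrix.map_mul, map_cm, map_cm', map_am, map_am', map_Um, map_Lm, map_dT] using h

theorem w1 (h2 : (2 : F) = 0) :
    cm F * cm F * am' F * cm F * cm F * am' F * cm F = Um (1 : F) 1 0 := by
  haveI := CharTwo.of_one_ne_zero_of_two_eq_zero (one_ne_zero (α := F)) h2
  have h := congrArg (fun M => M.map (ZMod.castHom (dvd_refl 2) F)) w1_two
  simpa [Matrix.map_mul, map_cm, map_cm', map_am, map_am', map_Um, map_Lm, map_dT] using h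

theorem w2 (h2 : (2 : F) = 0) :
    am' F * cm F * am' F * cm F * cm F * am' F * cm F * cm F = Um (0 : F) 1 1 := by
  haveI := CharTwo.of_one_ne_zero_of_two_eq_zero (one_ne_zero (α := F)) h2
  have h := congrArg (fun M => M.map (ZMod.castHom (dvd_refl 2) F)) w2_two
  simpa [Matrix.map_mul, map_cm, map_cm', map_am, map_am', map_Um, map_Lm, map_dT] using h

theorem w3 (h2 : (2 : F) = 0) : am F * cm' F * am F * cm' F = Lm (1 : F) 1 0 := by
  haveI := CharTwo.of_one_ne_zero_of_two_eq_zero (one_ne_zero (α := F)) h2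
  have h := congrArg (fun M => M.map (ZMod.castHom (dvd_refl 2) F)) w3_two
  simpa [Matrix.map_mul, map_cm, map_cm', map_am, map_am', map_Um, map_Lm, map_dT] using h

theorem w4 (h2 : (2 : F) = 0) : am F * cm F * am F * cm F * am F = Lm (0 : F) 1 1 := by
  haveI := CharTwo.of_one_ne_zero_of_two_eq_zero (one_ne_zero (α := F)) h2
  have h := congrArg (fun M => M.map (ZMod.castHom (dvd_refl 2) F)) w4_two
  simpa [Matrix.map_mul, map_cm, map_cm', map_am, map_am', map_Um, map_Lm, map_dT] using h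

theorem w5 (h2 : (2 : F) = 0) : cm F * am F * am F * cm' F = dT (1 : F) * Um (0 : F) 1 0 := by
  haveI := CharTwo.of_one_ne_zero_of_two_eq_zero (one_ne_zero (α := F)) h2
  have h := congrArg (fun M => M.map (ZMod.castHom (dvd_refl 2) F)) w5_two
  simpa [Matrix.map_mul, map_cm, map_cm', map_am, map_am', map_Um, map_Lm, map_dT] using h

theorem n4 (h2 : (2 : F) = 0) : (am F - 1) ^ 4 = 0 := by
  haveI := CharTwo.of_one_ne_zero_of_two_eq_zero (one_ne_zero (α := F)) h2
  have h := congrArg (ZMod.castHom (dvd_refl 2) F).mapMatrix n4_two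
  rw [map_pow, map_sub, map_one, map_zero, RingHom.mapMatrix_apply, map_am] at h
  exact h

theorem n3_eq (h2 : (2 : F) = 0) : (am F - 1) ^ 3 = n3 F := by
  haveI := CharTwo.of_one_ne_zero_of_two_eq_zero (one_ne_zero (α := F)) h2
  have h := congrArg (ZMod.castHom (dvd_refl 2) F).mapMatrix n3_two
  rw [map_pow, map_sub, map_one, RingHom.mapMatrix_apply, RingHom.mapMatrix_apply, map_am,
    map_n3] at h
  exact h

theorem n3_ne : n3 F ≠ 0 := by
  intro h
  have := congrFun (congrFun h (Sum.inl 0)) (Sum.inr 0)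
  simp [n3] at this

/-! ### the torus -/

def td (ν : F) : M4 F := fromBlocks !![ν, 0; 0, ν⁻¹] 0 0 !![ν⁻¹, 0; 0, ν]
def gm (μ : F) : M4 F := fromBlocks !![1, 0; 0, μ] 0 0 !![1, 0; 0, μ⁻¹]

theorem td_one : td (1 : F) = 1 := by
  ext (i|i) (j|j) <;> fin_cases i <;> fin_cases j <;>
    simp [td]

theorem td_mul (ν ν' : F) : td ν * td ν' = td (ν * ν') := by
  ext (i|i) (j|j) <;> fin_cases i <;> fin_cases j <;>
    simp [td, Matrix.mul_apply, Fintype.sum_sum_type, Fin.sum_univ_two, mul_comm]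

theorem gm_mul_inv (μ : F) (hμ : μ ≠ 0) : gm μ * gm μ⁻¹ = 1 := by
  ext (i|i) (j|j) <;> fin_cases i <;> fin_cases j <;>
    simp [gm, Matrix.mul_apply, Fintype.sum_sum_type, Fin.sum_univ_two, hμ]

theorem gm_mem (μ : F) (hμ : μ ≠ 0) : gm μ ∈ Matrix.symplecticGroup (Fin 2) F := by
  rw [SymplecticGroup.mem_iff]
  ext (i|i) (j|j) <;> fin_cases i <;> fin_cases j <;>
    simp [gm, Matrix.J, Matrix.mul_apply, Fintype.sum_sum_type, Fin.sum_univ_two,
      Matrix.one_apply, hμ]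

theorem td_conj_U (ν : F) (hν : ν ≠ 0) (p q r : F) :
    td ν * Um p q r * td ν⁻¹ = Um (ν ^ 2 * p) q ((ν⁻¹) ^ 2 * r) := by
  ext (i|i) (j|j) <;> fin_cases i <;> fin_cases j <;>
    simp [td, Um, Matrix.mul_apply, Fintype.sum_sum_type, Fin.sum_univ_two, Matrix.one_apply, hν]
      <;> field_simp

theorem td_conj_L (ν : F) (hν : ν ≠ 0) (p q r : F) :
    td ν * Lm p q r * td ν⁻¹ = Lm ((ν⁻¹) ^ 2 * p) q (ν ^ 2 * r) := by
  ext (i|i) (j|j) <;> fin_cases i <;> fin_cases j <;>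
    simp [td, Lm, Matrix.mul_apply, Fintype.sum_sum_type, Fin.sum_univ_two, Matrix.one_apply, hν]
      <;> field_simp

theorem td_conj_dT (ν : F) (hν : ν ≠ 0) (s : F) :
    td ν * dT s * td ν⁻¹ = dT (ν ^ 2 * s) := by
  ext (i|i) (j|j) <;> fin_cases i <;> fin_cases j <;>
    simp [td, dT, Matrix.mul_apply, Fintype.sum_sum_type, Fin.sum_univ_two, hν]
      <;> field_simp

theorem td_conj_dTU (ν : F) (hν : ν ≠ 0) (s : F) :
    td ν * (dT s * Um 0 1 0) * td ν⁻¹ = dT (ν ^ 2 * s) * Um 0 1 0 := by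
  have h1 : td ν⁻¹ * td ν = 1 := by rw [td_mul, inv_mul_cancel₀ hν, td_one]
  calc td ν * (dT s * Um 0 1 0) * td ν⁻¹
      = (td ν * dT s * td ν⁻¹) * (td ν * Um 0 1 0 * td ν⁻¹) := by
        simp only [mul_assoc]
        rw [← mul_assoc (td ν⁻¹) (td ν), h1, one_mul]
    _ = dT (ν ^ 2 * s) * Um 0 1 0 := by rw [td_conj_dT ν hν, td_conj_U ν hν]; simp

theorem t_eq (μ : F) : am F * (gm μ * am' F * gm μ⁻¹) = td μ := by
  ext (i|i) (j|j) <;> fin_cases i <;> fin_cases j <;>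
    simp [td, gm, am, am', Matrix.mul_apply, Fintype.sum_sum_type, Fin.sum_univ_two]


/-! ### membership bookkeeping -/

/-- the matrix `x` is (the coercion of) an element of `H` -/
def InH (H : Subgroup (Matrix.symplecticGroup (Fin 2) F)) (x : M4 F) : Prop :=
  ∃ y ∈ H, (y : M4 F) = x

theorem inH_one (H : Subgroup (Matrix.symplecticGroup (Fin 2) F)) : InH H 1 :=
  ⟨1, H.one_mem, rfl⟩

theorem inH_mul {H : Subgroup (Matrix.symplecticGroup (Fin 2) F)} {x y : M4 F}
    (hx : InH H x) (hy : InH H y) : InH H (x * y) := by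
  obtain ⟨a, ha, rfl⟩ := hx
  obtain ⟨b, hb, rfl⟩ := hy
  exact ⟨a * b, H.mul_mem ha hb, rfl⟩

theorem coe_inv_eq (a : Matrix.symplecticGroup (Fin 2) F) (x' : M4 F)
    (h : (a : M4 F) * x' = 1) : ((a⁻¹ : Matrix.symplecticGroup (Fin 2) F) : M4 F) = x' := by
  have h1 : ((a⁻¹ : Matrix.symplecticGroup (Fin 2) F) : M4 F) * (a : M4 F) = 1 :=
    congrArg Subtype.val (inv_mul_cancel a)
  calc ((a⁻¹ : Matrix.symplecticGroup (Fin 2) F) : M4 F)
      = ((a⁻¹ : Matrix.symplecticGroup (Fin 2) F) : M4 F) * ((a : M4 F) * x') := by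
        rw [h, mul_one]
    _ = x' := by rw [← mul_assoc, h1, one_mul]

theorem inH_inv {H : Subgroup (Matrix.symplecticGroup (Fin 2) F)} {x x' : M4 F}
    (hx : InH H x) (h : x * x' = 1) : InH H x' := by
  obtain ⟨a, ha, rfl⟩ := hx
  exact ⟨a⁻¹, H.inv_mem ha, coe_inv_eq a x' h⟩

theorem scale_aux (hsq : ∀ a : F, IsSquare a) (ν₀ : F) (h0 : ν₀ ≠ 0) (h1 : ν₀ ^ 2 ≠ 1)
    (Q : F → F → F → Prop)
    (hadd : ∀ p q r p' q' r', Q p q r → Q p' q' r' → Q (p + p') (q + q') (r + r'))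
    (hneg : ∀ p q r, Q p q r → Q (-p) (-q) (-r))
    (hsc : ∀ ν : F, ν ≠ 0 → ∀ p q r, Q p q r → Q (ν ^ 2 * p) q ((ν⁻¹) ^ 2 * r)) :
    (Q 1 1 0 → ∀ c, Q c 0 0) ∧ (Q 0 1 1 → ∀ c, Q 0 0 c) := by
  have hw : ν₀ ^ 2 - 1 ≠ 0 := sub_ne_zero.mpr h1
  constructor
  · intro h c
    have e1 := hsc ν₀ h0 1 1 0 h
    have e2 := hadd _ _ _ _ _ _ e1 (hneg _ _ _ h)
    have e3 : Q (ν₀ ^ 2 - 1) 0 0 := by
      have : Q (ν₀ ^ 2 * 1 + -1) (1 + -1) ((ν₀⁻¹) ^ 2 * 0 + -0) = Q (ν₀ ^ 2 - 1) 0 0 := by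
        congr 1 <;> ring
      rw [← this]; exact e2
    by_cases hc : c = 0
    · have e4 := hadd _ _ _ _ _ _ h (hneg _ _ _ h)
      have : Q (1 + -1) (1 + -1) (0 + -0) = Q c 0 0 := by
        rw [hc]; congr 1 <;> ring
      rw [← this]; exact e4
    · obtain ⟨κ, hκ⟩ := hsq (c / (ν₀ ^ 2 - 1))
      have hκ0 : κ ≠ 0 := by
        rintro rfl
        rw [mul_zero, div_eq_zero_iff] at hκ
        exact hκ.elim hc hw
      have e4 := hsc κ hκ0 _ _ _ e3
      have : Q (κ ^ 2 * (ν₀ ^ 2 - 1)) 0 ((κ⁻¹) ^ 2 * 0) = Q c 0 0 := by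
        congr 1
        · rw [pow_two, ← hκ, div_mul_cancel₀ _ hw]
        · ring
      rw [← this]; exact e4
  · intro h c
    have e1 := hsc ν₀⁻¹ (inv_ne_zero h0) 0 1 1 h
    have e2 := hadd _ _ _ _ _ _ e1 (hneg _ _ _ h)
    have e3 : Q 0 0 (ν₀ ^ 2 - 1) := by
      have : Q ((ν₀⁻¹) ^ 2 * 0 + -0) (1 + -1) ((ν₀⁻¹⁻¹) ^ 2 * 1 + -1) = Q 0 0 (ν₀ ^ 2 - 1) := by
        rw [inv_inv]; congr 1 <;> ring
      rw [← this]; exact e2
    by_cases hc : c = 0
    · have e4 := hadd _ _ _ _ _ _ h (hneg _ _ _ h)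
      have : Q (0 + -0) (1 + -1) (1 + -1) = Q 0 0 c := by
        rw [hc]; congr 1 <;> ring
      rw [← this]; exact e4
    · obtain ⟨κ, hκ⟩ := hsq (c / (ν₀ ^ 2 - 1))
      have hκ0 : κ ≠ 0 := by
        rintro rfl
        rw [mul_zero, div_eq_zero_iff] at hκ
        exact hκ.elim hc hw
      have e4 := hsc κ⁻¹ (inv_ne_zero hκ0) _ _ _ e3
      have : Q ((κ⁻¹) ^ 2 * 0) 0 ((κ⁻¹⁻¹) ^ 2 * (ν₀ ^ 2 - 1)) = Q 0 0 c := by
        rw [inv_inv]
        congr 1
        · ring
        · rw [pow_two, ← hκ, div_mul_cancel₀ _ hw]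
      rw [← this]; exact e4

end field

/-- **S2281-N2E** `Sp₄(q)`, `q ≥ 4` even, is generated by three conjugate regular unipotent
elements. -/
theorem sp4_even {F : Type*} [Field F] [Fintype F] (h2 : (2 : F) = 0)
    (hq : Fintype.card F ≠ 2) :
    ∃ u g h : Matrix.symplecticGroup (Fin 2) F,
      IsNilpotent ((u : Matrix (Fin 2 ⊕ Fin 2) (Fin 2 ⊕ Fin 2) F) - 1) ∧
      ((u : Matrix (Fin 2 ⊕ Fin 2) (Fin 2 ⊕ Fin 2) F) - 1) ^ 3 ≠ 0 ∧
      Subgroup.closure ({u, g * u * g⁻¹, h * u * h⁻¹} :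
        Set (Matrix.symplecticGroup (Fin 2) F)) = ⊤ := by
  classical
  haveI := CharTwo.of_one_ne_zero_of_two_eq_zero (one_ne_zero (α := F)) h2
  have hsq : ∀ a : F, IsSquare a := FiniteField.isSquare_of_char_two (ringChar.eq F 2)
  obtain ⟨ν₀, hν0, hν1⟩ : ∃ ν₀ : F, ν₀ ≠ 0 ∧ ν₀ ^ 2 ≠ 1 := by
    by_contra hcon0
    have hcon : ∀ x : F, x ≠ 0 → x ^ 2 = 1 := by
      intro x hx
      by_contra hne
      exact hcon0 ⟨x, hx, hne⟩
    have hsub : (Finset.univ : Finset F) ⊆ {0, 1} := by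
      intro x _
      by_cases hx : x = 0
      · simp [hx]
      · have h1 := hcon x hx
        have h3 : (x - 1) ^ 2 = 0 := by
          linear_combination h1 + (1 - x) * h2
        have h4 : x - 1 = 0 := by
          have := pow_eq_zero_iff (n := 2) (by norm_num) |>.mp h3
          exact this
        have h5 : x = 1 := sub_eq_zero.mp h4
        simp [h5]
    have hc : Fintype.card F ≤ 2 := by
      calc Fintype.card F = (Finset.univ : Finset F).card := Finset.card_univ.symm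
        _ ≤ ({0, 1} : Finset F).card := Finset.card_le_card hsub
        _ ≤ 2 := Finset.card_le_two
    have hc2 : 1 < Fintype.card F := Fintype.one_lt_card
    omega
  obtain ⟨μu, hμu⟩ := IsCyclic.exists_monoid_generator (α := Fˣ)
  have hμ0 : (μu : F) ≠ 0 := μu.ne_zero
  have hgen : ∀ ν : F, ν ≠ 0 → ∃ n : ℕ, (μu : F) ^ n = ν := by
    intro ν hν
    obtain ⟨n, hn⟩ := hμu (Units.mk0 ν hν)
    refine ⟨n, ?_⟩
    have := congrArg Units.val hn
    simpa using this
  let u : Matrix.symplecticGroup (Fin 2) F := ⟨am F, am_mem⟩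
  let g : Matrix.symplecticGroup (Fin 2) F := ⟨gm (μu : F), gm_mem _ hμ0⟩
  let h : Matrix.symplecticGroup (Fin 2) F := ⟨Lm 0 1 1, Lm_mem 0 1 1⟩
  refine ⟨u, g, h, ⟨4, n4 h2⟩, ?_, ?_⟩
  · show (am F - 1) ^ 3 ≠ 0
    rw [n3_eq h2]; exact n3_ne
  · set H := Subgroup.closure ({u, g * u * g⁻¹, h * u * h⁻¹} :
      Set (Matrix.symplecticGroup (Fin 2) F)) with hH
    have hu : InH H (am F) := ⟨u, Subgroup.subset_closure (by simp), rfl⟩
    have hu' : InH H (am' F) := inH_inv hu am_mul_am'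
    have hginv : ((g⁻¹ : Matrix.symplecticGroup (Fin 2) F) : M4 F) = gm (μu : F)⁻¹ :=
      coe_inv_eq g _ (gm_mul_inv _ hμ0)
    have hhinv : ((h⁻¹ : Matrix.symplecticGroup (Fin 2) F) : M4 F) = Lm 0 (-1) (-1) :=
      coe_inv_eq h _ (by
        show Lm (0 : F) 1 1 * Lm 0 (-1) (-1) = 1
        rw [Lm_mul]; simp [Lm_zero])
    have hgu : InH H (gm (μu : F) * am F * gm (μu : F)⁻¹) :=
      ⟨g * u * g⁻¹, Subgroup.subset_closure (by simp), by
        show (g : M4 F) * (u : M4 F) * ((g⁻¹ : Matrix.symplecticGroup (Fin 2) F) : M4 F) = _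
        rw [hginv]⟩
    have hgu' : InH H (gm (μu : F) * am' F * gm (μu : F)⁻¹) := inH_inv hgu (by
      have e1 : gm (μu : F)⁻¹ * gm (μu : F) = 1 := by
        have := gm_mul_inv (μu : F)⁻¹ (inv_ne_zero hμ0)
        rwa [inv_inv] at this
      calc gm (μu : F) * am F * gm (μu : F)⁻¹ * (gm (μu : F) * am' F * gm (μu : F)⁻¹)
          = gm (μu : F) * (am F * (gm (μu : F)⁻¹ * gm (μu : F)) * am' F) * gm (μu : F)⁻¹ := by
            simp only [mul_assoc]
        _ = 1 := by rw [e1, mul_one, am_mul_am', mul_one, gm_mul_inv _ hμ0])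
    have ht : InH H (td (μu : F)) := by rw [← t_eq]; exact inH_mul hu hgu'
    have htn : ∀ n : ℕ, InH H (td ((μu : F) ^ n)) := by
      intro n
      induction n with
      | zero => rw [pow_zero, td_one]; exact inH_one H
      | succ n ih => rw [pow_succ, ← td_mul]; exact inH_mul ih ht
    have htd : ∀ ν : F, ν ≠ 0 → InH H (td ν) := by
      intro ν hν
      obtain ⟨n, rfl⟩ := hgen ν hν
      exact htn n
    have hc : InH H (cm F) := ⟨h * u * h⁻¹, Subgroup.subset_closure (by simp), by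
      show (h : M4 F) * (u : M4 F) * ((h⁻¹ : Matrix.symplecticGroup (Fin 2) F) : M4 F) = _
      rw [hhinv]; exact d1 h2⟩
    have hc' : InH H (cm' F) := inH_inv hc (d2 h2)
    have hW1 : InH H (Um 1 1 0) := by
      rw [← w1 h2]
      exact inH_mul (inH_mul (inH_mul (inH_mul (inH_mul (inH_mul hc hc) hu') hc) hc) hu') hc
    have hW2 : InH H (Um 0 1 1) := by
      rw [← w2 h2]
      exact inH_mul (inH_mul (inH_mul (inH_mul (inH_mul (inH_mul (inH_mul hu' hc) hu') hc) hc)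
        hu') hc) hc
    have hW3 : InH H (Lm 1 1 0) := by
      rw [← w3 h2]
      exact inH_mul (inH_mul (inH_mul hu hc') hu) hc'
    have hW4 : InH H (Lm 0 1 1) := by
      rw [← w4 h2]
      exact inH_mul (inH_mul (inH_mul (inH_mul hu hc) hu) hc) hu
    have hW5 : InH H (dT 1 * Um 0 1 0) := by
      rw [← w5 h2]
      exact inH_mul (inH_mul (inH_mul hc hu) hu) hc'
    -- the upper root groups
    have hUadd : ∀ p q r p' q' r' : F, InH H (Um p q r) → InH H (Um p' q' r') →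
        InH H (Um (p + p') (q + q') (r + r')) := by
      intro p q r p' q' r' h1 h2'
      rw [← Um_mul]; exact inH_mul h1 h2'
    have hUneg : ∀ p q r : F, InH H (Um p q r) → InH H (Um (-p) (-q) (-r)) := by
      intro p q r h1
      exact inH_inv h1 (by rw [Um_mul, add_neg_cancel, add_neg_cancel, add_neg_cancel, Um_zero])
    have hUsc : ∀ ν : F, ν ≠ 0 → ∀ p q r : F, InH H (Um p q r) →
        InH H (Um (ν ^ 2 * p) q ((ν⁻¹) ^ 2 * r)) := by
      intro ν hν p q r h1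
      rw [← td_conj_U ν hν]
      exact inH_mul (inH_mul (htd ν hν) h1) (htd ν⁻¹ (inv_ne_zero hν))
    obtain ⟨hU1, hU2⟩ := scale_aux hsq ν₀ hν0 hν1 (fun p q r => InH H (Um p q r))
      hUadd hUneg hUsc
    have hUp : ∀ c : F, InH H (Um c 0 0) := hU1 hW1
    have hUr : ∀ c : F, InH H (Um 0 0 c) := hU2 hW2
    -- the lower root groups
    have hLadd : ∀ p q r p' q' r' : F, InH H (Lm p q r) → InH H (Lm p' q' r') →
        InH H (Lm (p + p') (q + q') (r + r')) := by
      intro p q r p' q' r' h1 h2'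
      rw [← Lm_mul]; exact inH_mul h1 h2'
    have hLneg : ∀ p q r : F, InH H (Lm p q r) → InH H (Lm (-p) (-q) (-r)) := by
      intro p q r h1
      exact inH_inv h1 (by rw [Lm_mul, add_neg_cancel, add_neg_cancel, add_neg_cancel, Lm_zero])
    have hLsc : ∀ ν : F, ν ≠ 0 → ∀ p q r : F, InH H (Lm p q r) →
        InH H (Lm (ν ^ 2 * p) q ((ν⁻¹) ^ 2 * r)) := by
      intro ν hν p q r h1
      have e := td_conj_L ν⁻¹ (inv_ne_zero hν) p q r
      rw [inv_inv] at e
      rw [← e]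
      exact inH_mul (inH_mul (htd ν⁻¹ (inv_ne_zero hν)) h1) (htd ν hν)
    obtain ⟨hL1, hL2⟩ := scale_aux hsq ν₀ hν0 hν1 (fun p q r => InH H (Lm p q r))
      hLadd hLneg hLsc
    have hLp : ∀ c : F, InH H (Lm c 0 0) := hL1 hW3
    have hLr : ∀ c : F, InH H (Lm 0 0 c) := hL2 hW4
    -- the mixed root groups
    have hXs : ∀ s : F, s ≠ 0 → InH H (dT s * Um 0 1 0) := by
      intro s hs
      obtain ⟨κ, hκ⟩ := hsq s
      have hκ0 : κ ≠ 0 := by
        rintro rfl
        exact hs (by rw [hκ, mul_zero])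
      have e := td_conj_dTU κ hκ0 1
      have e' : κ ^ 2 * 1 = s := by rw [hκ]; ring
      rw [e'] at e
      rw [← e]
      exact inH_mul (inH_mul (htd κ hκ0) hW5) (htd κ⁻¹ (inv_ne_zero hκ0))
    have hUq : ∀ s : F, InH H (Um 0 s 0) := by
      intro s
      by_cases hs : s = 0
      · rw [hs, Um_zero]; exact inH_one H
      · have h1 := hXs s hs
        have h1' : InH H (Um 0 (-1) 0 * dT (-s)) := inH_inv h1 (xs_inv s)
        have h3 : InH H (Um (s ^ 2) s 1) := by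
          rw [← xs_conj_U s]
          exact inH_mul (inH_mul h1 (hUr 1)) h1'
        have h4 := hUadd _ _ _ _ _ _ (hUadd _ _ _ _ _ _ h3 (hUp (-(s ^ 2)))) (hUr (-1))
        have e : Um (s ^ 2 + -(s ^ 2) + 0) (s + 0 + 0) (1 + 0 + -1) = Um (0 : F) s 0 := by
          congr 1 <;> ring
        rw [← e]; exact h4
    have hU : ∀ p q r : F, InH H (Um p q r) := by
      intro p q r
      have h4 := hUadd _ _ _ _ _ _ (hUadd _ _ _ _ _ _ (hUp p) (hUq q)) (hUr r)
      have e : Um (p + 0 + 0) (0 + q + 0) (0 + 0 + r) = Um p q r := by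
        congr 1 <;> ring
      rw [← e]; exact h4
    have hdT : ∀ s : F, InH H (dT s) := by
      intro s
      by_cases hs : s = 0
      · rw [hs, dT_zero]; exact inH_one H
      · have h1 := inH_mul (hXs s hs) (hU 0 (-1) 0)
        have e : dT s * Um 0 1 0 * Um 0 (-1) 0 = dT s := by
          rw [mul_assoc, Um_mul]; simp [Um_zero]
        rw [← e]; exact h1
    have hLq : ∀ s : F, InH H (Lm 0 s 0) := by
      intro s
      have h1 := inH_mul (inH_mul (hdT (-s)) (hLp 1)) (hdT (- -s))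
      rw [dT_conj_L] at h1
      have h4 := hLadd _ _ _ _ _ _ (hLadd _ _ _ _ _ _ h1 (hLp (-1))) (hLr (-(s ^ 2)))
      have e : Lm (1 + -1 + 0) (0 - -s * 1 + 0 + 0)
          (0 - 2 * -s * 0 + (-s) ^ 2 * 1 + 0 + -(s ^ 2)) = Lm (0 : F) s 0 := by
        congr 1 <;> ring
      rw [← e]; exact h4
    have hL : ∀ p q r : F, InH H (Lm p q r) := by
      intro p q r
      have h4 := hLadd _ _ _ _ _ _ (hLadd _ _ _ _ _ _ (hLp p) (hLq q)) (hLr r)
      have e : Lm (p + 0 + 0) (0 + q + 0) (0 + 0 + r) = Lm p q r := by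
        congr 1 <;> ring
      rw [← e]; exact h4
    apply Cfsg.Agent.H45.sp_eq_top_of_upper_lower H
    · intro S hS
      have h10 : S 1 0 = S 0 1 := by
        have := congrFun (congrFun hS 0) 1
        simpa [Matrix.transpose_apply] using this
      have e : S = !![S 0 0, S 0 1; S 0 1, S 1 1] := by
        ext i j; fin_cases i <;> fin_cases j <;> simp [h10]
      rw [e]; exact hU _ _ _
    · intro S hS
      have h10 : S 1 0 = S 0 1 := by
        have := congrFun (congrFun hS 0) 1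
        simpa [Matrix.transpose_apply] using this
      have e : S = !![S 0 0, S 0 1; S 0 1, S 1 1] := by
        ext i j; fin_cases i <;> fin_cases j <;> simp [h10]
      rw [e]; exact hL _ _ _

end Cfsg.Agent.H1.SpR

namespace Cfsg.Agent.H1.SpR

/-- verbatim check of the posted statement -/
example {F : Type*} [Field F] [Fintype F] (h2 : (2 : F) = 0)
    (hq : Fintype.card F ≠ 2) :
    ∃ u g h : Matrix.symplecticGroup (Fin 2) F,
      IsNilpotent ((u : Matrix (Fin 2 ⊕ Fin 2) (Fin 2 ⊕ Fin 2) F) - 1) ∧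
      ((u : Matrix (Fin 2 ⊕ Fin 2) (Fin 2 ⊕ Fin 2) F) - 1) ^ 3 ≠ 0 ∧
      Subgroup.closure ({u, g * u * g⁻¹, h * u * h⁻¹} :
        Set (Matrix.symplecticGroup (Fin 2) F)) = ⊤ :=
  sp4_even h2 hq

end Cfsg.Agent.H1.SpR
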