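import Mathlib
import Cfsg.Agent.H72.ZasDefs
import Cfsg.Agent.Lib.Helper96.Frob5
import Cfsg.Agent.S0041
import Cfsg.Agent.S3375

/-!
# S0690-BR1 (team project of helper72): a finite group admitting a nontrivial perfect group of
fixed-point-free automorphisms is abelian
-/

set_option autoImplicit false

namespace Cfsg.Agent.H1.ZasP

open Cfsg.Agent.H72.Zas

universe u

theorem stBr1 : StBr1.{u} := by
  intro K _ _ G hfpf hperf hG a b
  classical
  have hp2 : Nat.Prime 2 := Nat.prime_two
  haveI : Fact (Nat.Prime 2) := ⟨hp2⟩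
  by_cases h2 : 2 ∣ Nat.card G
  · obtain ⟨γ, hγ⟩ := exists_prime_orderOf_dvd_card' (G := G) 2 h2
    have hγ' : orderOf (γ : MulAut K) = 2 := by rw [Subgroup.orderOf_coe]; exact hγ
    have hγ1 : (γ : MulAut K) ≠ 1 := by
      intro h; rw [h, orderOf_one] at hγ'; omega
    exact ((Cfsg.Agent.S3375.result (γ : MulAut K) hγ').1
      (fun k hk => hfpf (γ : MulAut K) γ.2 hγ1 k hk)).1 a b
  · exfalso
    haveI : Nontrivial G := (Subgroup.nontrivial_iff_ne_bot G).mpr hG
    -- `K` is nontrivial
    have hKnt : Nontrivial K := by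
      by_contra hK
      rw [not_nontrivial_iff_subsingleton] at hK
      apply hG
      rw [eq_bot_iff]
      intro φ _
      rw [Subgroup.mem_bot]
      apply MulEquiv.ext
      intro k
      exact Subsingleton.elim _ _
    let φ : G →* MulAut K := G.subtype
    let Γ := K ⋊[φ] G
    haveI : Finite Γ := Finite.of_equiv _ (SemidirectProduct.equivProd (φ := φ)).symm
    let Kn : Subgroup Γ := (SemidirectProduct.inl : K →* Γ).range
    let H : Subgroup Γ := (SemidirectProduct.inr : G →* Γ).range
    haveI hKn : Kn.Normal := by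
      have : Kn = (SemidirectProduct.rightHom : Γ →* G).ker :=
        SemidirectProduct.range_inl_eq_ker_rightHom
      rw [this]; infer_instance
    have hKbot : Kn ≠ ⊥ := by
      intro h
      obtain ⟨k, hk⟩ := exists_ne (1 : K)
      have h1 : (SemidirectProduct.inl k : Γ) ∈ Kn := ⟨k, rfl⟩
      rw [h, Subgroup.mem_bot] at h1
      have h3 : (SemidirectProduct.inl k : Γ) = SemidirectProduct.inl 1 := by rw [h1, map_one]
      exact hk (SemidirectProduct.inl_injective h3)
    have hfpf' : ∀ h ∈ H, h ≠ 1 → Kn ⊓ Subgroup.centralizer {h} = ⊥ := by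
      rintro _ ⟨g, rfl⟩ hg1
      rw [eq_bot_iff]
      rintro x hx
      obtain ⟨hx1, hx2⟩ := Subgroup.mem_inf.mp hx
      obtain ⟨k, rfl⟩ := hx1
      rw [Subgroup.mem_bot]
      have hg : (g : MulAut K) ≠ 1 := by
        intro h
        apply hg1
        have : g = 1 := Subtype.ext h
        rw [this, map_one]
      have h1 := Subgroup.mem_centralizer_iff.mp hx2 (SemidirectProduct.inr g) rfl
      -- h1 : inr g * inl k = inl k * inr g
      have h2 : (SemidirectProduct.inl (φ g k) : Γ) = SemidirectProduct.inl k := by
        rw [SemidirectProduct.inl_aut, h1, map_inv, mul_inv_cancel_right]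
      have h3 : φ g k = k := SemidirectProduct.inl_injective h2
      have h4 := hfpf (g : MulAut K) g.2 hg k h3
      rw [h4, map_one]
    have hs41 : Cfsg.Agent.Lib.Helper96.S41 Γ :=
      fun A V _ hV hAV hf hA => Cfsg.Agent.S0041.result A V hV hAV hf hA
    let f : G →* H := (SemidirectProduct.inr : G →* Γ).rangeRestrict
    have hf : Function.Injective f := by
      intro x y hxy
      have := congrArg Subtype.val hxy
      exact SemidirectProduct.inr_injective this
    have hfs : Function.Surjective f := MonoidHom.rangeRestrict_surjective _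
    have hcard : Nat.card H = Nat.card G :=
      (Nat.card_congr (Equiv.ofBijective f ⟨hf, hfs⟩)).symm
    haveI hZ : IsZGroup H := by
      refine ⟨fun p hp P => ?_⟩
      haveI : Fact p.Prime := ⟨hp⟩
      rcases Cfsg.Agent.Lib.Helper96.fpf_sylow_cyclic_or_quaternion hs41 Kn H hKbot hfpf' p P
        with h | ⟨n, ⟨e⟩⟩
      · exact h
      · exfalso
        apply h2
        have h1 : Nat.card (P : Subgroup H) = 4 * 2 ^ n := by
          rw [Nat.card_congr e.toEquiv, Nat.card_eq_fintype_card, QuaternionGroup.card]
        have h3 : Nat.card (P : Subgroup H) ∣ Nat.card H := Subgroup.card_subgroup_dvd_card _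
        rw [h1, hcard] at h3
        exact (Dvd.intro (2 * 2 ^ n) (by ring)).trans h3
    haveI : IsZGroup G := IsZGroup.of_injective (f := f) hf
    have := IsZGroup.commutator_lt (G := G)
    rw [hperf] at this
    exact lt_irrefl _ this

example : StBr1.{u} := stBr1

end Cfsg.Agent.H1.ZasP
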