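import Mathlib
import Cfsg.Agent.H72.ZasDefs

/-!
# S0690-BR2 (team project of helper72): the endomorphism ring of an abelian group acted on
fixed-point-freely
-/

set_option autoImplicit false

namespace Cfsg.Agent.H1.ZasP

open Cfsg.Agent.H72.Zas

universe u

theorem stBr2 : StBr2.{u} := by
  intro K _ _ G hfpf hcomm
  letI : CommGroup K := { ‹Group K› with mul_comm := hcomm }
  haveI : Finite (AddMonoid.End (Additive K)) :=
    Finite.of_injective (fun f : AddMonoid.End (Additive K) => (f : Additive K → Additive K))
      DFunLike.coe_injective
  let ι : G →* AddMonoid.End (Additive K) :=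
    { toFun := fun g => MonoidHom.toAdditive ((g : MulAut K).toMonoidHom)
      map_one' := by ext x; rfl
      map_mul' := by intro a b; ext x; rfl }
  have hι : ∀ (g : G) (x : Additive K), ι g x = Additive.ofMul ((g : MulAut K) x.toMul) :=
    fun g x => rfl
  refine ⟨AddMonoid.End (Additive K), inferInstance, inferInstance, ⟨⟨ι, ?_, ?_⟩⟩⟩
  · intro g h hgh
    apply Subtype.ext
    apply MulEquiv.ext
    intro k
    have := DFunLike.congr_fun hgh (Additive.ofMul k)
    rw [hι, hι] at this
    exact this
  · intro g hg
    have hg' : (g : MulAut K) ≠ 1 := fun h => hg (Subtype.ext h)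
    set f : AddMonoid.End (Additive K) := ι g - 1 with hf
    have hinj : Function.Injective f := by
      rw [injective_iff_map_eq_zero]
      intro x hx
      have h1 : ι g x - x = 0 := hx
      have h2 : ι g x = x := sub_eq_zero.mp h1
      rw [hι] at h2
      have h3 : (g : MulAut K) x.toMul = x.toMul := congrArg Additive.toMul h2
      have h4 := hfpf (g : MulAut K) g.2 hg' _ h3
      exact Additive.toMul.injective h4
    have hbij : Function.Bijective f := ⟨hinj, Finite.injective_iff_surjective.mp hinj⟩
    let e : Additive K ≃+ Additive K := AddEquiv.ofBijective f hbij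
    refine ⟨⟨f, e.symm.toAddMonoidHom, ?_, ?_⟩, rfl⟩
    · ext x
      exact e.apply_symm_apply x
    · ext x
      exact e.symm_apply_apply x

example : StBr2.{u} := stBr2

end Cfsg.Agent.H1.ZasP
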