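import Mathlib
import Cfsg.Agent.H72.ZasDefs
import Cfsg.Agent.H1.FPF

/-!
# S0690-RB (team project of helper72): basic consequences of a fixed-point-free ring embedding
-/

set_option autoImplicit false

namespace Cfsg.Agent.H1.ZasP

open Cfsg.Agent.H72.Zas

universe u

/-- The action of a group on the (multiplicative copy of the) additive group of a ring through a
monoid homomorphism into the ring. -/
@[reducible] def ringAct {A : Type*} [Group A] {E : Type*} [Ring E] (f : A →* E) :
    MulDistribMulAction A (Multiplicative E) where
  smul a v := Multiplicative.ofAdd (f a * Multiplicative.toAdd v)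
  one_smul v := by
    show Multiplicative.ofAdd (f 1 * Multiplicative.toAdd v) = v
    rw [MonoidHom.map_one, one_mul]; rfl
  mul_smul a b v := by
    show Multiplicative.ofAdd (f (a * b) * Multiplicative.toAdd v) =
      Multiplicative.ofAdd (f a * (f b * Multiplicative.toAdd v))
    rw [MonoidHom.map_mul, mul_assoc]
  smul_mul a v w := by
    show Multiplicative.ofAdd (f a * (Multiplicative.toAdd v + Multiplicative.toAdd w)) =
      Multiplicative.ofAdd (f a * Multiplicative.toAdd v) *
        Multiplicative.ofAdd (f a * Multiplicative.toAdd w)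
    rw [mul_add]; rfl
  smul_one a := by
    show Multiplicative.ofAdd (f a * (0 : E)) = 1
    rw [mul_zero]; rfl

theorem ringAct_fpf {A : Type*} [Group A] {E : Type*} [Ring E] (f : A →* E)
    (hu : ∀ a : A, a ≠ 1 → IsUnit (f a - 1)) :
    letI := ringAct f
    ∀ a : A, a ≠ 1 → ∀ v : Multiplicative E, a • v = v → v = 1 := by
  intro a ha v hv
  have h1 : f a * Multiplicative.toAdd v = Multiplicative.toAdd v := by
    have := congrArg Multiplicative.toAdd hv
    exact this
  have h2 : (f a - 1) * Multiplicative.toAdd v = 0 := by
    rw [sub_mul, h1, one_mul, sub_self]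
  obtain ⟨w, hw⟩ := hu a ha
  rw [← hw] at h2
  have h3 : Multiplicative.toAdd v = 0 := by
    have := congrArg (fun x => (↑w⁻¹ : E) * x) h2
    simpa [← mul_assoc] using this
  exact Multiplicative.toAdd.injective h3

theorem stRb : StRb.{u} := by
  intro G _ _ E _ _ R
  refine ⟨fun g hg => R.map_invol hg, fun g hg => R.map_four hg, ?_, ?_⟩
  · intro A hA
    rcases subsingleton_or_nontrivial E with hE | hE
    · haveI : Subsingleton G := ⟨fun a b => R.inj (Subsingleton.elim _ _)⟩
      infer_instance
    · letI := ringAct (R.ι.comp A.subtype)
      have hfpf := ringAct_fpf (R.ι.comp A.subtype) (fun a ha => by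
        have : (a : G) ≠ 1 := fun h => ha (Subtype.ext h)
        exact R.unit a this)
      exact FPF.isCyclic_of_comm (A := A) (V := Multiplicative E) hfpf
        (fun a b => Subtype.ext (hA a.1 a.2 b.1 b.2))
  · intro A p q hp hq hcard
    rcases subsingleton_or_nontrivial E with hE | hE
    · haveI : Subsingleton G := ⟨fun a b => R.inj (Subsingleton.elim _ _)⟩
      infer_instance
    · letI := ringAct (R.ι.comp A.subtype)
      have hfpf := ringAct_fpf (R.ι.comp A.subtype) (fun a ha => by
        have : (a : G) ≠ 1 := fun h => ha (Subtype.ext h)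
        exact R.unit a this)
      exact FPF.isCyclic_of_card (A := A) (V := Multiplicative E) hfpf p q hp hq hcard

example : StRb.{u} := stRb

end Cfsg.Agent.H1.ZasP
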